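import Cfsg.Agent.KnownA.G2Spec.Levi
import Cfsg.Agent.Chars2.Homocyclic.Torus
import Cfsg.Agent.Chev.OrdersByType
import Cfsg.Agent.Chev.TorusOrders
import Cfsg.Agent.Chev.G2Odd.Fusion
import Mathlib.FieldTheory.Finite.Extension
import Mathlib.GroupTheory.IndexNormal

/-!
Elements of `G₂(q)` of order prime to `q` and not dividing three are diagonalisable over an extension field.
-/

set_option autoImplicit false
set_option linter.unusedSectionVars false
set_option synthInstance.maxSize 4000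

universe u

namespace Cfsg.Agent.KnownA.G2Spec

open Cfsg.Lie Cfsg.Agent.Chev Cfsg.Agent.Chev.G2Odd Cfsg.Agent.Chars2.Homocyclic
open scoped Matrix MatrixGroups

variable {F : Type u} [Field F]

theorem card_G2 [Fintype F] : Nat.card ↥(chevG2.group F) =
    Fintype.card F ^ 6 * (Fintype.card F ^ 2 - 1) * (Fintype.card F ^ 6 - 1) := orderG2 rfl

theorem card_diag [Fintype F] : Nat.card ↥(chevG2.diagonalSubgroup F) = (Fintype.card F - 1) ^ 2 := by
  have := card_diagonalG2 (F := F)
  rwa [one_mul] at this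

theorem sq_sub_one (Q : ℕ) : Q ^ 2 - 1 = (Q - 1) * (Q + 1) := by
  rw [show Q ^ 2 - 1 = Q ^ 2 - 1 ^ 2 by rw [one_pow], Nat.sq_sub_sq, mul_comm]

theorem six_sub_one {Q : ℕ} (hQ : 1 ≤ Q) : Q ^ 6 - 1 = (Q - 1) * ((Q + 1) * (Q ^ 4 + Q ^ 2 + 1)) := by
  obtain ⟨m, rfl⟩ := Nat.exists_eq_add_of_le hQ
  rw [Nat.add_sub_cancel_left]
  refine Nat.sub_eq_of_eq_add ?_
  ring

theorem val_group_eq [Fintype F] {r : ℕ} [Fact r.Prime] (hr2 : r ≠ 2) (h : r ∣ Fintype.card F - 1) :
    padicValNat r (Nat.card ↥(chevG2.group F)) = padicValNat r (Nat.card ↥(chevG2.diagonalSubgroup F)) +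
      if r = 3 then 1 else 0 := by
  have hr : r.Prime := Fact.out
  have hQ : 2 ≤ Fintype.card F := Fintype.one_lt_card
  rw [card_G2, card_diag, sq_sub_one, six_sub_one (by omega)]
  set Q := Fintype.card F with hQdef
  have hm : (Q : ZMod r) = 1 := by
    obtain ⟨k, hk⟩ := h
    have : Q = r * k + 1 := by omega
    rw [this]; simp
  have h6 : ¬ r ∣ Q := fun hd => by
    have h1 := (ZMod.natCast_eq_zero_iff _ _).mpr hd
    rw [hm] at h1; exact one_ne_zero h1
  have h1 : ¬ r ∣ Q + 1 := fun hd => by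
    have h1 := (ZMod.natCast_eq_zero_iff _ _).mpr hd
    push_cast at h1
    rw [hm, one_add_one_eq_two] at h1
    have := (ZMod.natCast_eq_zero_iff 2 r).mp (by exact_mod_cast h1)
    exact hr2 ((Nat.prime_dvd_prime_iff_eq hr Nat.prime_two).mp this)
  have h4 : padicValNat r (Q ^ 4 + Q ^ 2 + 1) = if r = 3 then 1 else 0 := by
    split
    · subst r
      obtain ⟨k, hk⟩ := h
      have e : Q = 3 * k + 1 := by omega
      obtain ⟨c, hc⟩ : ∃ c, Q ^ 4 + Q ^ 2 + 1 = 3 * (3 * c + 1) :=
        ⟨9 * k ^ 4 + 12 * k ^ 3 + 7 * k ^ 2 + 2 * k, by rw [e]; ring⟩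
      rw [hc, padicValNat.mul (by norm_num) (by omega), padicValNat_self,
        padicValNat.eq_zero_of_not_dvd (by omega)]
    · rename_i h3
      refine padicValNat.eq_zero_of_not_dvd fun hd => ?_
      have h1 := (ZMod.natCast_eq_zero_iff _ _).mpr hd
      push_cast at h1
      rw [hm, one_pow, one_pow, show (1 : ZMod r) + 1 + 1 = ((3 : ℕ) : ZMod r) by push_cast; ring] at h1
      exact h3 ((Nat.prime_dvd_prime_iff_eq hr Nat.prime_three).mp ((ZMod.natCast_eq_zero_iff 3 r).mp h1))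
  have n1 : Q - 1 ≠ 0 := by omega
  have n2 : Q + 1 ≠ 0 := by omega
  have n3 : Q ^ 4 + Q ^ 2 + 1 ≠ 0 := by omega
  have n4 : Q ^ 6 ≠ 0 := pow_ne_zero _ (by omega)
  rw [padicValNat.mul (mul_ne_zero n4 (mul_ne_zero n1 n2)) (mul_ne_zero n1 (mul_ne_zero n2 n3)),
    padicValNat.mul n4 (mul_ne_zero n1 n2), padicValNat.mul n1 n2, padicValNat.mul n1 (mul_ne_zero n2 n3),
    padicValNat.mul n2 n3, padicValNat.pow, padicValNat.pow, h4, padicValNat.eq_zero_of_not_dvd h1,
    padicValNat.eq_zero_of_not_dvd h6]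
  ring

theorem regular_mod {r : ℕ} (hr : r.Prime) :
    ∀ s < chevG2.nroots, ∃ i < chevG2.rank, ¬ (r : ℤ) ∣ chevG2.cartan i s := by
  intro s hs
  by_contra h
  push_neg at h
  have h0 := Int.natCast_dvd.mp (show (r : ℤ) ∣ (vec s).1 from h 0 (by decide))
  have h1 := Int.natCast_dvd.mp (show (r : ℤ) ∣ (vec s).2 from h 1 (by decide))
  exact hr.one_lt.ne' (Nat.eq_one_of_dvd_coprimes (vec_primitive s hs) h0 h1)

theorem Small.conj {c c' : Fˣ × Fˣ} {n : GL chevG2.Idx F} (e : n * tor c * n⁻¹ = tor c') (h : Small c') :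
    Small c := by
  have key : ∀ k : ℕ, c' ^ k = 1 → c ^ k = 1 := fun k hk => tor_eq_one (by
    have h1 := congrArg tor hk
    rw [tor_pow, ← e, conj_pow, tor_one, conj_eq_one_iff, ← tor_pow] at h1
    exact h1)
  rcases h with h | h
  · exact Or.inl (key 2 h)
  · exact Or.inr (key 3 h)

/-- An element singular at one pair of roots is conjugate to one singular at a simple root. -/
theorem to_simple {c : Fˣ × Fˣ} (hc : ¬ Small c) {r₀ : ℕ} (hr₀ : r₀ < 12) (e₀ : chi c r₀ = 1)
    (hone : ∀ s < 12, chi c s = 1 → s = r₀ ∨ s = 11 - r₀) :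
    ∃ n ∈ chevG2.group F, ∃ c' : Fˣ × Fˣ, ∃ i < 2, n * tor c * n⁻¹ = tor c' ∧ ¬ Small c' ∧
      chi c' (chevG2.simple i) = 1 ∧
      ∀ s < 12, chi c' s = 1 → s = chevG2.simple i ∨ s = 11 - chevG2.simple i := by
  obtain ⟨w, hw, i, hi, ew⟩ := to_simple_table r₀ hr₀
  have hL : ∀ j ∈ w, j < chevG2.rank := W12_lt w hw
  have hN := (cG.{u}).nWordElt_mem (F := F) hL
  obtain ⟨c', ec'⟩ := exists_tor ((cG.{u}).monomial_conj_diagonal hN (tor_mem c))
  refine ⟨_, (cG.{u}).monomial_le_group hN, c', i, hi, ec', fun h => hc (h.conj ec'), ?_, fun s hs hs1 => ?_⟩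
  · rw [← ew, chi_act hL ec' hr₀, e₀]
  · have hlt : act chevG2 w.reverse s < 12 :=
      (cG.{u}).act_lt (fun j hj => hL j (List.mem_reverse.mp hj)) (lt12 hs)
    have hback : act chevG2 w (act chevG2 w.reverse s) = s := act_reverse_right (cG.{u}) hL (lt12 hs)
    rcases hone _ hlt (by rw [← chi_act hL ec' hlt, hback]; exact hs1) with h | h
    · left; rw [← hback, h, ew]
    · right
      rw [← hback, h, ← neg_eq r₀ hr₀, (cG.{u}).act_neg hL (lt12 hr₀), ew, neg_eq]
      exact (cG.{u}).simple_lt i hi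

/-- An element of order prime to `p` commuting with a diagonal element of order above three is diagonalisable. -/
theorem Diagble.of_commute {F : Type} [Field F] [Fintype F] (p : ℕ) [Fact p.Prime] [CharP F p] {c : Fˣ × Fˣ}
    (hc : ¬ Small c) {g : GL chevG2.Idx F} (hg : g ∈ chevG2.group F) (hcom : g * tor c * g⁻¹ = tor c)
    (hp : (orderOf g).Coprime p) : Diagble g := by
  rcases kind hc with hreg | ⟨r₀, hr₀, e₀, hone⟩
  · exact Diagble.of_diagonal (centralizer_regular hc hreg hg hcom)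
  obtain ⟨n, hn, c', i, hi, ec', hc', -, hone'⟩ := to_simple hc hr₀ e₀ hone
  obtain ⟨φ, hφ⟩ := exists_rootHom (F := F) (cG.{0}) ((cG.{0}).simple_lt i hi)
  have hg' : n * g * n⁻¹ ∈ levi φ := by
    refine centralizer_one hc' hi hone' hφ (mul_mem (mul_mem hn hg) (inv_mem hn)) ?_
    rw [← ec']
    calc n * g * n⁻¹ * (n * tor c * n⁻¹) * (n * g * n⁻¹)⁻¹ = n * (g * tor c * g⁻¹) * n⁻¹ := by group
      _ = _ := by rw [hcom]
  refine Diagble.of_conj hn (Diagble.of_levi p hφ ((cG.{0}).pos_simple hi) hg' ?_)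
  have := orderOf_injective (MulAut.conj n).toMonoidHom (MulAut.conj n).injective g
  simp only [MulEquiv.coe_toMonoidHom, MulAut.conj_apply] at this
  rwa [this]

/-- An element of order divisible by a prime above three. -/
theorem diagble_of_prime {F : Type} [Field F] [Fintype F] (p : ℕ) [Fact p.Prime] [CharP F p]
    {g : GL chevG2.Idx F} (hg : g ∈ chevG2.group F) (hp : (orderOf g).Coprime p) {r : ℕ} [Fact r.Prime]
    (hr5 : 5 ≤ r) (hrn : r ∣ orderOf g) : Diagble g := by
  classical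
  have hr : r.Prime := Fact.out
  have hrp : r ≠ p := fun e => hr.one_lt.ne' (Nat.eq_one_of_dvd_coprimes hp hrn (e ▸ dvd_rfl))
  haveI : NeZero (r - 1) := ⟨by omega⟩
  let K := FiniteField.Extension F p (r - 1)
  letI : Fintype K := Fintype.ofFinite K
  let ι : F →+* K := algebraMap F K
  haveI : CharP K p := charP_of_injective_ringHom ι.injective p
  have hK : Fintype.card K = Fintype.card F ^ (r - 1) := by
    rw [← Nat.card_eq_fintype_card, FiniteField.natCard_extension, Nat.card_eq_fintype_card]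
  have hrK : r ∣ Fintype.card K - 1 := by
    obtain ⟨k, -, hk⟩ := FiniteField.card F p
    have hne : (Fintype.card F : ZMod r) ≠ 0 := by
      rw [hk, Ne, ZMod.natCast_eq_zero_iff]
      exact fun hd => hrp ((Nat.prime_dvd_prime_iff_eq hr Fact.out).mp (hr.dvd_of_dvd_pow hd))
    rw [← ZMod.natCast_eq_zero_iff, Nat.cast_sub Fintype.card_pos, hK, Nat.cast_pow,
      ZMod.pow_card_sub_one_eq_one hne, Nat.cast_one, sub_self]
  refine Diagble.of_map ι ?_
  set g' := gmap chevG2 ι g with hg'def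
  have hg' : g' ∈ chevG2.group K := map_group_le ι ⟨g, hg, rfl⟩
  have ho : orderOf g' = orderOf g := gmap_orderOf ι g
  set t := g' ^ (orderOf g' / r) with htdef
  have hpos : 0 < orderOf g' := (isOfFinOrder_of_finite g').orderOf_pos
  have hrn' : r ∣ orderOf g' := ho ▸ hrn
  have htord : orderOf t = r := orderOf_pow_orderOf_div hpos.ne' hrn'
  set TR := torusPart (F := K) (cG.{0}) r with hTR
  have hTRK : TR ≤ chevG2.group K := fun x hx => (cG.{0}).diagonal_le_group ((mem_torusPart _ r).mp hx).1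
  have hTRcard : Nat.card (TR.subgroupOf (chevG2.group K)) = r ^ (Nat.card (chevG2.group K)).factorization r := by
    rw [Nat.card_congr (Subgroup.subgroupOfEquivOfLe hTRK).toEquiv, card_torusPart, Nat.factorization_def _ hr,
      val_group_eq (by omega) hrK, if_neg (by omega), add_zero]
  let PK : Sylow r ↥(chevG2.group K) := Sylow.ofCard (TR.subgroupOf (chevG2.group K)) hTRcard
  have htG : t ∈ chevG2.group K := pow_mem hg' _
  have hz : IsPGroup r (Subgroup.zpowers (⟨t, htG⟩ : ↥(chevG2.group K))) :=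
    IsPGroup.of_card (n := 1) (by rw [Nat.card_zpowers, Subgroup.orderOf_mk, htord, pow_one])
  obtain ⟨R, hR⟩ := hz.exists_le_sylow
  obtain ⟨x, hx⟩ := MulAction.exists_smul_eq ↥(chevG2.group K) R PK
  have hmem : MulAut.conj x • (⟨t, htG⟩ : ↥(chevG2.group K)) ∈ ((x • R : Sylow r _) : Subgroup _) :=
    Subgroup.smul_mem_pointwise_smul _ _ _ (hR (Subgroup.mem_zpowers _))
  rw [hx] at hmem
  obtain ⟨c, ec⟩ : ∃ c, (x : GL chevG2.Idx K) * t * (x : GL chevG2.Idx K)⁻¹ = tor c :=
    exists_tor ((mem_torusPart _ r).mp (show (x : GL chevG2.Idx K) * t * (x : GL chevG2.Idx K)⁻¹ ∈ TR from hmem)).1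
  have hord : orderOf (tor c) = r := by
    rw [← ec]
    refine Eq.trans ?_ htord
    exact orderOf_injective (MulAut.conj (x : GL chevG2.Idx K)).toMonoidHom (MulAut.conj _).injective t
  have hc : ¬ Small c := by
    rintro (h | h) <;>
    · have h1 := orderOf_dvd_of_pow_eq_one h
      rw [← orderOf_tor, hord] at h1
      have := Nat.le_of_dvd (by norm_num) h1
      omega
  refine Diagble.of_conj x.2 (Diagble.of_commute p hc (mul_mem (mul_mem x.2 hg') (inv_mem x.2)) ?_ ?_)
  · rw [← ec]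
    have hct : g' * t = t * g' := (Commute.self_pow g' _).eq
    calc (x : GL chevG2.Idx K) * g' * (x : GL chevG2.Idx K)⁻¹ * (x * t * (x : GL chevG2.Idx K)⁻¹) *
          (x * g' * (x : GL chevG2.Idx K)⁻¹)⁻¹ = x * (g' * t * g'⁻¹) * (x : GL chevG2.Idx K)⁻¹ := by group
      _ = _ := by rw [hct, mul_inv_cancel_right]
  · have := orderOf_injective (MulAut.conj (x : GL chevG2.Idx K)).toMonoidHom (MulAut.conj _).injective g'
    simp only [MulEquiv.coe_toMonoidHom, MulAut.conj_apply] at this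
    rw [this, ho]; exact hp

/-- An element of even order in odd characteristic. -/
theorem diagble_of_even {F : Type} [Field F] [Fintype F] (p : ℕ) [Fact p.Prime] [CharP F p]
    {g : GL chevG2.Idx F} (hg : g ∈ chevG2.group F) (hp : (orderOf g).Coprime p) (h2n : 2 ∣ orderOf g) :
    Diagble g := by
  have hp2 : p ≠ 2 := fun e => by
    have := Nat.eq_one_of_dvd_coprimes hp h2n (e ▸ dvd_rfl)
    norm_num at this
  have hodd : Odd (Fintype.card F) := by
    obtain ⟨k, -, hk⟩ := FiniteField.card F p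
    rw [hk]; exact ((Fact.out : p.Prime).odd_of_ne_two hp2).pow
  have h2 : (2 : F) ≠ 0 := two_ne_zero_of_odd hodd
  set x : ↥(chevG2.group F) := ⟨g, hg⟩
  have hx : orderOf x = orderOf g := Subgroup.orderOf_mk g hg
  have hz : orderOf (x ^ (orderOf x / 2)) = 2 :=
    orderOf_pow_orderOf_div (orderOf_pos x).ne' (hx ▸ h2n)
  obtain ⟨c, hc⟩ := isConj_iff.mp (isConj_tG hodd h2 hz)
  set x' := c * x * c⁻¹ with hx'
  have hcomm : tG F * x' = x' * tG F := by
    rw [← hc, hx']
    have h1 : x ^ (orderOf x / 2) * x = x * x ^ (orderOf x / 2) := ((Commute.self_pow x _).symm).eq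
    calc c * x ^ (orderOf x / 2) * c⁻¹ * (c * x * c⁻¹) = c * (x ^ (orderOf x / 2) * x) * c⁻¹ := by group
      _ = _ := by rw [h1]; group
  have e := congrArg Subtype.val hcomm
  simp only [Subgroup.coe_mul, coe_tG] at e
  refine Diagble.of_conj c.2 (Diagble.of_kSub p (centralizer_eq h2 x'.2 e) ?_)
  show (orderOf ((c * x * c⁻¹ : ↥(chevG2.group F)) : GL chevG2.Idx F)).Coprime p
  have h := orderOf_injective (MulAut.conj c).toMonoidHom (MulAut.conj c).injective x
  simp only [MulEquiv.coe_toMonoidHom, MulAut.conj_apply] at h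
  rw [Subgroup.orderOf_coe, h, hx]
  exact hp

theorem act_append3 (w : List ℕ) (r : ℕ) :
    act chevG2 (w ++ w ++ w) r = act chevG2 w (act chevG2 w (act chevG2 w r)) := by
  rw [act_append, act_append]

/-- An element of three-power order is diagonalisable or has order three. -/
theorem diagble_of_three {F : Type} [Field F] [Fintype F] (p : ℕ) [Fact p.Prime] [CharP F p]
    {g : GL chevG2.Idx F} (hg : g ∈ chevG2.group F) {k : ℕ} (hk : orderOf g = 3 ^ k) (hp3 : p ≠ 3) :
    Diagble g ∨ g ^ 3 = 1 := by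
  classical
  haveI : Fact (Nat.Prime 3) := ⟨Nat.prime_three⟩
  have h3 := Nat.prime_three
  let K := FiniteField.Extension F p 2
  letI : Fintype K := Fintype.ofFinite K
  let ι : F →+* K := algebraMap F K
  have hK : Fintype.card K = Fintype.card F ^ 2 := by
    rw [← Nat.card_eq_fintype_card, FiniteField.natCard_extension, Nat.card_eq_fintype_card]
  have h3K : 3 ∣ Fintype.card K - 1 := by
    obtain ⟨n, -, hn⟩ := FiniteField.card F p
    have hne : (Fintype.card F : ZMod 3) ≠ 0 := by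
      rw [hn, Ne, ZMod.natCast_eq_zero_iff]
      exact fun hd => hp3 ((Nat.prime_dvd_prime_iff_eq h3 Fact.out).mp (h3.dvd_of_dvd_pow hd)).symm
    rw [← ZMod.natCast_eq_zero_iff, Nat.cast_sub Fintype.card_pos, hK, Nat.cast_pow,
      show 2 = 3 - 1 from rfl, ZMod.pow_card_sub_one_eq_one hne, Nat.cast_one, sub_self]
  set g' := gmap chevG2 ι g with hg'def
  have hg' : g' ∈ chevG2.group K := map_group_le ι ⟨g, hg, rfl⟩
  set TR := (torusPart (F := K) (cG.{0}) 3).subgroupOf (chevG2.group K) with hTR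
  have hTRK : torusPart (F := K) (cG.{0}) 3 ≤ chevG2.group K := fun x hx =>
    (cG.{0}).diagonal_le_group ((mem_torusPart _ 3).mp hx).1
  have hcardTR : Nat.card TR = 3 ^ padicValNat 3 (Nat.card (chevG2.diagonalSubgroup K)) := by
    rw [hTR, Nat.card_congr (Subgroup.subgroupOfEquivOfLe hTRK).toEquiv, card_torusPart]
  obtain ⟨P, hP⟩ := (IsPGroup.of_card hcardTR).exists_le_sylow
  set N := TR.subgroupOf (P : Subgroup ↥(chevG2.group K)) with hN
  have hcardP : Nat.card P = 3 ^ (padicValNat 3 (Nat.card (chevG2.diagonalSubgroup K)) + 1) := by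
    rw [P.card_eq_multiplicity, Nat.factorization_def _ h3, val_group_eq (by norm_num) h3K, if_pos rfl]
  have hidx : N.index = 3 := by
    have := N.card_mul_index
    rw [hN, Nat.card_congr (Subgroup.subgroupOfEquivOfLe hP).toEquiv, hcardTR, hcardP, pow_succ] at this
    exact Nat.eq_of_mul_eq_mul_left (pow_pos (by norm_num) _) this
  haveI hNn : N.Normal := Subgroup.normal_of_index_eq_minFac_card (by
    rw [hidx, hcardP, Nat.Prime.pow_minFac h3 (Nat.succ_ne_zero _)])
  have hzz : IsPGroup 3 (Subgroup.zpowers (⟨g', hg'⟩ : ↥(chevG2.group K))) :=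
    IsPGroup.of_card (n := k) (by rw [Nat.card_zpowers, Subgroup.orderOf_mk, gmap_orderOf, hk])
  obtain ⟨R, hR⟩ := hzz.exists_le_sylow
  obtain ⟨x, hx⟩ := MulAction.exists_smul_eq ↥(chevG2.group K) R P
  have hmem : MulAut.conj x • (⟨g', hg'⟩ : ↥(chevG2.group K)) ∈ ((x • R : Sylow 3 _) : Subgroup _) :=
    Subgroup.smul_mem_pointwise_smul _ _ _ (hR (Subgroup.mem_zpowers _))
  rw [hx] at hmem
  set y := (x : GL chevG2.Idx K) * g' * (x : GL chevG2.Idx K)⁻¹ with hy
  have hyK : y ∈ chevG2.group K := mul_mem (mul_mem x.2 hg') (inv_mem x.2)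
  have hyP : (⟨y, hyK⟩ : ↥(chevG2.group K)) ∈ (P : Subgroup ↥(chevG2.group K)) := hmem
  have hymono : y ∈ chevG2.monomialSubgroup K := by
    refine monomial_of_normalizes (cG.{0}) 3 coxG2 (regular_mod h3) h3K hyK fun t => ⟨fun ht => ?_, fun ht => ?_⟩
    · exact hNn.conj_mem ⟨⟨t, hTRK ht⟩, hP (show (⟨t, hTRK ht⟩ : ↥(chevG2.group K)) ∈ TR from ht)⟩ ht ⟨_, hyP⟩
    · have htK : t ∈ chevG2.group K := by
        have := mul_mem (mul_mem (inv_mem hyK) (hTRK ht)) hyK
        rwa [show y⁻¹ * (y * t * y⁻¹) * y = t by group] at this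
      have h1 := hNn.conj_mem ⟨⟨y * t * y⁻¹, hTRK ht⟩, hP (show (⟨_, hTRK ht⟩ : ↥(chevG2.group K)) ∈ TR from ht)⟩
        ht (⟨_, hyP⟩⁻¹)
      have h2 : y⁻¹ * (y * t * y⁻¹) * y⁻¹⁻¹ ∈ torusPart (F := K) (cG.{0}) 3 := h1
      rwa [inv_inv, show y⁻¹ * (y * t * y⁻¹) * y = t by group] at h2
  have hy3 : y ^ 3 ∈ torusPart (F := K) (cG.{0}) 3 := by
    have h := N.pow_index_mem (⟨⟨y, hyK⟩, hyP⟩ : ↥(P : Subgroup ↥(chevG2.group K)))
    rw [hidx] at h
    exact h
  have hyk : y ^ 3 ^ k = 1 := by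
    rw [hy, conj_pow, ← hk, ← gmap_orderOf ι g, pow_orderOf_eq_one, mul_one, mul_inv_cancel]
  obtain ⟨L, h, hh, ey⟩ := (cG.{0}).exists_word coxG2 hymono
  have hL : ∀ i ∈ L.map Fin.val, i < chevG2.rank := (cG.{0}).fin_word_lt L
  obtain ⟨c, rfl⟩ := exists_tor hh
  set n := (cG.{0}).nWordElt K (L.map Fin.val) with hn
  have hnN : n ∈ chevG2.monomialSubgroup K := (cG.{0}).nWordElt_mem hL
  obtain ⟨c1, e1⟩ := exists_tor ((cG.{0}).monomial_conj_diagonal hnN (tor_mem c))
  obtain ⟨c2, e2⟩ := exists_tor ((cG.{0}).monomial_conj_diagonal hnN (tor_mem c1))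
  have hy3e : y ^ 3 = tor (c1 * c2) * (n * n * n) * tor c := by
    rw [ey, tor_mul, ← e2, ← e1]; simp only [pow_succ, pow_zero, one_mul]; group
  obtain ⟨w, hw, hwL⟩ := exists_W12 (L.map Fin.val) hL
  have hn3 : (cG.{0}).nWordElt K ((L ++ L ++ L).map Fin.val) = n * n * n := by
    simp [Cert.nWordElt, hn, mul_assoc]
  have hn3d : n * n * n ∈ chevG2.diagonalSubgroup K := by
    have h1 : tor (c1 * c2) * (n * n * n) * tor c ∈ chevG2.diagonalSubgroup K :=
      hy3e ▸ ((mem_torusPart _ 3).mp hy3).1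
    have h2 := mul_mem (mul_mem (inv_mem (tor_mem (c1 * c2))) h1) (inv_mem (tor_mem c))
    rwa [show (tor (c1 * c2))⁻¹ * (tor (c1 * c2) * (n * n * n) * tor c) * (tor c)⁻¹ = n * n * n by group] at h2
  have hw3 : ∀ r < 12, act chevG2 w (act chevG2 w (act chevG2 w r)) = r := by
    intro r hr
    rw [← hwL r hr, ← hwL _ ((cG.{0}).act_lt hL (lt12 hr)),
      ← hwL _ ((cG.{0}).act_lt hL ((cG.{0}).act_lt hL (lt12 hr))), ← act_append3, ← List.map_append,
      ← List.map_append]
    exact (cG.{0}).act_eq_of_mem_diagonal ((cG.{0}).fin_word_lt _) (hn3.symm ▸ hn3d) (lt12 hr)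
  rcases order_three_table w hw hw3 with hid | hzero
  · left
    refine Diagble.of_map ι (Diagble.of_conj x.2 (Diagble.of_diagonal (show y ∈ _ from ?_)))
    rw [ey]
    exact mul_mem ((cG.{0}).nWordElt_mem_diagonal coxG2 fun r hr => (hwL r hr).trans (hid r hr)) (tor_mem c)
  right
  have hprod : tor (c1 * c2) * tor c = 1 := by
    rw [← tor_mul]
    have key : ∀ s < 12, chi (c1 * c2 * c) s = 1 := by
      intro s hs
      set r := act chevG2 w s
      have hr : r < 12 := act_lt12 w hw s hs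
      have hr1 : act chevG2 w r < 12 := act_lt12 w hw r hr
      have a1 : chi c2 (act chevG2 w (act chevG2 w r)) = chi c1 (act chevG2 w r) := by
        rw [← hwL _ hr1]; exact chi_act hL e2 hr1
      have a2 : chi c1 (act chevG2 w r) = chi c r := by rw [← hwL _ hr]; exact chi_act hL e1 hr
      have a3 : chi c1 (act chevG2 w (act chevG2 w r)) = chi c (act chevG2 w r) := by
        rw [← hwL _ hr1]; exact chi_act hL e1 hr1
      have hsx : act chevG2 w (act chevG2 w r) = s := hw3 s hs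
      have hz := congrArg (ev c) (hzero r hr)
      rw [ev_add, ev_add, ev_zero] at hz
      rw [hsx] at a1 a3 hz
      have hmul : chi (c1 * c2 * c) s = chi c1 s * chi c2 s * chi c s := by
        simp only [chi, ev, Prod.fst_mul, Prod.snd_mul, mul_zpow]; ac_rfl
      rw [hmul, a1, a2, a3]
      rw [mul_comm (chi c (act chevG2 w r))]
      exact hz
    rw [show c1 * c2 * c = 1 from eq_one_of_simple (key 7 (by norm_num)) (key 6 (by norm_num)), tor_one]
  have hy6 : y ^ 6 = 1 := by
    obtain ⟨d, ed⟩ := exists_tor hn3d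
    have hd : ∀ s < 12, chi d s ^ 2 = 1 := by
      intro s hs
      obtain ⟨a, ha, e⟩ := (cG.{0}).nWordElt_mulVec (F := K) ((cG.{0}).fin_word_lt (L ++ L ++ L)) (lt12 hs)
      rw [hn3, ed, coe_tor, dMat_mulVec_rv,
        (cG.{0}).act_eq_of_mem_diagonal ((cG.{0}).fin_word_lt _) (hn3.symm ▸ hn3d) (lt12 hs)] at e
      have := congrFun e (Sum.inr ⟨s, hs⟩)
      simp [rv] at this
      refine Units.ext ?_
      rw [Units.val_pow_eq_pow_val, this, Units.val_one]
      rcases ha with rfl | rfl <;> norm_num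
    have h3' : y ^ 3 = n * n * n := by
      rw [hy3e, ed, ← tor_mul, ← tor_mul, mul_comm (c1 * c2) d, mul_assoc, tor_mul,
        show c1 * c2 * c = 1 from tor_eq_one (by rw [tor_mul]; exact hprod), tor_one, mul_one]
    rw [show 6 = 3 * 2 from rfl, pow_mul, h3', ed, ← tor_pow,
      show d ^ 2 = 1 from eq_one_of_simple (by rw [chi, ev_pow_left]; exact hd 7 (by norm_num))
        (by rw [chi, ev_pow_left]; exact hd 6 (by norm_num)), tor_one]
  have hy3' : y ^ 3 = 1 := by
    refine orderOf_dvd_iff_pow_eq_one.mp ?_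
    obtain ⟨j, -, hj⟩ := (Nat.dvd_prime_pow h3).mp (orderOf_dvd_of_pow_eq_one hyk)
    have hd := orderOf_dvd_of_pow_eq_one hy6
    rw [hj] at hd ⊢
    rcases j with _ | _ | j
    · norm_num
    · norm_num
    · exfalso
      have : 3 ^ (j + 2) ≤ 6 := Nat.le_of_dvd (by norm_num) hd
      have : 9 ≤ 3 ^ (j + 2) := by rw [pow_add]; exact Nat.le_mul_of_pos_left 9 (pow_pos (by norm_num) _)
      omega
  rw [hy, conj_pow, conj_eq_one_iff] at hy3'
  exact gmap_injective ι (by rw [map_pow, map_one]; exact hy3')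

/-- Every element of order prime to the characteristic is diagonalisable or has order dividing three. -/
theorem diagble_or [Fintype F] (p : ℕ) [Fact p.Prime] [CharP F p] {g : GL chevG2.Idx F}
    (hg : g ∈ chevG2.group F) (hp : (orderOf g).Coprime p) : Diagble g ∨ g ^ 3 = 1 := by
  let K := FiniteField.Extension F p 1
  letI : Fintype K := Fintype.ofFinite K
  let ι : F →+* K := algebraMap F K
  haveI : CharP K p := charP_of_injective_ringHom ι.injective p
  suffices h : Diagble (gmap chevG2 ι g) ∨ (gmap chevG2 ι g) ^ 3 = 1 from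
    h.imp (Diagble.of_map ι) fun h => gmap_injective ι (by rw [map_pow, map_one]; exact h)
  have hg' : gmap chevG2 ι g ∈ chevG2.group K := map_group_le ι ⟨g, hg, rfl⟩
  rw [← gmap_orderOf ι g] at hp
  generalize gmap chevG2 ι g = x at hg' hp
  have hpos : 0 < orderOf x := (isOfFinOrder_of_finite x).orderOf_pos
  by_cases h2 : 2 ∣ orderOf x
  · exact Or.inl (diagble_of_even p hg' hp h2)
  by_cases hr : ∃ r, r.Prime ∧ r ∣ orderOf x ∧ 5 ≤ r
  · obtain ⟨r, hr, hrn, hr5⟩ := hr
    haveI : Fact r.Prime := ⟨hr⟩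
    exact Or.inl (diagble_of_prime p hg' hp hr5 hrn)
  push_neg at hr
  have hk : orderOf x = 3 ^ (orderOf x).primeFactorsList.length :=
    Nat.eq_prime_pow_of_unique_prime_dvd hpos.ne' fun {d} hd hdn => by
      have h5 := hr d hd hdn
      have := hd.two_le
      interval_cases d
      · exact absurd hdn h2
      · rfl
      · exact absurd hd (by decide)
  by_cases h1 : orderOf x = 1
  · exact Or.inr (by rw [orderOf_eq_one_iff.mp h1, one_pow])
  refine diagble_of_three p hg' hk fun e => ?_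
  subst e
  have h0 : (orderOf x).primeFactorsList.length ≠ 0 := fun h => h1 (by rw [hk, h, pow_zero])
  rw [hk, Nat.coprime_pow_left_iff (Nat.pos_of_ne_zero h0)] at hp
  norm_num at hp

end Cfsg.Agent.KnownA.G2Spec
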