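import Cfsg.Agent.Chev.G2Odd.Basic
import Cfsg.Agent.Chev.SpecialData
import Cfsg.Agent.Chev.Eval

/-!
Elements of the prime field groups `G₂(p)` of order eight, twelve, nine and twenty-five.
-/

set_option autoImplicit false

universe u

namespace Cfsg.Agent.KnownA.G2Spec

open Cfsg.Lie Cfsg.Agent.Chev Cfsg.Agent.Chev.G2Odd
open scoped Matrix MatrixGroups

/-- Forget the exponents of the two variables. -/
def nfZero : ℕ × ℕ → ℕ × ℕ := fun _ => (0, 0)

/-- The collected coefficient at a position. -/
def coefAt (L : List Ent) (k : ℕ) : ℤ := (L.map fun e => if e.1 = k then e.2.2 else 0).sum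

theorem symVal_one {R : Type u} [CommRing R] (L : List Ent) (k : ℕ) :
    symVal (1 : R) 1 L k = ((coefAt L k : ℤ) : R) := by
  induction L with
  | nil => simp [symVal, coefAt]
  | cons e L ih =>
    rw [symVal_cons, ih]
    simp only [coefAt, List.map_cons, List.sum_cons, mon, one_pow, mul_one, Int.cast_add]
    split <;> simp

/-- A word of root elements with parameter one. -/
def unitWord (w : List ℕ) : List Step := w.map fun r => (r, 1, 0, 0)

/-- The entry of the matrix of a word, computed from the tables. -/
noncomputable def wordEntry (w : List ℕ) (j k : ℕ) : ℤ :=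
  coefAt (evalWord tabG2.colT nfZero (unitWord w) (startEnt j)) k

/-- The word is the identity modulo `p`. -/
noncomputable def isOneMod (p : ℕ) (w : List ℕ) : Bool :=
  allBelow (fun j => allBelow (fun k => dvdB p (wordEntry w j k - if k = j then 1 else 0)) 14) 14

/-- A product of root elements with parameter one. -/
noncomputable def wprod (F : Type u) [Field F] (w : List ℕ) : GL chevG2.Idx F :=
  (cG.{u}).wu (w.map fun r => (r, (1 : F)))

theorem wprod_mem {F : Type u} [Field F] (w : List ℕ) : wprod F w ∈ chevG2.group F := (cG.{u}).wu_mem_group _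

theorem wprod_pow {F : Type u} [Field F] (w : List ℕ) (n : ℕ) :
    wprod F w ^ n = wprod F (List.replicate n w).flatten := by
  induction n with
  | zero => simp [wprod, Cert.wu]
  | succ n ih =>
    rw [pow_succ', ih, List.replicate_succ, List.flatten_cons, wprod, wprod, wprod, List.map_append,
      (cG.{u}).wu_append]

theorem entry_eq {F : Type u} [Field F] {w : List ℕ} (hw : ∀ r ∈ w, r < 12) (a b : chevG2.Idx) :
    (wprod F w : Matrix chevG2.Idx chevG2.Idx F) a b = ((wordEntry w (idxN chevG2 b) (idxN chevG2 a) : ℤ) : F) := by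
  have h := word_entry (F := F) (t := 1) (v := 1) (nf := nfZero) allOKG2.basic.colOK
    (fun _ => by simp [mon, nfZero]) (unitWord w) (by
      intro s hs
      obtain ⟨r, hr, rfl⟩ := List.mem_map.mp hs
      exact hw r hr) a b
  rw [symVal_one] at h
  rw [wprod, Cert.coe_wu, wordEntry, ← h]
  congr 1
  simp [substWord, unitWord, mon, Function.comp_def]

theorem eq_one_iff {F : Type u} [Field F] (p : ℕ) [CharP F p] {w : List ℕ} (hw : ∀ r ∈ w, r < 12) :
    wprod F w = 1 ↔ isOneMod p w = true := by
  have e1 : ∀ a b : chevG2.Idx, ((1 : GL chevG2.Idx F) : Matrix chevG2.Idx chevG2.Idx F) a b =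
      (((if idxN chevG2 a = idxN chevG2 b then 1 else 0 : ℤ)) : F) := by
    intro a b
    rw [Units.val_one, Matrix.one_apply]
    by_cases h : a = b
    · simp [h]
    · rw [if_neg h, if_neg fun e => h (idxN_inj chevG2 e), Int.cast_zero]
  simp only [isOneMod, allBelow_iff, dvdB_iff]
  constructor
  · intro h j hj k hk
    have surj : ∀ n < 14, ∃ a : chevG2.Idx, idxN chevG2 a = n := by
      intro n hn
      by_cases h2 : n < 2
      · exact ⟨Sum.inl ⟨n, h2⟩, rfl⟩
      · exact ⟨Sum.inr ⟨n - 2, show n - 2 < 12 by omega⟩, show 2 + (n - 2) = n by omega⟩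
    obtain ⟨a, rfl⟩ := surj k hk
    obtain ⟨b, rfl⟩ := surj j hj
    rw [← CharP.intCast_eq_zero_iff F p, Int.cast_sub, sub_eq_zero, ← entry_eq hw, h, e1]
  · intro h
    refine Units.ext (Matrix.ext fun a b => ?_)
    rw [entry_eq hw, e1, ← sub_eq_zero, ← Int.cast_sub, CharP.intCast_eq_zero_iff F p]
    exact h _ (idxN_lt chevG2 b) _ (idxN_lt chevG2 a)

set_option maxRecDepth 100000 in
theorem check8 : isOneMod 2 (List.replicate 4 [6, 7]).flatten = false := by decide +kernel

set_option maxRecDepth 100000 in
theorem check12 : isOneMod 2 (List.replicate 12 [6, 3, 7]).flatten = true ∧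
    isOneMod 2 (List.replicate 4 [6, 3, 7]).flatten = false ∧
    isOneMod 2 (List.replicate 6 [6, 3, 7]).flatten = false := by decide +kernel

set_option maxRecDepth 100000 in
theorem check9 : isOneMod 3 (List.replicate 3 [6, 7]).flatten = false := by decide +kernel

set_option maxRecDepth 100000 in
theorem check25 : isOneMod 5 (List.replicate 5 [6, 7]).flatten = false := by decide +kernel

end Cfsg.Agent.KnownA.G2Spec
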