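import Cfsg.Agent.KnownA.G2Spec.Upper
import Cfsg.Agent.KnownA.G2Spec.Small
import Cfsg.Agent.S2371

/-!
Elements of `G₂(q)` of the maximal orders.
-/

set_option autoImplicit false
set_option linter.unusedSectionVars false
set_option synthInstance.maxSize 4000

universe u

namespace Cfsg.Agent.KnownA.G2Spec

open Cfsg.Lie Cfsg.Agent.Chev Cfsg.Agent.Chev.G2Odd Cfsg.Agent.Chars2.Homocyclic
open scoped Matrix MatrixGroups

/-- Every root is a combination of the simple ones, compatibly with the Weyl group. -/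
theorem combo_table : ∀ w ∈ W12, ∀ r < 12, vec (act chevG2 w r) =
    (2 * (vec r).1 + 3 * (vec r).2) • vec (act chevG2 w 7) + ((vec r).1 + 2 * (vec r).2) • vec (act chevG2 w 6) := by
  decide +kernel

/-- Twisting relations only need to be checked at the simple roots. -/
theorem rel_of_simple {K : Type} [Field K] {c : Kˣ × Kˣ} {q : ℕ} {w : List ℕ} (hw : w ∈ W12)
    (h7 : chi c (act chevG2 w 7) = chi c 7 ^ q) (h6 : chi c (act chevG2 w 6) = chi c 6 ^ q) :
    ∀ r < 12, chi c (act chevG2 w r) = chi c r ^ q := by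
  intro r hr
  have e0 := combo_table [] (by simp [W12]) r hr
  simp only [act_nil] at e0
  simp only [chi] at h7 h6 ⊢
  rw [combo_table w hw r hr, ev_add, ev_zsmul, ev_zsmul, h7, h6]
  conv_rhs => rw [e0, ev_add, ev_zsmul, ev_zsmul, mul_pow]
  rw [← zpow_natCast, ← zpow_natCast, ← zpow_natCast (ev c (vec 7) ^ _), ← zpow_natCast (ev c (vec 6) ^ _),
    ← zpow_mul, ← zpow_mul, ← zpow_mul, ← zpow_mul, mul_comm (q : ℤ), mul_comm (q : ℤ)]

/-- A word moves a diagonal element as prescribed by its character. -/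
theorem conj_eq_of_chi {K : Type} [Field K] {c : Kˣ × Kˣ} {q : ℕ} {L : List ℕ} (hL : ∀ i ∈ L, i < 2)
    (h : ∀ r < 12, chi c (act chevG2 L r) = chi c r ^ q) :
    (cG.{0}).nWordElt K L * tor c ^ q * ((cG.{0}).nWordElt K L)⁻¹ = tor c := by
  have hN := (cG.{0}).nWordElt_mem (F := K) (L := L) hL
  rw [← tor_pow]
  obtain ⟨c', e⟩ := exists_tor ((cG.{0}).monomial_conj_diagonal hN (tor_mem (c ^ q)))
  rw [e]
  congr 1
  have key : ∀ s < 12, chi c' s = chi c s := by
    intro s hs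
    have hlt : act chevG2 L.reverse s < 12 :=
      (cG.{0}).act_lt (fun j hj => hL j (List.mem_reverse.mp hj)) (lt12 hs)
    have hb : act chevG2 L (act chevG2 L.reverse s) = s := act_reverse_right (cG.{0}) hL (lt12 hs)
    have := chi_act hL e hlt
    rw [hb] at this
    have h' := (h _ hlt).symm
    rw [hb] at h'
    rw [this, chi, ev_pow_left]
    exact h' 
  refine mul_inv_eq_one.mp (eq_one_of_simple ?_ ?_) <;>
  · rw [chi, ev, Prod.fst_mul, Prod.snd_mul, mul_zpow, mul_zpow, mul_mul_mul_comm, Prod.fst_inv, Prod.snd_inv,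
      inv_zpow', inv_zpow', zpow_neg, zpow_neg, ← mul_inv, mul_inv_eq_one]
    exact key _ (by norm_num)

/-- An element with a twisted diagonal form is defined over the small field. -/
theorem realise {F : Type u} [Field F] [Fintype F] {K : Type} [Field K] [Fintype K] (ι : F →+* K) {φ : K →+* K}
    (hφ : ∀ t, φ t = t ^ Fintype.card F) {C : GL chevG2.Idx K} (hC : C ∈ chevG2.group K) {c : Kˣ × Kˣ}
    (h : C⁻¹ * gmap chevG2 φ C * tor c ^ Fintype.card F * (C⁻¹ * gmap chevG2 φ C)⁻¹ = tor c) :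
    ∃ g ∈ chevG2.group F, gmap chevG2 ι g = C * tor c * C⁻¹ ∧ orderOf g = orderOf c := by
  have hfix : gmap chevG2 φ (C * tor c * C⁻¹) = C * tor c * C⁻¹ := by
    rw [map_mul, map_mul, map_inv, gmap_frob_tor hφ]
    calc gmap chevG2 φ C * tor c ^ Fintype.card F * (gmap chevG2 φ C)⁻¹
        = C * (C⁻¹ * gmap chevG2 φ C * tor c ^ Fintype.card F * (C⁻¹ * gmap chevG2 φ C)⁻¹) * C⁻¹ := by group
      _ = _ := by rw [h]
  obtain ⟨g, hg, e⟩ := mem_small_of_fixed (cG.{u}) (cG.{0}) ι φ hφ coxG2 card_diag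
    (mul_mem (mul_mem hC (tor_mem_group c)) (inv_mem hC)) hfix
  exact ⟨g, hg, e, (orderOf_eq_of_diag ι e).symm⟩

theorem orderOf_pair {K : Type} [Field K] (z : Kˣ) (k : ℕ) : orderOf (z, z ^ k) = orderOf z := by
  rw [Prod.orderOf_mk]
  exact Nat.lcm_eq_left (orderOf_pow_dvd k)

variable {F : Type u} [Field F] [Fintype F] (p : ℕ) [Fact p.Prime] [CharP F p]

theorem exists_unit_order {K : Type} [Field K] [Fintype K] {N : ℕ} (hN : N ∣ Fintype.card K - 1) :
    ∃ z : Kˣ, orderOf z = N := by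
  classical
  obtain ⟨g, hg⟩ := IsCyclic.exists_generator (α := Kˣ)
  have ho : orderOf g = Fintype.card K - 1 := by
    rw [orderOf_eq_card_of_forall_mem_zpowers hg, Nat.card_units, Nat.card_eq_fintype_card]
  have hpos : 0 < Fintype.card K - 1 := by have := Fintype.one_lt_card (α := K); omega
  refine ⟨g ^ ((Fintype.card K - 1) / N), ?_⟩
  rw [← ho]
  exact orderOf_pow_orderOf_div (by omega) (ho ▸ hN)

include p in
/-- The twisted torus of a short simple reflection. -/
theorem exists_reflection_torus (hq : 3 ≤ Fintype.card F) :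
    (∃ g ∈ chevG2.group F, orderOf g = Fintype.card F ^ 2 - 1) ∧
      ∃ g ∈ chevG2.group F, orderOf g = Fintype.card F + 1 ∧ Commute g ((cG.{u}).xu 11 (1 : F)) := by
  classical
  set q := Fintype.card F with hqdef
  obtain ⟨K, iK, iF, ι, hK⟩ : ∃ (K : Type) (_ : Field K) (_ : Fintype K) (_ : F →+* K),
      Fintype.card K = q ^ 2 := by
    letI : Fintype (FiniteField.Extension F p 2) := Fintype.ofFinite _
    refine ⟨FiniteField.Extension F p 2, inferInstance, inferInstance, algebraMap F _, ?_⟩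
    rw [← Nat.card_eq_fintype_card, FiniteField.natCard_extension, Nat.card_eq_fintype_card]
  haveI : CharP K p := charP_of_injective_ringHom ι.injective p
  obtain ⟨φ, hφ⟩ := exists_frob ι
  rw [← hqdef] at hφ
  obtain ⟨θ, hθ⟩ : ∃ θ : K, θ ^ q ≠ θ := by
    by_contra h
    push_neg at h
    have hsurj : Function.Surjective ι := fun x => exists_preimage ι (h x)
    have := Fintype.card_le_of_surjective ι hsurj
    rw [hK, ← hqdef] at this
    nlinarith
  set e := θ - θ ^ q with he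
  have he0 : e ≠ 0 := sub_ne_zero.mpr hθ.symm
  have hθ2 : (θ ^ q) ^ q = θ := by rw [← pow_mul, ← sq, ← hK, FiniteField.pow_card]
  have heq : φ e = -e := by rw [he, map_sub, hφ, hφ, hθ2]; ring
  obtain ⟨M, h00, h01, h10, h11⟩ : ∃ M : Matrix.SpecialLinearGroup (Fin 2) K,
      M 0 0 = 1 ∧ M 0 1 = -e⁻¹ ∧ M 1 0 = θ ∧ M 1 1 = -θ ^ q * e⁻¹ :=
    ⟨⟨!![1, -e⁻¹; θ, -θ ^ q * e⁻¹], by
      rw [Matrix.det_fin_two_of]
      have : e * e⁻¹ = 1 := mul_inv_cancel₀ he0
      linear_combination this - e⁻¹ * he⟩, rfl, rfl, rfl, rfl⟩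
  have hFM : Matrix.SpecialLinearGroup.map φ M = M * (sl2W * sl2D e he0) := by
    refine sl2_ext _ _ ?_ ?_ ?_ ?_ <;>
      simp [sl2_mul_apply, h00, h01, h10, h11, hφ θ, map_inv₀, heq, map_pow]
    · rw [inv_mul_cancel₀ he0]
    · rw [mul_assoc, inv_mul_cancel₀ he0, mul_one]
    · exact Or.inl hθ2
  set C := phiS M with hCdef
  have hC : C ∈ chevG2.group K := hS.mem_group M
  have hn : C⁻¹ * gmap chevG2 φ C = (cG.{0}).nWordElt K [0] * (cG.{0}).hu 7 e := by
    rw [hCdef, root_natural φ hS hS, hFM, map_mul, inv_mul_cancel_left, map_mul, hS.map_W, hS.map_D]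
    simp [Cert.nWordElt, simple0]
  have hL0 : ∀ i ∈ ([0] : List ℕ), i < 2 := by simp
  have act7 : act chevG2 [0] 7 = 4 ∧ act chevG2 [0] 6 = 10 := by decide +kernel
  have v4 : vec 4 = (-2, 1) ∧ vec 10 = (3, -1) ∧ vec 11 = (0, 1) := by decide +kernel
  have hrel : ∀ z : Kˣ, z ^ (q ^ 2 - 1) = 1 → ∀ r < 12,
      chi (z, z ^ (q + 1)) (act chevG2 [0] r) = chi (z, z ^ (q + 1)) r ^ q := by
    intro z hz
    have hz' : z ^ ((q : ℤ) ^ 2 - 1) = 1 := by
      rw [show ((q : ℤ) ^ 2 - 1) = ((q ^ 2 - 1 : ℕ) : ℤ) by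
        rw [Nat.cast_sub (Nat.one_le_pow _ _ (by omega))]; push_cast; rfl, zpow_natCast, hz]
    have key : ∀ A B k : ℤ, A - B = ((q : ℤ) ^ 2 - 1) * k → z ^ A = z ^ B := fun A B k h => by
      rw [show A = B + ((q : ℤ) ^ 2 - 1) * k by omega, zpow_add, zpow_mul, hz', one_zpow, mul_one]
    refine rel_of_simple (by simp [W12]) ?_ ?_
    · rw [act7.1]
      simp only [chi, ev, v4.1, vec_simple.1]
      rw [← zpow_natCast z (q + 1), ← zpow_natCast]
      simp only [← zpow_mul, ← zpow_add]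
      exact key _ _ 1 (by push_cast; ring)
    · rw [act7.2]
      simp only [chi, ev, v4.2.1, vec_simple.2]
      rw [← zpow_natCast z (q + 1), ← zpow_natCast]
      simp only [← zpow_mul, ← zpow_add]
      exact key _ _ (-2) (by push_cast; ring)
  have hcond : ∀ z : Kˣ, z ^ (q ^ 2 - 1) = 1 →
      C⁻¹ * gmap chevG2 φ C * tor (z, z ^ (q + 1)) ^ q * (C⁻¹ * gmap chevG2 φ C)⁻¹ = tor (z, z ^ (q + 1)) := by
    intro z hz
    have hd : (cG.{0}).hu 7 e * tor (z, z ^ (q + 1)) ^ q * ((cG.{0}).hu 7 e)⁻¹ = tor (z, z ^ (q + 1)) ^ q := by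
      rw [(cG.{0}).diagonal_comm ((cG.{0}).hu_simple_mem_diagonal (lt_of 7) he0) (pow_mem (tor_mem _) q),
        mul_inv_cancel_right]
    have := conj_eq_of_chi hL0 (hrel z hz)
    rw [hn]
    calc (cG.{0}).nWordElt K [0] * (cG.{0}).hu 7 e * tor (z, z ^ (q + 1)) ^ q *
          ((cG.{0}).nWordElt K [0] * (cG.{0}).hu 7 e)⁻¹
        = (cG.{0}).nWordElt K [0] * ((cG.{0}).hu 7 e * tor (z, z ^ (q + 1)) ^ q * ((cG.{0}).hu 7 e)⁻¹) *
            ((cG.{0}).nWordElt K [0])⁻¹ := by group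
      _ = _ := by rw [hd]; exact this
  obtain ⟨z, hz⟩ := exists_unit_order (K := K) (N := q ^ 2 - 1) (by rw [hK])
  have hz1 : z ^ (q ^ 2 - 1) = 1 := hz ▸ pow_orderOf_eq_one z
  refine ⟨?_, ?_⟩
  · obtain ⟨g, hg, -, ho⟩ := realise ι (by rwa [← hqdef]) hC (hcond z hz1)
    exact ⟨g, hg, by rw [ho, orderOf_pair, hz]⟩
  · set y := z ^ (q - 1) with hy
    have hy1 : y ^ (q ^ 2 - 1) = 1 := by rw [hy, ← pow_mul, mul_comm, pow_mul, hz1, one_pow]
    obtain ⟨g, hg, eg, ho⟩ := realise ι (by rwa [← hqdef]) hC (hcond y hy1)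
    have hyo : orderOf y = q + 1 := by
      rw [hy, orderOf_pow_of_dvd (by omega) (by rw [hz, sq_sub_one]; exact dvd_mul_right _ _), hz, sq_sub_one,
        Nat.mul_div_cancel_left _ (by omega)]
    refine ⟨g, hg, by rw [ho, orderOf_pair, hyo], ?_⟩
    refine gmap_injective ι ?_
    rw [map_mul, map_mul, eg, gmap_xu (cG.{u}) (cG.{0}), map_one]
    have h1 : Commute C ((cG.{0}).xu 11 (1 : K)) := by
      rw [hCdef, ← hL.U]; exact commute_SL _ _
    have h2 : Commute (tor (y, y ^ (q + 1))) ((cG.{0}).xu 11 (1 : K)) := by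
      refine mul_inv_eq_iff_eq_mul.mp ?_
      rw [tor_conj_xu _ (show 11 < 12 by norm_num)]
      congr 1
      simp [chi, ev, v4.2.2, ← hyo, pow_orderOf_eq_one]
    exact ((h1.mul_left h2).mul_left h1.inv_left).eq

/-- An element of order `q - 1` commuting with a long root element. -/
theorem exists_split_singular :
    ∃ g ∈ chevG2.group F, orderOf g = Fintype.card F - 1 ∧ Commute g ((cG.{u}).xu 11 (1 : F)) := by
  classical
  obtain ⟨z, hz⟩ := IsCyclic.exists_generator (α := Fˣ)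
  have ho : orderOf z = Fintype.card F - 1 := by
    rw [orderOf_eq_card_of_forall_mem_zpowers hz, Nat.card_units, Nat.card_eq_fintype_card]
  refine ⟨tor (z, 1), tor_mem_group _, ?_, ?_⟩
  · rw [orderOf_tor, Prod.orderOf_mk, orderOf_one, Nat.lcm_one_right, ho]
  · refine mul_inv_eq_iff_eq_mul.mp ?_
    rw [tor_conj_xu _ (show 11 < 12 by norm_num)]
    congr 1
    have v11 : vec 11 = (0, 1) := by decide +kernel
    simp [chi, ev, v11]

include p in
/-- The Singer type element of order `q² - q + 1`. -/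
theorem exists_coxeter_torus (hq : 4 ≤ Fintype.card F) :
    ∃ g ∈ chevG2.group F, orderOf g = Fintype.card F ^ 2 - Fintype.card F + 1 := by
  classical
  set q := Fintype.card F with hqdef
  set N := q ^ 2 - q + 1 with hNdef
  have hp : p.Prime := Fact.out
  have hqq : q ≤ q ^ 2 := Nat.le_self_pow two_ne_zero q
  have hN : (N : ℤ) = (q : ℤ) ^ 2 - q + 1 := by rw [hNdef, Nat.cast_add, Nat.cast_sub hqq]; push_cast; ring
  have h9 : ¬ ((9 : ℕ) : ℤ) ∣ (N : ℤ) := by
    rw [hN, ← ZMod.intCast_zmod_eq_zero_iff_dvd]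
    push_cast
    generalize ((q : ℕ) : ZMod 9) = x
    revert x; decide
  have h2N : ¬ ((2 : ℕ) : ℤ) ∣ (N : ℤ) := by
    rw [hN, ← ZMod.intCast_zmod_eq_zero_iff_dvd]
    push_cast
    generalize ((q : ℕ) : ZMod 2) = x
    revert x; decide
  have hbig : 13 ≤ N := by
    have : 4 * q ≤ q ^ 2 := by rw [sq]; exact Nat.mul_le_mul_right q hq
    omega
  obtain ⟨r, hr, hrN, hr5⟩ : ∃ r, r.Prime ∧ r ∣ N ∧ 5 ≤ r := by
    by_contra h
    push_neg at h
    have h3 := Nat.eq_prime_pow_of_unique_prime_dvd (n := N) (p := 3) (by omega) fun {d} hd hdn => by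
      have := h d hd hdn
      have := hd.two_le
      interval_cases d
      · exact absurd (by exact_mod_cast hdn) h2N
      · rfl
      · exact absurd hd (by decide)
    generalize N.primeFactorsList.length = k at h3
    rcases k with _ | _ | k
    · simp at h3; omega
    · simp at h3; omega
    · exact h9 (by exact_mod_cast (h3 ▸ ⟨3 ^ k, by rw [pow_add]; ring⟩ : 9 ∣ N))
  haveI : Fact r.Prime := ⟨hr⟩
  have hrp : ¬ r ∣ q := fun hd => by
    have h1 : (r : ℤ) ∣ (N : ℤ) := by exact_mod_cast hrN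
    have h2 : (r : ℤ) ∣ (q : ℤ) := by exact_mod_cast hd
    rw [hN] at h1
    have h3 : (r : ℤ) ∣ 1 := by
      have := dvd_sub h1 (h2.mul_right ((q : ℤ) - 1))
      rwa [show (q : ℤ) ^ 2 - q + 1 - (q : ℤ) * (q - 1) = 1 by ring] at this
    have := Int.le_of_dvd one_pos h3
    omega
  have hrG : r ∣ Nat.card ↥(chevG2.group F) := by
    rw [card_G2, ← hqdef]
    refine hrN.trans (Dvd.dvd.mul_left ?_ _)
    have e6 : (N * (q + 1) * (q ^ 3 - 1) : ℕ) = q ^ 6 - 1 := by
      have h3 : 1 ≤ q ^ 3 := Nat.one_le_pow _ _ (by omega)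
      have h6 : 1 ≤ q ^ 6 := Nat.one_le_pow _ _ (by omega)
      zify [h3, h6]
      rw [hN]; ring
    exact ⟨(q + 1) * (q ^ 3 - 1), by rw [← e6]; ring⟩
  obtain ⟨x, hx⟩ := exists_prime_orderOf_dvd_card' r hrG
  have hxo : orderOf (x : GL chevG2.Idx F) = r := by rw [Subgroup.orderOf_coe, hx]
  have hxp : (orderOf (x : GL chevG2.Idx F)).Coprime p := by
    rw [hxo, Nat.coprime_primes hr hp]
    rintro rfl
    obtain ⟨n, -, hn⟩ := FiniteField.card F r
    exact hrp (hqdef ▸ hn ▸ dvd_pow_self r n.ne_zero)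
  obtain ⟨K, iK, iF, ι, C, h, hC, hh, e⟩ : Diagble (x : GL chevG2.Idx F) := by
    rcases diagble_or p x.2 hxp with h | h
    · exact h
    · have := orderOf_dvd_of_pow_eq_one h
      rw [hxo] at this
      have := Nat.le_of_dvd (by norm_num) this
      omega
  obtain ⟨c, rfl⟩ := exists_tor hh
  have hco : orderOf c = r := (orderOf_eq_of_diag ι e).trans hxo
  have nodvd : ∀ M : ℕ, (r ∣ M → False) → ∀ (c' : Kˣ × Kˣ), orderOf c' = r → ¬ orderOf c' ∣ M :=
    fun M hM c' hc' h => hM (hc' ▸ h)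
  have hsmall : ∀ c' : Kˣ × Kˣ, orderOf c' = r → ¬ Small c' := by
    rintro c' hc' (h | h) <;>
    · have := Nat.le_of_dvd (by norm_num) (hc' ▸ orderOf_dvd_of_pow_eq_one h)
      omega
  have hr1 : ¬ r ∣ q ^ 2 - 1 ∧ ¬ r ∣ q ^ 2 + q + 1 := by
    have h1 : (r : ℤ) ∣ (N : ℤ) := by exact_mod_cast hrN
    rw [hN] at h1
    have r5 : ¬ (r : ℤ) ∣ 2 ∧ ¬ (r : ℤ) ∣ 3 := by
      constructor <;> intro h <;> have := Int.le_of_dvd (by norm_num) h <;> omega
    have rq : ¬ (r : ℤ) ∣ (q : ℤ) := fun h => hrp (by exact_mod_cast h)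
    have hrI : Prime (r : ℤ) := Nat.prime_iff_prime_int.mp hr
    constructor
    · intro h
      have h2 : (r : ℤ) ∣ (q : ℤ) ^ 2 - 1 := by
        have := Int.natCast_dvd_natCast.mpr h
        rwa [Nat.cast_sub (Nat.one_le_pow _ _ (by omega)), Nat.cast_pow, Nat.cast_one] at this
      have h3 : (r : ℤ) ∣ ((q : ℤ) - 1) * ((q : ℤ) + 1) := by convert h2 using 1; ring
      rcases hrI.dvd_mul.mp h3 with h4 | h4
      · have := dvd_sub h1 (h4.mul_right (q : ℤ))
        rw [show (q : ℤ) ^ 2 - q + 1 - ((q : ℤ) - 1) * q = 1 by ring] at this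
        exact hrI.not_dvd_one this
      · have := dvd_sub h1 (h4.mul_right ((q : ℤ) - 2))
        rw [show (q : ℤ) ^ 2 - q + 1 - ((q : ℤ) + 1) * ((q : ℤ) - 2) = 3 by ring] at this
        exact r5.2 this
    · intro h
      have h2 : (r : ℤ) ∣ (q : ℤ) ^ 2 + q + 1 := by exact_mod_cast h
      have := dvd_sub h2 h1
      rw [show (q : ℤ) ^ 2 + q + 1 - ((q : ℤ) ^ 2 - q + 1) = 2 * q by ring] at this
      rcases hrI.dvd_mul.mp this with h4 | h4
      · exact r5.1 h4
      · exact rq h4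
  have hregular : ∀ c' : Kˣ × Kˣ, ∀ D ∈ chevG2.group K, gmap chevG2 ι (x : GL chevG2.Idx F) = D * tor c' * D⁻¹ →
      ∀ s < 12, chi c' s ≠ 1 := by
    intro c' D hD e'
    have ho : orderOf c' = r := (orderOf_eq_of_diag ι e').trans hxo
    rcases kind (hsmall c' ho) with h | ⟨r₀, hr₀, e₀, hone⟩
    · exact h
    obtain ⟨n, hn, c'', i, hi, ec, -, e1, hone'⟩ := to_simple (hsmall c' ho) hr₀ e₀ hone
    rcases singular_order ι (C := D * n⁻¹) (c := c'') (mul_mem hD (inv_mem hn))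
      (by rw [← ec, e']; group) hi e1 hone' with h | h <;> rw [hxo, ← hqdef] at h <;>
      first
        | exact absurd (h.trans (Dvd.intro _ (sq_sub_one q).symm)) hr1.1
        | exact absurd (h.trans (Dvd.intro_left _ (sq_sub_one q).symm)) hr1.1
  have hreg := hregular c C hC e
  obtain ⟨φ, hφ⟩ := exists_frob ι
  have hφι : φ.comp ι = ι := RingHom.ext fun y => by
    rw [RingHom.comp_apply, hφ, ← map_pow, FiniteField.pow_card]
  rw [← hqdef] at hφ
  set m := C⁻¹ * gmap chevG2 φ C with hm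
  have hmK : m ∈ chevG2.group K := mul_mem (inv_mem hC) (map_group_le φ ⟨C, hC, rfl⟩)
  have hmc : m * tor (c ^ q) * m⁻¹ = tor c := by
    have e1 : gmap chevG2 φ C * tor c ^ q * (gmap chevG2 φ C)⁻¹ = C * tor c * C⁻¹ := by
      rw [← gmap_frob_tor hφ c, ← map_inv, ← map_mul, ← map_mul, ← e, gmap_comp, hφι]
    rw [tor_pow, hm]
    calc C⁻¹ * gmap chevG2 φ C * tor c ^ q * (C⁻¹ * gmap chevG2 φ C)⁻¹
        = C⁻¹ * (gmap chevG2 φ C * tor c ^ q * (gmap chevG2 φ C)⁻¹) * C := by group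
      _ = _ := by rw [e1]; group
  obtain ⟨L, a, ha, d, hd, u, hu, em, fa, fu, hn⟩ := conj_diag (cG.{0}) coxG2 (tor_mem _) (tor_mem c) hmK hmc
  have hL : ∀ i ∈ L.map Fin.val, i < 2 := (cG.{0}).fin_word_lt L
  have hfix1 : ∀ c' : Kˣ × Kˣ, (∀ s < 12, chi c' s ≠ 1) → ∀ v ∈ chevG2.posUnipotent K,
      tor c' * v * (tor c')⁻¹ = v → v = 1 := by
    intro c' hc' v hv hfix
    obtain ⟨χ, hχ, e, hval⟩ := exists_char c'
    obtain ⟨f, rfl, hf⟩ := exists_fixed_prodU (cG.{0}) (cG.{0}).closedSet_pos hχ e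
      (by rwa [Cert.span_pos]) hfix
    rw [← (cG.{0}).prodU_zero, Cert.prodU, Cert.prodU]
    congr 1
    refine List.map_congr_left fun s hs => ?_
    have hp := Cert.mem_posRoots.mp hs
    by_cases h0 : f s = 0
    · rw [h0]
    · exact absurd (Units.ext ((hval s hp.1).symm.trans (hf s hp h0).2)) (hc' s hp.1)
  have hregq : ∀ s < 12, chi (c ^ q) s ≠ 1 := fun s hs h => by
    rw [chi, ev_pow_left] at h
    have h1 : orderOf (chi c s) ∣ r := by
      refine orderOf_dvd_of_pow_eq_one ?_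
      rw [chi, ← ev_pow_left, ← hco, pow_orderOf_eq_one]; simp [ev]
    exact hreg s hs (orderOf_eq_one_iff.mp (Nat.eq_one_of_dvd_coprimes
      ((hr.coprime_iff_not_dvd).mpr hrp) h1 (orderOf_dvd_of_pow_eq_one h)))
  have hmn : m = d * (cG.{0}).nWordElt K (L.map Fin.val) := by
    rw [em, hfix1 c hreg a ha fa, hfix1 _ hregq u hu fu, one_mul, mul_one]
  have hrel : ∀ s < 12, chi c (act chevG2 (L.map Fin.val) s) = chi c s ^ q := fun s hs => by
    rw [chi_act hL hn hs, chi, ev_pow_left]; rfl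
  obtain ⟨w, hw, hwL⟩ := exists_W12 _ hL
  have hr1' : ∀ s < 12, chi c (act chevG2 w s) = chi c s ^ q := fun s hs => by rw [← hwL s hs]; exact hrel s hs
  have hw60 : w = [0, 1] ∨ w = [1, 0] := by
    have tab : ∀ w ∈ W12, (∀ r < 12, act chevG2 w r = r) ∨ (∀ r < 12, act chevG2 w r = 11 - r) ∨
        (∀ r < 12, act chevG2 w (act chevG2 w r) = r) ∨
        (∀ r < 12, vec (act chevG2 w (act chevG2 w r)) + vec (act chevG2 w r) + vec r = 0) ∨
        w = [0, 1] ∨ w = [1, 0] := by decide +kernel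
    have hr2 : ∀ s < 12, chi c (act chevG2 w (act chevG2 w s)) = chi c s ^ q ^ 2 := fun s hs => by
      rw [hr1' _ (act_lt12 w hw s hs), hr1' s hs, ← pow_mul, sq]
    rcases tab w hw with h | h | h | h | h
    · refine absurd ((hco ▸ dvd_of_chi (N := q - 1) fun s hs => ?_).trans (Dvd.intro _ (sq_sub_one q).symm)) hr1.1
      have h1 := hr1' s hs
      rw [h s hs] at h1
      have : chi c s ^ (q - 1) * chi c s = chi c s := by
        rw [← pow_succ, Nat.sub_add_cancel (by omega : 1 ≤ q)]; exact h1.symm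
      exact mul_eq_right.mp this
    · refine absurd ((hco ▸ dvd_of_chi (N := q + 1) fun s hs => ?_).trans (Dvd.intro_left _ (sq_sub_one q).symm)) hr1.1
      have h1 := hr1' s hs
      rw [h s hs, chi_neg c hs] at h1
      rw [pow_succ, ← h1, inv_mul_cancel]
    · refine absurd (hco ▸ dvd_of_chi (N := q ^ 2 - 1) fun s hs => ?_) hr1.1
      have h1 := hr2 s hs
      rw [h s hs] at h1
      have : chi c s ^ (q ^ 2 - 1) * chi c s = chi c s := by
        rw [← pow_succ, Nat.sub_add_cancel (Nat.one_le_pow _ _ (by omega))]; exact h1.symm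
      exact mul_eq_right.mp this
    · refine absurd (hco ▸ dvd_of_chi (N := q ^ 2 + q + 1) fun s hs => ?_) hr1.2
      have h1 := congrArg (ev c) (h s hs)
      rw [ev_add, ev_add, ev_zero] at h1
      rw [pow_succ, pow_add, ← hr2 s hs, ← hr1' s hs]; exact h1
    · exact h
  -- enlarge the field
  obtain ⟨K₂, iK₂, iF₂, κ, hK₂⟩ : ∃ (K₂ : Type) (_ : Field K₂) (_ : Fintype K₂) (κ : K →+* K₂),
      N ∣ Fintype.card K₂ - 1 := by
    haveI : CharP K p := charP_of_injective_ringHom ι.injective p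
    letI : Fintype (FiniteField.Extension K p 6) := Fintype.ofFinite _
    refine ⟨FiniteField.Extension K p 6, inferInstance, inferInstance, algebraMap K _, ?_⟩
    rw [← Nat.card_eq_fintype_card (α := FiniteField.Extension K p 6), FiniteField.natCard_extension,
      Nat.card_eq_fintype_card]
    letI : Algebra F K := ι.toAlgebra
    rw [Module.card_eq_pow_finrank (K := F) (V := K), ← hqdef, ← pow_mul, mul_comm, pow_mul]
    refine dvd_trans ?_ (Nat.sub_one_dvd_pow_sub_one (q ^ 6) _)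
    have h3 : 1 ≤ q ^ 3 := Nat.one_le_pow _ _ (by omega)
    have h6 : 1 ≤ q ^ 6 := Nat.one_le_pow _ _ (by omega)
    refine ⟨(q + 1) * (q ^ 3 - 1), ?_⟩
    zify [h3, h6]
    rw [hN]; ring
  set ι₂ := κ.comp ι
  set C₂ := gmap chevG2 κ C with hC₂
  have hC₂K : C₂ ∈ chevG2.group K₂ := map_group_le κ ⟨C, hC, rfl⟩
  obtain ⟨φ₂, hφ₂⟩ := exists_frob ι₂
  rw [← hqdef] at hφ₂
  have hκφ : φ₂.comp κ = κ.comp φ := RingHom.ext fun y => by
    rw [RingHom.comp_apply, RingHom.comp_apply, hφ₂, hφ, map_pow]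
  obtain ⟨cd, ecd⟩ := exists_tor hd
  have hm₂ : C₂⁻¹ * gmap chevG2 φ₂ C₂ = gmap chevG2 κ (tor cd) * (cG.{0}).nWordElt K₂ (L.map Fin.val) := by
    rw [hC₂, gmap_comp, hκφ, ← gmap_comp, ← map_inv, ← map_mul, ← hm, hmn, ecd, map_mul,
      gmap_nWordElt (cG.{0}) (cG.{0})]
  obtain ⟨z, hz⟩ := exists_unit_order (K := K₂) hK₂
  obtain ⟨k, hk⟩ : ∃ k : ℕ, ∀ s < 12, chi (z, z ^ k) (act chevG2 w s) = chi (z, z ^ k) s ^ q := by
    have hz' : z ^ ((q : ℤ) ^ 2 - q + 1) = 1 := by rw [← hN, zpow_natCast, ← hz, pow_orderOf_eq_one]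
    have key : ∀ A B k : ℤ, A - B = ((q : ℤ) ^ 2 - q + 1) * k → z ^ A = z ^ B := fun A B k h => by
      rw [show A = B + ((q : ℤ) ^ 2 - q + 1) * k by omega, zpow_add, zpow_mul, hz', one_zpow, mul_one]
    rcases hw60 with rfl | rfl
    · refine ⟨q + 1, rel_of_simple (by simp [W12]) ?_ ?_⟩
      · rw [show act chevG2 [0, 1] 7 = 9 by decide +kernel]
        simp only [chi, ev, show vec 9 = (1, 0) by decide +kernel, vec_simple.1]
        rw [← zpow_natCast z (q + 1), ← zpow_natCast]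
        simp only [← zpow_mul, ← zpow_add]
        exact key _ _ 1 (by push_cast; ring)
      · rw [show act chevG2 [0, 1] 6 = 1 by decide +kernel]
        simp only [chi, ev, show vec 1 = (-3, 1) by decide +kernel, vec_simple.2]
        rw [← zpow_natCast z (q + 1), ← zpow_natCast]
        simp only [← zpow_mul, ← zpow_add]
        exact key _ _ (-2) (by push_cast; ring)
    · have hqN : q ≤ N + 2 * 1 := by
        have : 2 * q ≤ q ^ 2 := by rw [sq]; exact Nat.mul_le_mul_right q (by omega)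
        omega
      refine ⟨N + 2 * 1 - q, rel_of_simple (by simp [W12]) ?_ ?_⟩
      · rw [show act chevG2 [1, 0] 7 = 3 by decide +kernel]
        simp only [chi, ev, show vec 3 = (1, -1) by decide +kernel, vec_simple.1]
        rw [← zpow_natCast z (N + 2 * 1 - q), ← zpow_natCast]
        simp only [← zpow_mul, ← zpow_add]
        refine key _ _ ((q : ℤ) - 2) ?_
        rw [Nat.cast_sub hqN, Nat.cast_add, hN]; push_cast; ring
      · rw [show act chevG2 [1, 0] 6 = 11 by decide +kernel]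
        simp only [chi, ev, show vec 11 = (0, 1) by decide +kernel, vec_simple.2]
        rw [← zpow_natCast z (N + 2 * 1 - q), ← zpow_natCast]
        simp only [← zpow_mul, ← zpow_add]
        refine key _ _ (3 - 2 * (q : ℤ)) ?_
        rw [Nat.cast_sub hqN, Nat.cast_add, hN]; push_cast; ring
  have hconj := conj_eq_of_chi (K := K₂) hL (c := (z, z ^ k)) fun s hs => by rw [hwL s hs]; exact hk s hs
  obtain ⟨g, hg, -, ho⟩ := realise ι₂ (by rwa [← hqdef]) hC₂K (c := (z, z ^ k)) (by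
    rw [← hqdef, hm₂, gmap_tor]
    set t := tor (Units.map (κ : K →* K₂) cd.1, Units.map (κ : K →* K₂) cd.2)
    set n := (cG.{0}).nWordElt K₂ (L.map Fin.val)
    calc t * n * tor (z, z ^ k) ^ q * (t * n)⁻¹ = t * (n * tor (z, z ^ k) ^ q * n⁻¹) * t⁻¹ := by group
      _ = t * tor (z, z ^ k) * t⁻¹ := by rw [hconj]
      _ = _ := by rw [(cG.{0}).diagonal_comm (tor_mem _) (tor_mem (z, z ^ k)), mul_inv_cancel_right])
  exact ⟨g, hg, by rw [ho, orderOf_pair, hz]⟩

/-- An element of order `q² + q + 1`. -/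
theorem exists_singer_order (hq : 3 ≤ Fintype.card F) :
    ∃ g ∈ chevG2.group F, orderOf g = Fintype.card F ^ 2 + Fintype.card F + 1 := by
  obtain ⟨H, hH, hc, -⟩ := Cfsg.Agent.S2371.result (F := F) (Fintype.card F) rfl hq
  obtain ⟨g, hg⟩ := hH.exists_generator
  refine ⟨(g : ↥(chevG2.group F)), (g : ↥(chevG2.group F)).2, ?_⟩
  rw [Subgroup.orderOf_coe, Subgroup.orderOf_coe, orderOf_eq_card_of_forall_mem_zpowers hg, hc]

/-- Products with a long root element. -/
theorem exists_mul_char {m : ℕ} (hm : m.Coprime p)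
    (h : ∃ g ∈ chevG2.group F, orderOf g = m ∧ Commute g ((cG.{u}).xu 11 (1 : F))) :
    ∃ g ∈ chevG2.group F, orderOf g = p * m := by
  obtain ⟨g, hg, ho, hc⟩ := h
  set x := (cG.{u}).xu 11 (1 : F) with hx
  have hxp : orderOf x = p := by
    haveI := (inferInstance : Fact p.Prime)
    refine orderOf_eq_prime ?_ ?_
    · have : ∀ k : ℕ, x ^ k = (cG.{u}).xu 11 (k : F) := by
        intro k
        induction k with
        | zero => simp [(cG.{u}).xu_zero]
        | succ k ih => rw [pow_succ, ih, hx, (cG.{u}).xu_add]; push_cast; rfl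
      rw [this, CharP.cast_eq_zero, (cG.{u}).xu_zero]
    · exact fun h => one_ne_zero ((cG.{u}).xu_eq_one (lt12 (by norm_num)) h)
  refine ⟨g * x, mul_mem hg ((cG.{u}).xu_mem_group _ _), ?_⟩
  rw [hc.orderOf_mul_eq_mul_orderOf_of_coprime (by rw [ho, hxp]; exact hm), ho, hxp, mul_comm]

theorem exists_eight {F : Type u} [Field F] [Fintype F] [CharP F 2] :
    ∃ g ∈ chevG2.group F, orderOf g = 8 := by
  haveI : Fact (Nat.Prime 2) := ⟨Nat.prime_two⟩
  refine ⟨wprod F [6, 7], wprod_mem _, ?_⟩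
  have hU : wprod F [6, 7] ∈ chevG2.posUnipotent F := by
    rw [wprod]
    simp only [List.map_cons, List.map_nil, Cert.wu, List.prod_cons, List.prod_nil, mul_one]
    exact mul_mem ((cG.{u}).xu_mem_pos (by decide +kernel) _) ((cG.{u}).xu_mem_pos (by decide +kernel) _)
  have h8 : wprod F [6, 7] ^ 2 ^ (2 + 1) = 1 := by simpa [smallExp] using (pos_pow_eq_one 2 hU).1
  refine orderOf_eq_prime_pow (p := 2) (n := 2) (fun h => ?_) h8
  rw [show (2 : ℕ) ^ 2 = 4 from rfl, wprod_pow, eq_one_iff 2 (by decide), check8] at h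
  simp at h

theorem exists_twelve {F : Type u} [Field F] [Fintype F] [CharP F 2] :
    ∃ g ∈ chevG2.group F, orderOf g = 12 := by
  refine ⟨wprod F [6, 3, 7], wprod_mem _, ?_⟩
  obtain ⟨h12, h4, h6⟩ := check12
  have e12 : wprod F [6, 3, 7] ^ 12 = 1 := by rw [wprod_pow, eq_one_iff 2 (by decide)]; exact h12
  have e4 : wprod F [6, 3, 7] ^ 4 ≠ 1 := by rw [Ne, wprod_pow, eq_one_iff 2 (by decide), h4]; simp
  have e6 : wprod F [6, 3, 7] ^ 6 ≠ 1 := by rw [Ne, wprod_pow, eq_one_iff 2 (by decide), h6]; simp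
  have hd := orderOf_dvd_of_pow_eq_one e12
  have n4 : ¬ orderOf (wprod F [6, 3, 7]) ∣ 4 := fun h => e4 (orderOf_dvd_iff_pow_eq_one.mp h)
  have n6 : ¬ orderOf (wprod F [6, 3, 7]) ∣ 6 := fun h => e6 (orderOf_dvd_iff_pow_eq_one.mp h)
  have tab : ∀ n < 13, n ∣ 12 → ¬ n ∣ 4 → ¬ n ∣ 6 → n = 12 := by decide
  exact tab _ (Nat.lt_succ_of_le (Nat.le_of_dvd (by norm_num) hd)) hd n4 n6

theorem exists_sq (h35 : p = 3 ∨ p = 5) : ∃ g ∈ chevG2.group F, orderOf g = p ^ 2 := by
  refine ⟨wprod F [6, 7], wprod_mem _, ?_⟩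
  have hU : wprod F [6, 7] ∈ chevG2.posUnipotent F := by
    rw [wprod]
    simp only [List.map_cons, List.map_nil, Cert.wu, List.prod_cons, List.prod_nil, mul_one]
    exact mul_mem ((cG.{u}).xu_mem_pos (by decide +kernel) _) ((cG.{u}).xu_mem_pos (by decide +kernel) _)
  have hse : smallExp p = p := by rw [smallExp, if_neg (by rcases h35 with rfl | rfl <;> norm_num)]
  have h2 : wprod F [6, 7] ^ p ^ (1 + 1) = 1 := by rw [sq]; have := (pos_pow_eq_one p hU).1; rwa [hse] at this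
  refine orderOf_eq_prime_pow (p := p) (n := 1) (fun h => ?_) h2
  rw [pow_one, wprod_pow] at h
  rcases h35 with rfl | rfl
  · rw [eq_one_iff 3 (by decide), check9] at h; simp at h
  · rw [eq_one_iff 5 (by decide), check25] at h; simp at h

end Cfsg.Agent.KnownA.G2Spec
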