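import Cfsg.Agent.Chars2.Homocyclic.Fixed
import Cfsg.Agent.Core.SchurZassenhaus
import Mathlib.Algebra.CharP.Lemmas

/-!
General facts on Chevalley groups used for the spectrum of `G₂(q)`: centralizers of regular unipotent elements,
elements of order prime to the characteristic in the Borel subgroup, fusion of diagonal elements.
-/

set_option autoImplicit false
set_option linter.unusedSectionVars false

universe u v

namespace Cfsg.Agent.KnownA.G2Spec

open Cfsg.Lie Cfsg.Agent.Chev Cfsg.Agent.Chars2.Homocyclic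
open scoped Matrix MatrixGroups

/-- An element of order prime to `p` of `U ⋊ H` is conjugate under `U` into `H`. -/
theorem exists_conj_complement {G : Type u} [Group G] [Finite G] {p : ℕ} [Fact p.Prime] (U H : Subgroup G)
    (hnorm : H ≤ Subgroup.normalizer (U : Set G)) (hdisj : U ⊓ H = ⊥) (hU : IsPGroup p U)
    {g a d : G} (ha : a ∈ U) (hd : d ∈ H) (he : g = a * d) (hp : (orderOf g).Coprime p) :
    ∃ n ∈ U, n * g * n⁻¹ ∈ H := by
  classical
  have hpr : p.Prime := Fact.out
  obtain ⟨k, hk⟩ := IsPGroup.iff_card.mp hU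
  have hcop : ∀ x ∈ U, ∀ m : ℕ, m ∣ orderOf g → x ^ m = 1 → x = 1 := by
    intro x hx m hm h1
    have h2 : orderOf x ∣ p ^ k := by
      rw [← hk, ← Subgroup.orderOf_mk _ hx]; exact orderOf_dvd_natCard _
    have h3 : orderOf x ∣ orderOf g := (orderOf_dvd_of_pow_eq_one h1).trans hm
    exact orderOf_eq_one_iff.mp (Nat.eq_one_of_dvd_coprimes (hp.pow_right k) h3 h2)
  have hpow : ∀ j : ℕ, ∃ x ∈ U, g ^ j = x * d ^ j := by
    intro j
    induction j with
    | zero => exact ⟨1, one_mem _, by simp⟩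
    | succ j ih =>
      obtain ⟨x, hx, ex⟩ := ih
      refine ⟨x * (d ^ j * a * (d ^ j)⁻¹), mul_mem hx
        ((Subgroup.mem_normalizer_iff.mp (hnorm (pow_mem hd j)) a).mp ha), ?_⟩
      rw [pow_succ, ex, he, pow_succ]; group
  have hdg : orderOf d = orderOf g := by
    refine Nat.dvd_antisymm (orderOf_dvd_of_pow_eq_one ?_) (orderOf_dvd_of_pow_eq_one ?_)
    · obtain ⟨x, hx, ex⟩ := hpow (orderOf g)
      rw [pow_orderOf_eq_one] at ex
      have h1 : d ^ orderOf g ∈ U ⊓ H :=
        Subgroup.mem_inf.mpr ⟨(eq_inv_of_mul_eq_one_right ex.symm) ▸ inv_mem hx, pow_mem hd _⟩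
      rwa [hdisj, Subgroup.mem_bot] at h1
    · obtain ⟨x, hx, ex⟩ := hpow (orderOf d)
      rw [pow_orderOf_eq_one, mul_one] at ex
      refine hcop _ (ex ▸ hx) (orderOf g) dvd_rfl ?_
      rw [← pow_mul, mul_comm, pow_mul, pow_orderOf_eq_one, one_pow]
  set X : Subgroup G := U ⊔ Subgroup.zpowers d with hX
  have hUX : U ≤ X := le_sup_left
  have hdX : d ∈ X := Subgroup.mem_sup_right (Subgroup.mem_zpowers d)
  have hgX : g ∈ X := he ▸ mul_mem (hUX ha) hdX
  set N := U.subgroupOf X with hN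
  haveI hNn : N.Normal := (Subgroup.normal_subgroupOf_iff_le_normalizer hUX).mpr
    (sup_le Subgroup.le_normalizer (Subgroup.zpowers_le.mpr (hnorm hd)))
  have hcard : Nat.card N = p ^ k := by rw [Nat.card_congr (Subgroup.subgroupOfEquivOfLe hUX).toEquiv, hk]
  have compl : ∀ y : X, orderOf y = orderOf g → (∃ x ∈ U, d = x * (y : G)) →
      Subgroup.IsComplement' N (Subgroup.zpowers y) := by
    intro y hy hyd
    refine Subgroup.isComplement'_of_disjoint_and_mul_eq_univ ?_ ?_
    · rw [disjoint_iff]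
      refine Subgroup.inf_eq_bot_of_coprime ?_
      rw [hcard, Nat.card_zpowers, hy]
      exact (hp.pow_right k).symm
    · rw [← Subgroup.normal_mul, Set.eq_univ_iff_forall]
      intro z
      have h1 : (⊤ : Subgroup X) ≤ N ⊔ Subgroup.zpowers y := by
        rw [← Subgroup.map_le_map_iff_of_injective X.subtype_injective, Subgroup.map_sup, MonoidHom.map_zpowers,
          ← MonoidHom.range_eq_map, Subgroup.range_subtype, hN, Subgroup.map_subgroupOf_eq_of_le hUX]
        refine sup_le le_sup_left (Subgroup.zpowers_le.mpr ?_)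
        obtain ⟨x, hx, hd'⟩ := hyd
        exact hd' ▸ mul_mem (Subgroup.mem_sup_left hx) (Subgroup.mem_sup_right (Subgroup.mem_zpowers _))
      exact h1 (Subgroup.mem_top z)
  have c1 := compl ⟨g, hgX⟩ (Subgroup.orderOf_mk g hgX) ⟨a⁻¹, inv_mem ha, (show d = a⁻¹ * g by rw [he]; group)⟩
  have c2 := compl ⟨d, hdX⟩ (by rw [Subgroup.orderOf_mk, hdg]) ⟨1, one_mem _, by simp⟩
  haveI : Group.IsNilpotent N :=
    (hU.of_equiv (Subgroup.subgroupOfEquivOfLe hUX).symm).isNilpotent
  obtain ⟨n, hn, hconj⟩ := Core.exists_conj_eq_of_isComplement' (N := N) (by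
    rw [hcard, c2.symm.index_eq_card, Nat.card_zpowers, Subgroup.orderOf_mk, hdg]
    exact (hp.pow_right k).symm) (Or.inl inferInstance) c1 c2
  refine ⟨(n : G), hn, ?_⟩
  have hmem : MulAut.conj n • (⟨g, hgX⟩ : X) ∈ Subgroup.zpowers (⟨d, hdX⟩ : X) := by
    rw [← hconj]; exact Subgroup.smul_mem_pointwise_smul _ _ _ (Subgroup.mem_zpowers _)
  obtain ⟨i, hi⟩ := Subgroup.mem_zpowers_iff.mp hmem
  have e := congrArg (Subtype.val (p := fun z => z ∈ X)) hi
  simp only [SubgroupClass.coe_zpow] at e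
  exact (show d ^ i = (n : G) * g * (n : G)⁻¹ from e) ▸ zpow_mem hd i

variable {D : ChevalleyDatum} {F : Type u} [Field F] (C : Cert.{u} D)
include C

theorem pos_le_group : D.posUnipotent F ≤ D.group F := C.pos_le_borel.trans C.borel_le_group

theorem borel_normalises_pos : D.borelSubgroup F ≤ Subgroup.normalizer (D.posUnipotent F : Set (GL D.Idx F)) :=
  sup_le Subgroup.le_normalizer C.posUnipotent_normalised

theorem borel_normalises_except {i : ℕ} (hi : i < D.rank) :
    D.borelSubgroup F ≤ Subgroup.normalizer (spanGroup D F (posExcept D i) : Set (GL D.Idx F)) := by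
  refine sup_le ?_ (C.diag_normalises _ fun r hr => hr.1.1)
  rw [← C.posUnipotent_eq_sup hi]
  exact sup_le Subgroup.le_normalizer (le_sup_left.trans (C.rootPair_normalises hi))

theorem xu_mem_except_iff {i : ℕ} (hi : i < D.rank) (t : F) :
    C.xu (D.simple i) t ∈ spanGroup D F (posExcept D i) ↔ t = 0 := by
  refine ⟨fun h => ?_, fun h => by rw [h, C.xu_zero]; exact one_mem _⟩
  obtain ⟨f, hf, e⟩ := C.exists_prodU (C.closedSet_posExcept hi) h
  rw [← C.prodU_single (C.pos_simple hi)] at e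
  have h1 := C.prodU_inj e (D.simple i) (C.pos_simple hi)
  simp only [if_pos] at h1
  by_contra h0
  exact (hf (D.simple i) (by simpa [← h1] using h0)).2 rfl

/-- A unipotent element outside every maximal proper closed set of the positive roots moves into `U` only
under `B`. -/
theorem mem_borel_of_conj {M : CoxeterMatrix (Fin D.rank)} (hM : CoxOK D M) {u g : GL D.Idx F}
    (hu : u ∈ D.posUnipotent F) (hreg : ∀ i < D.rank, u ∉ spanGroup D F (posExcept D i))
    (hg : g ∈ D.group F) (hc : g * u * g⁻¹ ∈ D.posUnipotent F) : g ∈ D.borelSubgroup F := by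
  obtain ⟨n, hn, b, hb, b', hb', rfl⟩ := C.exists_bruhat hM hg
  by_cases hH : n ∈ D.diagonalSubgroup F
  · exact mul_mem (mul_mem hb (C.diagonal_le_borel hH)) hb'
  exfalso
  obtain ⟨i, hi, hinv⟩ := C.exists_descent hM hn hH
  set v := b' * u * b'⁻¹ with hv
  have hvU : v ∈ D.posUnipotent F := (Subgroup.mem_normalizer_iff.mp (borel_normalises_pos C hb') u).mp hu
  have hvP : v ∉ spanGroup D F (posExcept D i) := fun h =>
    hreg i hi ((Subgroup.mem_normalizer_iff.mp (borel_normalises_except C hi hb') u).mpr h)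
  have hwU : n * v * n⁻¹ ∈ D.posUnipotent F := by
    have := (Subgroup.mem_normalizer_iff.mp (borel_normalises_pos C (inv_mem hb)) _).mp hc
    rw [hv]; convert this using 1; group
  obtain ⟨a, ha, t, ev⟩ := C.exists_except_mul hi hvU
  have hxP : D.borelSubgroup F ≤ _ := borel_normalises_except C hi
  set a' := (C.xu (D.simple i) t)⁻¹ * a * C.xu (D.simple i) t with ha'
  have ha'P : a' ∈ spanGroup D F (posExcept D i) := by
    have := (Subgroup.mem_normalizer_iff.mp
      (hxP (inv_mem (C.pos_le_borel (C.xu_mem_pos (C.pos_simple hi) t)))) a).mp ha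
    rwa [inv_inv] at this
  have ht : t ≠ 0 := fun h => hvP (by rw [ev, h, C.xu_zero, mul_one]; exact ha)
  set s := C.nu (D.simple i) (1 : F) with hs
  have hsN : s ∈ D.monomialSubgroup F := C.nu_mem_monomial hi
  set n₁ := n * s⁻¹ with hn₁
  have hn₁N : n₁ ∈ D.monomialSubgroup F := mul_mem hn (inv_mem hsN)
  have hc1 : invCount D F n₁ + 1 = invCount D F n := C.invCount_descend hM hi (C.isRefl_nu_inv hi) hn hinv
  have hni : ¬ Inverts D F n₁ (D.simple i) := fun h =>
    (C.inverts_mul_refl_simple hM hi (C.isRefl_nu_inv hi) hn).mp h hinv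
  have hpos : ∀ x : F, n₁ * C.xu (D.simple i) x * n₁⁻¹ ∈ D.posUnipotent F := by
    intro x
    obtain ⟨L, -, hmap⟩ := C.monomial_map hM hn₁N
    have hq := C.act_lt (C.fin_word_lt L) (C.simple_lt i hi)
    have hm : n₁ * C.xu (D.simple i) x * n₁⁻¹ ∈
        (D.rootSubgroup F (D.simple i)).map (MulAut.conj n₁).toMonoidHom :=
      Subgroup.mem_map_of_mem _ (C.mem_rootSubgroup.mpr ⟨x, rfl⟩)
    rw [hmap _ (C.simple_lt i hi)] at hm
    rcases C.posRoot_or_negRoot hq with h | h
    · exact C.rootSubgroup_le_pos h hm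
    · exact absurd ((C.inverts_iff (C.pos_simple hi) hq (hmap _ (C.simple_lt i hi))).mpr h) hni
  set z := -t with hz
  have hz0 : z ≠ 0 := neg_ne_zero.mpr ht
  have hsx : s * C.xu (D.simple i) t = C.xu (D.neg (D.simple i)) z * s := C.nu_simple_xu hi _
  have hdec := C.xu_neg_decomp (F := F) hi hz0
  have hhu : C.hu (D.simple i) (-z⁻¹) ∈ D.diagonalSubgroup F :=
    C.hu_simple_mem_diagonal (C.simple_lt i hi) (neg_ne_zero.mpr (inv_ne_zero hz0))
  have cell1 : InCell D F n (n₁ * C.xu (D.neg (D.simple i)) z) := by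
    refine ⟨n₁ * C.xu (D.simple i) z⁻¹ * n₁⁻¹ * (n₁ * C.hu (D.simple i) (-z⁻¹) * n₁⁻¹),
      mul_mem (C.pos_le_borel (hpos _)) (C.diagonal_le_borel (C.monomial_conj_diagonal hn₁N hhu)),
      C.xu (D.simple i) z⁻¹, C.pos_le_borel (C.xu_mem_pos (C.pos_simple hi) _), ?_⟩
    rw [hdec, hn₁, ← hs]; group
  have hsa : s * a' * s⁻¹ ∈ D.borelSubgroup F :=
    C.pos_le_borel (C.span_mono (fun r hr => hr.1)
      ((Subgroup.mem_normalizer_iff.mp (C.nu_normalises_except hi) a').mp ha'P))
  have cell2 : InCell D F n₁ (n₁ * C.xu (D.neg (D.simple i)) z) := by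
    refine ⟨n * v * n⁻¹, C.pos_le_borel hwU, (s * a' * s⁻¹)⁻¹, inv_mem hsa, ?_⟩
    have e1 : v = C.xu (D.simple i) t * a' := by rw [ev, ha']; group
    have e2 : C.xu (D.neg (D.simple i)) z = s * C.xu (D.simple i) t * s⁻¹ := by
      rw [hsx, mul_inv_cancel_right]
    rw [hn₁, e1, e2]; group
  obtain ⟨x, hx, y, hy, e1⟩ := cell1
  obtain ⟨x', hx', y', hy', e2⟩ := cell2
  have h3 := C.inCell_unique hM hn hn₁N ⟨x'⁻¹ * x, mul_mem (inv_mem hx') hx, y * y'⁻¹, mul_mem hy (inv_mem hy'), by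
    calc n₁ = x'⁻¹ * (x' * n₁ * y') * y'⁻¹ := by group
      _ = x'⁻¹ * (x * n * y) * y'⁻¹ := by rw [← e2, e1]
      _ = _ := by group⟩
  have h4 := C.invCount_mul_diagonal (n := n) h3
  rw [mul_inv_cancel_left] at h4
  omega

/-- An element of order prime to `p` of the Borel subgroup is conjugate into the diagonal subgroup. -/
theorem exists_conj_diagonal [Fintype F] (p : ℕ) [Fact p.Prime] [CharP F p] {g : GL D.Idx F}
    (hg : g ∈ D.borelSubgroup F) (hp : (orderOf g).Coprime p) :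
    ∃ u ∈ D.posUnipotent F, u * g * u⁻¹ ∈ D.diagonalSubgroup F := by
  obtain ⟨n, -, hn⟩ := FiniteField.card F p
  obtain ⟨a, ha, d, hd, e⟩ := C.mem_borel.mp hg
  refine exists_conj_complement (p := p) _ _ C.posUnipotent_normalised C.posUnipotent_inf_diagonal
    (IsPGroup.of_card (n := (n : ℕ) * (D.nroots / 2)) ?_) ha hd e.symm hp
  rw [C.natCard_posUnipotent, hn, pow_mul]

theorem diag_conj_xu {h : GL D.Idx F} {χ : ℕ → F} (hχ : IsChar D χ)
    (he : (h : Matrix D.Idx D.Idx F) = dMat D χ) {r : ℕ} (hr : r < D.nroots) (t : F) :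
    h * C.xu r t * h⁻¹ = C.xu r (χ r * t) := by
  have hc : h * C.xu r t = C.xu r (χ r * t) * h := Units.ext (by simp [he, C.dMat_conj hχ hr t])
  rw [hc, mul_inv_cancel_right]

theorem xu_inj {r : ℕ} (hr : r < D.nroots) {a b : F} (e : C.xu r a = C.xu r b) : a = b := by
  have h : C.xu r (a - b) = 1 := by rw [sub_eq_add_neg, ← C.xu_add, ← C.xu_inv, e, mul_inv_cancel]
  exact sub_eq_zero.mp (C.xu_eq_one hr h)

/-- Conjugate diagonal elements are conjugate by a monomial element. -/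
theorem conj_diag {M : CoxeterMatrix (Fin D.rank)} (hM : CoxOK D M) {h h' g : GL D.Idx F}
    (hh : h ∈ D.diagonalSubgroup F) (hh' : h' ∈ D.diagonalSubgroup F) (hg : g ∈ D.group F)
    (e : g * h * g⁻¹ = h') :
    ∃ L : List (Fin D.rank), ∃ a ∈ D.posUnipotent F, ∃ d ∈ D.diagonalSubgroup F, ∃ u ∈ D.posUnipotent F,
      g = a * d * C.nWordElt F (L.map Fin.val) * u ∧ h' * a * h'⁻¹ = a ∧ h * u * h⁻¹ = u ∧
      C.nWordElt F (L.map Fin.val) * h * (C.nWordElt F (L.map Fin.val))⁻¹ = h' := by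
  obtain ⟨L, a, ha, d, hd, u, hu, rfl⟩ := exists_canon C hM hg
  set n := C.nWordElt F (L.map Fin.val) with hn
  have hnN : n ∈ D.monomialSubgroup F := C.nWordElt_mem (C.fin_word_lt L)
  refine ⟨L, a, ha, d, hd, u, C.span_mono (fun r hr => hr.1) hu, rfl, ?_⟩
  have h1 : h' * a * h'⁻¹ ∈ D.posUnipotent F :=
    (Subgroup.mem_normalizer_iff.mp (C.posUnipotent_normalised hh') a).mp ha
  have h2 : h⁻¹ * u * h ∈ spanGroup D F (Inverts D F n) := by
    have := (Subgroup.mem_normalizer_iff.mp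
      (C.diag_normalises (Inverts D F n) (fun x hx => hx.1.1) (inv_mem hh)) u).mp hu
    rwa [inv_inv] at this
  have e1 : h' * a * h'⁻¹ * (h' * d) * n * u = a * (d * (n * h * n⁻¹)) * n * (h⁻¹ * u * h) := by
    calc h' * a * h'⁻¹ * (h' * d) * n * u = h' * (a * d * n * u) := by group
      _ = (a * d * n * u) * h := by rw [← e]; group
      _ = _ := by group
  obtain ⟨r1, r2, r3⟩ := canon_unique C h1 ha (mul_mem hh' hd)
    (mul_mem hd (C.monomial_conj_diagonal hnN hh)) hu h2 e1
  refine ⟨r1, ?_, ?_⟩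
  · conv_lhs => rw [r3]
    group
  · rw [C.diagonal_comm hh' hd] at r2
    exact (mul_left_cancel r2).symm

/-- The relation between the characters of two diagonal elements conjugate by a word. -/
theorem char_act {h h' : GL D.Idx F} {χ χ' : ℕ → F} (hχ : IsChar D χ) (hχ' : IsChar D χ')
    (e : (h : Matrix D.Idx D.Idx F) = dMat D χ) (e' : (h' : Matrix D.Idx D.Idx F) = dMat D χ')
    {L : List ℕ} (hL : ∀ i ∈ L, i < D.rank)
    (hc : C.nWordElt F L * h * (C.nWordElt F L)⁻¹ = h') {r : ℕ} (hr : r < D.nroots) :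
    χ' (act D L r) = χ r := by
  obtain ⟨c, hc0, ec⟩ := C.nWordElt_conj_xu (F := F) hL hr
  set n := C.nWordElt F L with hn
  have hlt := C.act_lt hL hr
  have e1 : h' * (n * C.xu r 1 * n⁻¹) * h'⁻¹ = n * (h * C.xu r 1 * h⁻¹) * n⁻¹ := by rw [← hc]; group
  rw [diag_conj_xu C hχ e hr, ec, ec, diag_conj_xu C hχ' e' hlt] at e1
  have := xu_inj C hlt e1
  exact mul_right_cancel₀ hc0 (by linear_combination this)

/-- An element of a closed span fixed by a diagonal element involves only roots trivial on it. -/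
theorem exists_fixed_prodU {P : ℕ → Prop} (hP : ClosedSet D P) {h u : GL D.Idx F} {χ : ℕ → F}
    (hχ : IsChar D χ) (he : (h : Matrix D.Idx D.Idx F) = dMat D χ) (hu : u ∈ spanGroup D F P)
    (hfix : h * u * h⁻¹ = u) : ∃ f : ℕ → F, u = C.prodU f ∧
      ∀ r, D.IsPosRoot r → f r ≠ 0 → P r ∧ χ r = 1 := by
  obtain ⟨f, hf, rfl⟩ := C.exists_prodU hP hu
  refine ⟨f, rfl, fun r hr hr0 => ⟨hf r hr0, ?_⟩⟩
  rw [diag_conj_prodU C hχ he] at hfix
  exact (mul_eq_right₀ hr0).mp (C.prodU_inj hfix r hr)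

theorem diag_pow_eq_one {h : GL D.Idx F} {χ : ℕ → F} (he : (h : Matrix D.Idx D.Idx F) = dMat D χ) (N : ℕ) :
    h ^ N = 1 ↔ ∀ s < D.nroots, χ s ^ N = 1 := by
  constructor
  · intro h1 s hs
    have e : ((h ^ N : GL D.Idx F) : Matrix D.Idx D.Idx F) = dMat D (χ ^ N) := by
      rw [Units.val_pow_eq_pow_val, he, dMat_pow]
    have e1 : (((1 : GL D.Idx F)) : Matrix D.Idx D.Idx F) = dMat D (1 : ℕ → F) := dMat_one.symm
    have := (dMat_entry (g := h ^ N) e hs).symm.trans (h1 ▸ dMat_entry (g := (1 : GL D.Idx F)) e1 hs)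
    simpa using this
  · intro h1
    refine Units.ext ?_
    rw [Units.val_pow_eq_pow_val, he, dMat_pow, Units.val_one, ← dMat_one]
    exact dMat_congr fun s hs => h1 s hs

omit C

/-- The `q`-th power endomorphism of an extension of the field with `q` elements. -/
theorem exists_frob {F : Type u} [Field F] [Fintype F] {K : Type v} [Field K] (ι : F →+* K) :
    ∃ φ : K →+* K, ∀ t, φ t = t ^ Fintype.card F := by
  obtain ⟨p, hp⟩ := CharP.exists F
  haveI := hp
  obtain ⟨k, hpr, hk⟩ := FiniteField.card F p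
  haveI : Fact p.Prime := ⟨hpr⟩
  haveI : CharP K p := charP_of_injective_ringHom ι.injective p
  exact ⟨iterateFrobenius K p k, fun t => by rw [iterateFrobenius_def, hk]⟩

/-- Fixed elements of the big group lie in the small one when the diagonal subgroup is as large as possible. -/
theorem mem_small_of_fixed {E : Type u} [Field E] [Fintype E] {K : Type v} [Field K] [Fintype K]
    (C₀ : Cert.{u} D) (C : Cert.{v} D) (ι : E →+* K) (φ : K →+* K) (hφ : ∀ t, φ t = t ^ Fintype.card E)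
    {M : CoxeterMatrix (Fin D.rank)} (hM : CoxOK D M)
    (hT : Nat.card (D.diagonalSubgroup E) = (Fintype.card E - 1) ^ D.rank)
    {g : GL D.Idx K} (hg : g ∈ D.group K) (hfix : gmap D φ g = g) :
    g ∈ (D.group E).map (gmap D ι) := by
  classical
  obtain ⟨L, a, ha, h, hh, u, hu, eg⟩ := exists_canon C hM hg
  set n := C.nWordElt K (L.map Fin.val) with hn
  have hnf : gmap D φ n = n := gmap_nWordElt C C φ _
  have e1 : gmap D φ a * gmap D φ h * n * gmap D φ u = a * h * n * u := by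
    have := congrArg (gmap D φ) eg
    rw [map_mul, map_mul, map_mul, hfix, hnf, eg] at this
    exact this.symm
  obtain ⟨fa, fh, fu⟩ := canon_unique C (map_pos_le φ ⟨a, ha, rfl⟩) ha (map_diagonal_le φ ⟨h, hh, rfl⟩) hh
    (map_span_le _ φ ⟨u, hu, rfl⟩) hu e1
  have ha0 := pos_mem_small C₀ C ι φ hφ ha fa
  have hu0 := pos_mem_small C₀ C ι φ hφ (C.span_mono (fun x hx => hx.1) hu) fu
  set B := D.diagonalSubgroup K ⊓ (gmap D φ).eqLocus (MonoidHom.id _) with hB
  set A := (D.diagonalSubgroup E).map (gmap D ι) with hA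
  have hAB : A ≤ B := le_inf (map_diagonal_le ι) (by
    rintro _ ⟨x, -, rfl⟩
    refine Units.ext (Matrix.ext fun i j => ?_)
    show φ (ι ((x : Matrix D.Idx D.Idx E) i j)) = ι ((x : Matrix D.Idx D.Idx E) i j)
    rw [hφ, ← map_pow, FiniteField.pow_card])
  have hAeq : A = B := Subgroup.eq_of_le_of_card_ge hAB (by
    rw [hA, Subgroup.card_map_of_injective (gmap_injective ι), hT]
    exact Nat.le_of_dvd (pow_pos (by have := Fintype.one_lt_card (α := E); omega) _)
      (card_fixed_diag_dvd C₀ C ι φ hφ))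
  have hh0 : h ∈ A := hAeq ▸ ⟨hh, fh⟩
  rw [eg]
  refine mul_mem (mul_mem (mul_mem ha0 (Subgroup.map_mono C₀.diagonal_le_group hh0)) ?_) hu0
  exact ⟨C₀.nWordElt E (L.map Fin.val),
    C₀.monomial_le_group (C₀.nWordElt_mem (C₀.fin_word_lt L)), gmap_nWordElt C₀ C ι _⟩

end Cfsg.Agent.KnownA.G2Spec
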