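import Cfsg.Agent.KnownA.G2Spec.Torus
import Cfsg.Agent.Chev.G2Odd.Centralizer
import Mathlib.FieldTheory.SplittingField.Construction
import Mathlib.LinearAlgebra.Matrix.Charpoly.Coeff
import Mathlib.Algebra.CharP.Lemmas

/-!
Diagonalisation inside the Levi subgroups of `G₂` after a quadratic extension, and their unipotent elements.
-/

set_option autoImplicit false
set_option linter.unusedSectionVars false

universe u v

namespace Cfsg.Agent.KnownA.G2Spec

open Cfsg.Lie Cfsg.Agent.Chev Cfsg.Agent.Chev.G2Odd Cfsg.Agent.Chars2.Homocyclic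
open scoped Matrix MatrixGroups

variable {F : Type u} [Field F]

/-- The action of a diagonal element with root value `χ` on `SL₂`. -/
def dil (χ : Fˣ) : Matrix.SpecialLinearGroup (Fin 2) F →* Matrix.SpecialLinearGroup (Fin 2) F where
  toFun g := ⟨!![g 0 0, (χ : F) * g 0 1; (χ : F)⁻¹ * g 1 0, g 1 1], by
    rw [Matrix.det_fin_two_of]
    linear_combination sl2_det g - g 0 1 * g 1 0 * (mul_inv_cancel₀ χ.ne_zero)⟩
  map_one' := by apply Subtype.ext; ext a b; fin_cases a <;> fin_cases b <;> simp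
  map_mul' g h := by
    apply Subtype.ext
    have hu := mul_inv_cancel₀ χ.ne_zero
    show !![(g * h) 0 0, (χ : F) * (g * h) 0 1; (χ : F)⁻¹ * (g * h) 1 0, (g * h) 1 1] =
      !![g 0 0, (χ : F) * g 0 1; (χ : F)⁻¹ * g 1 0, g 1 1] * !![h 0 0, (χ : F) * h 0 1; (χ : F)⁻¹ * h 1 0, h 1 1]
    rw [Matrix.mul_fin_two]
    simp only [sl2_mul_apply]
    ext a b
    fin_cases a <;> fin_cases b <;> simp <;>
      first
        | ring1
        | linear_combination (-(g 0 1 * h 1 0)) * hu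
        | linear_combination (-(g 1 0 * h 0 1)) * hu

theorem coe_dil (χ : Fˣ) (g : Matrix.SpecialLinearGroup (Fin 2) F) :
    (dil χ g : Matrix (Fin 2) (Fin 2) F) = !![g 0 0, (χ : F) * g 0 1; (χ : F)⁻¹ * g 1 0, g 1 1] := rfl

theorem dil_U (χ : Fˣ) (t : F) : dil χ (sl2U t) = sl2U ((χ : F) * t) := by
  refine sl2_ext _ _ ?_ ?_ ?_ ?_ <;> simp [coe_dil]

theorem dil_L (χ : Fˣ) (t : F) : dil χ (sl2L t) = sl2L ((χ : F)⁻¹ * t) := by
  refine sl2_ext _ _ ?_ ?_ ?_ ?_ <;> simp [coe_dil]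

theorem tor_conj_root {r : ℕ} {φ : Matrix.SpecialLinearGroup (Fin 2) F →* GL chevG2.Idx F}
    (hφ : RootHom (cG.{u}) r φ) (c : Fˣ × Fˣ) (A : Matrix.SpecialLinearGroup (Fin 2) F) :
    tor c * φ A * (tor c)⁻¹ = φ (dil (chi c r) A) := by
  have hr : r < 12 := hφ.lt
  have hU : ∀ t, tor c * φ (sl2U t) * (tor c)⁻¹ = φ (dil (chi c r) (sl2U t)) := fun t => by
    rw [dil_U, hφ.U, hφ.U, tor_conj_xu c hr]
  have hL : ∀ t, tor c * φ (sl2L t) * (tor c)⁻¹ = φ (dil (chi c r) (sl2L t)) := fun t => by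
    rw [dil_L, hφ.L, hφ.L, tor_conj_xu c (show chevG2.neg r < 12 from (cG.{u}).neg_lt r hφ.lt), neg_eq r hr,
      chi_neg c hr, Units.val_inv_eq_inv_val]
  have hmul : ∀ a b, (tor c * φ a * (tor c)⁻¹) * (tor c * φ b * (tor c)⁻¹) = tor c * φ (a * b) * (tor c)⁻¹ :=
    fun a b => by rw [map_mul]; group
  refine sl2_induction (fun A => tor c * φ A * (tor c)⁻¹ = φ (dil (chi c r) A)) hU ?_
    (fun a b ha hb => by rw [← hmul, ha, hb, map_mul, map_mul]) A
  rw [sl2W_eq, ← hmul, ← hmul, hU, hL]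
  simp only [map_mul]

theorem root_mem_borel {r : ℕ} {φ : Matrix.SpecialLinearGroup (Fin 2) F →* GL chevG2.Idx F}
    (hφ : RootHom (cG.{u}) r φ) (hr : chevG2.IsPosRoot r) {A : Matrix.SpecialLinearGroup (Fin 2) F}
    (hA : A 1 0 = 0) : φ A ∈ chevG2.borelSubgroup F := by
  have hd := sl2_det A
  rw [hA, mul_zero, sub_zero] at hd
  have ha : A 0 0 ≠ 0 := left_ne_zero_of_mul_eq_one hd
  have e : A = sl2D (A 0 0) ha * sl2U (A 0 1 / A 0 0) := by
    have h11 : A 1 1 = (A 0 0)⁻¹ := eq_inv_of_mul_eq_one_right hd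
    refine sl2_ext _ _ ?_ ?_ ?_ ?_ <;>
      simp [Matrix.SpecialLinearGroup.coe_mul, Matrix.mul_apply, Fin.sum_univ_two, hA, h11, mul_div_cancel₀ _ ha]
  rw [e, map_mul, hφ.map_D, hφ.U]
  exact mul_mem ((cG.{u}).diagonal_le_borel ((cG.{u}).hu_simple_mem_diagonal hφ.lt ha))
    ((cG.{u}).pos_le_borel ((cG.{u}).xu_mem_pos hr _))

theorem root_natural {K : Type v} [Field K] (f : F →+* K) {r : ℕ}
    {φ : Matrix.SpecialLinearGroup (Fin 2) F →* GL chevG2.Idx F} (hφ : RootHom (cG.{u}) r φ)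
    {φ' : Matrix.SpecialLinearGroup (Fin 2) K →* GL chevG2.Idx K} (hφ' : RootHom (cG.{v}) r φ')
    (A : Matrix.SpecialLinearGroup (Fin 2) F) :
    gmap chevG2 f (φ A) = φ' (Matrix.SpecialLinearGroup.map f A) := by
  have hU : ∀ t, gmap chevG2 f (φ (sl2U t)) = φ' (Matrix.SpecialLinearGroup.map f (sl2U t)) := fun t => by
    rw [hφ.U, gmap_xu (cG.{u}) (cG.{v}), ← hφ'.U]
    congr 1
    refine sl2_ext _ _ ?_ ?_ ?_ ?_ <;> simp
  have hL : ∀ t, gmap chevG2 f (φ (sl2L t)) = φ' (Matrix.SpecialLinearGroup.map f (sl2L t)) := fun t => by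
    rw [hφ.L, gmap_xu (cG.{u}) (cG.{v}), ← hφ'.L]
    congr 1
    refine sl2_ext _ _ ?_ ?_ ?_ ?_ <;> simp
  refine sl2_induction (fun A => gmap chevG2 f (φ A) = φ' (Matrix.SpecialLinearGroup.map f A)) hU ?_
    (fun a b ha hb => by simp only [map_mul, ha, hb]) A
  rw [sl2W_eq]
  simp only [map_mul, hU, hL]

theorem entry10 (M A : Matrix.SpecialLinearGroup (Fin 2) F) (χ : Fˣ) :
    (M⁻¹ * A * dil χ M) 1 0 = -(M 1 0) * (A 0 0 * M 0 0 + A 0 1 * ((χ : F)⁻¹ * M 1 0)) +
      M 0 0 * (A 1 0 * M 0 0 + A 1 1 * ((χ : F)⁻¹ * M 1 0)) := by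
  rw [mul_assoc, sl2_mul_apply, sl2_mul_apply, sl2_mul_apply]
  simp [Matrix.SpecialLinearGroup.coe_inv, Matrix.adjugate_fin_two, coe_dil]

/-- A quadratic equation has a root in a finite extension. -/
theorem exists_triangular {F : Type} [Field F] [Fintype F] (A : Matrix.SpecialLinearGroup (Fin 2) F) (χ : Fˣ) :
    ∃ (K : Type) (_ : Field K) (_ : Fintype K) (ι : F →+* K) (M : Matrix.SpecialLinearGroup (Fin 2) K),
      (M⁻¹ * Matrix.SpecialLinearGroup.map ι A * dil (Units.map (ι : F →* K) χ) M) 1 0 = 0 := by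
  classical
  by_cases hA : A 1 0 = 0
  · exact ⟨F, inferInstance, inferInstance, RingHom.id F, 1, by simp [hA]⟩
  set P : Polynomial F := Polynomial.C (A 1 0) * Polynomial.X ^ 2 +
    Polynomial.C (A 1 1 * (χ : F)⁻¹ - A 0 0) * Polynomial.X + Polynomial.C (-(A 0 1 * (χ : F)⁻¹)) with hP
  have hdeg : P.natDegree = 2 := by rw [hP]; exact Polynomial.natDegree_quadratic hA
  let K := P.SplittingField
  haveI : Finite K := Module.finite_of_finite F
  let ι : F →+* K := algebraMap F K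
  have hs : (P.map ι).Splits := Polynomial.SplittingField.splits P
  obtain ⟨z, hz⟩ := hs.exists_eval_eq_zero (by
    rw [Polynomial.degree_map, Polynomial.degree_eq_natDegree (fun h => by rw [h] at hdeg; simp at hdeg), hdeg]
    decide)
  obtain ⟨M, h00, h10⟩ : ∃ M : Matrix.SpecialLinearGroup (Fin 2) K, M 0 0 = z ∧ M 1 0 = 1 :=
    ⟨⟨!![z, -1; 1, 0], by simp [Matrix.det_fin_two]⟩, rfl, rfl⟩
  refine ⟨K, inferInstance, Fintype.ofFinite K, ι, M, ?_⟩
  simp [P] at hz
  rw [entry10, h00, h10]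
  simp
  linear_combination hz

/-- Conjugate, over a finite extension, into the diagonal subgroup. -/
def Diagble (g : GL chevG2.Idx F) : Prop :=
  ∃ (K : Type) (_ : Field K) (_ : Fintype K) (ι : F →+* K) (c : GL chevG2.Idx K) (h : GL chevG2.Idx K),
    c ∈ chevG2.group K ∧ h ∈ chevG2.diagonalSubgroup K ∧ gmap chevG2 ι g = c * h * c⁻¹

theorem Diagble.of_conj {g k : GL chevG2.Idx F} (hk : k ∈ chevG2.group F) (h : Diagble (k * g * k⁻¹)) :
    Diagble g := by
  obtain ⟨K, iK, iF, ι, c, d, hc, hd, e⟩ := h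
  refine ⟨K, iK, iF, ι, (gmap chevG2 ι k)⁻¹ * c, d,
    mul_mem (inv_mem (map_group_le ι ⟨k, hk, rfl⟩)) hc, hd, ?_⟩
  rw [map_mul, map_mul, map_inv] at e
  calc gmap chevG2 ι g = (gmap chevG2 ι k)⁻¹ * (gmap chevG2 ι k * gmap chevG2 ι g * (gmap chevG2 ι k)⁻¹) *
        gmap chevG2 ι k := by group
    _ = _ := by rw [e]; group

theorem Diagble.of_map {K : Type v} [Field K] (ι : F →+* K) {g : GL chevG2.Idx F}
    (h : Diagble (gmap chevG2 ι g)) : Diagble g := by
  obtain ⟨K', iK, iF, ι', c, d, hc, hd, e⟩ := h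
  exact ⟨K', iK, iF, ι'.comp ι, c, d, hc, hd, by rw [← gmap_comp, e]⟩

theorem Diagble.of_diagonal {K : Type} [Field K] [Fintype K] {g : GL chevG2.Idx K}
    (hg : g ∈ chevG2.diagonalSubgroup K) : Diagble g :=
  ⟨K, inferInstance, inferInstance, RingHom.id K, 1, g, one_mem _, hg, by
    simp only [one_mul, inv_one, mul_one]
    exact Units.ext (Matrix.ext fun i j => rfl)⟩

theorem Diagble.of_borel {K : Type} [Field K] [Fintype K] (p : ℕ) [Fact p.Prime] [CharP K p]
    {g : GL chevG2.Idx K} (hg : g ∈ chevG2.borelSubgroup K) (hp : (orderOf g).Coprime p) : Diagble g := by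
  obtain ⟨u, hu, hd⟩ := exists_conj_diagonal (cG.{0}) p hg hp
  exact Diagble.of_conj (pos_le_group (cG.{0}) hu) (Diagble.of_diagonal hd)

theorem gmap_orderOf {K : Type v} [Field K] (ι : F →+* K) (g : GL chevG2.Idx F) :
    orderOf (gmap chevG2 ι g) = orderOf g := orderOf_injective _ (gmap_injective ι) g

/-- Elements of order prime to `p` of a Levi subgroup are diagonalisable. -/
theorem Diagble.of_levi {F : Type} [Field F] [Fintype F] (p : ℕ) [Fact p.Prime] [CharP F p] {r : ℕ}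
    {φ : Matrix.SpecialLinearGroup (Fin 2) F →* GL chevG2.Idx F} (hφ : RootHom (cG.{0}) r φ)
    (hr : chevG2.IsPosRoot r) {g : GL chevG2.Idx F} (hg : g ∈ levi φ) (hp : (orderOf g).Coprime p) :
    Diagble g := by
  obtain ⟨A, d, hd, rfl⟩ := (mem_levi hφ).mp hg
  obtain ⟨c, rfl⟩ := exists_tor hd
  obtain ⟨K, iK, iF, ι, M, hM⟩ := exists_triangular A (chi c r)
  haveI : CharP K p := charP_of_injective_ringHom ι.injective p
  obtain ⟨φ', hφ'⟩ := exists_rootHom (F := K) (cG.{0}) hφ.lt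
  refine Diagble.of_map ι (Diagble.of_conj (inv_mem (hφ'.mem_group M)) ?_)
  rw [inv_inv]
  set A' := Matrix.SpecialLinearGroup.map ι A
  set c' : Kˣ × Kˣ := (Units.map (ι : F →* K) c.1, Units.map (ι : F →* K) c.2) with hc'
  have hχ : chi c' r = Units.map (ι : F →* K) (chi c r) := by simp [hc', chi, ev, map_zpow]
  have e : (φ' M)⁻¹ * gmap chevG2 ι (φ A * tor c) * φ' M = φ' (M⁻¹ * A' * dil (chi c' r) M) * tor c' := by
    rw [map_mul, root_natural ι hφ hφ' A, gmap_tor, map_mul, map_mul, map_inv, ← tor_conj_root hφ' c' M]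
    simp only [A', c']
    group
  refine Diagble.of_borel p ?_ ?_
  · rw [e]
    exact mul_mem (root_mem_borel hφ' hr (by rw [hχ]; exact hM)) ((cG.{0}).diagonal_le_borel (tor_mem c'))
  · have := orderOf_injective (MulAut.conj (φ' M)⁻¹).toMonoidHom (MulAut.conj (φ' M)⁻¹).injective
      (gmap chevG2 ι (φ A * tor c))
    simp only [MulEquiv.coe_toMonoidHom, MulAut.conj_apply, inv_inv] at this
    rwa [this, gmap_orderOf]

/-- Elements of order prime to `p` of the involution centralizer are diagonalisable. -/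
theorem Diagble.of_kSub {F : Type} [Field F] [Fintype F] (p : ℕ) [Fact p.Prime] [CharP F p]
    {g : GL chevG2.Idx F} (hg : g ∈ kSub F) (hp : (orderOf g).Coprime p) : Diagble g := by
  obtain ⟨y, hy, d, hd, rfl⟩ := (Cert.mem_sup_of_normalised diagonal_normalises).mp hg
  obtain ⟨⟨A, B⟩, rfl⟩ := hy
  obtain ⟨c, rfl⟩ := exists_tor hd
  rw [Phi_apply] at hp ⊢
  obtain ⟨K, iK, iF, ι, M, hM⟩ := exists_triangular A (chi c 7)
  haveI : CharP K p := charP_of_injective_ringHom ι.injective p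
  obtain ⟨K₂, iK₂, iF₂, κ, N, hN⟩ := exists_triangular (Matrix.SpecialLinearGroup.map ι B)
    (Units.map (ι : F →* K) (chi c 11))
  haveI : CharP K₂ p := charP_of_injective_ringHom κ.injective p
  refine Diagble.of_map (κ.comp ι) ?_
  set ι₂ := κ.comp ι
  set M' := Matrix.SpecialLinearGroup.map κ M
  set A' := Matrix.SpecialLinearGroup.map ι₂ A
  set B' := Matrix.SpecialLinearGroup.map ι₂ B
  set c' : K₂ˣ × K₂ˣ := (Units.map (ι₂ : F →* K₂) c.1, Units.map (ι₂ : F →* K₂) c.2) with hc'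
  have h7 : (M'⁻¹ * A' * dil (chi c' 7) M') 1 0 = 0 := by
    have e := congrArg κ hM
    rw [map_zero, entry10] at e
    rw [← e, entry10]
    simp [M', A', ι₂, hc', chi, ev, map_zpow₀]
  have h11 : (N⁻¹ * B' * dil (chi c' 11) N) 1 0 = 0 := by
    rw [← hN, entry10, entry10]
    simp [B', ι₂, hc', chi, ev, map_zpow₀]
  refine Diagble.of_conj (k := (phiL N)⁻¹ * (phiS M')⁻¹)
    (mul_mem (inv_mem (hL.mem_group N)) (inv_mem (hS.mem_group M'))) ?_
  have e : (phiL N)⁻¹ * (phiS M')⁻¹ * gmap chevG2 ι₂ (phiS A * phiL B * tor c) * ((phiL N)⁻¹ * (phiS M')⁻¹)⁻¹ =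
      phiS (M'⁻¹ * A' * dil (chi c' 7) M') * phiL (N⁻¹ * B' * dil (chi c' 11) N) * tor c' := by
    have c1 : ∀ a b, phiS (F := K₂) a * phiL b = phiL b * phiS a := fun a b => (commute_SL a b).eq
    rw [map_mul, map_mul, root_natural ι₂ hS hS A, root_natural ι₂ hL hL B, gmap_tor]
    simp only [map_mul, map_inv]
    rw [← tor_conj_root hS c' M', ← tor_conj_root hL c' N, mul_inv_rev, inv_inv, inv_inv]
    have e1 : phiS A' * phiL B' * tor c' * (phiS M' * phiL N) =
        phiS A' * (phiL B' * phiS (dil (chi c' 7) M')) * (tor c' * phiL N) := by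
      rw [← tor_conj_root hS c' M']; group
    have e2 : phiS A' * phiL B' * tor c' * (phiS M' * phiL N) =
        phiS A' * phiS (dil (chi c' 7) M') * (phiL B' * (tor c' * phiL N)) := by
      rw [e1, ← c1]; group
    calc (phiL N)⁻¹ * (phiS M')⁻¹ * (phiS A' * phiL B' * tor c') * (phiS M' * phiL N)
        = (phiL N)⁻¹ * (phiS M')⁻¹ * (phiS A' * phiL B' * tor c' * (phiS M' * phiL N)) := by group
      _ = (phiL N⁻¹ * phiS (M'⁻¹ * A' * dil (chi c' 7) M')) * (phiL B' * (tor c' * phiL N)) := by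
        rw [e2, map_mul, map_mul, map_inv, map_inv]; group
      _ = (phiS (M'⁻¹ * A' * dil (chi c' 7) M') * phiL N⁻¹) * (phiL B' * (tor c' * phiL N)) := by rw [c1]
      _ = _ := by rw [map_mul, map_mul, map_inv, map_inv, ← tor_conj_root hS c' M']; group
  refine Diagble.of_borel p ?_ ?_
  · rw [e]
    exact mul_mem (mul_mem (root_mem_borel hS pos7 h7) (root_mem_borel hL pos11 h11))
      ((cG.{0}).diagonal_le_borel (tor_mem c'))
  · have := orderOf_injective (MulAut.conj ((phiL N)⁻¹ * (phiS M')⁻¹)).toMonoidHom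
      (MulAut.conj ((phiL N)⁻¹ * (phiS M')⁻¹)).injective (gmap chevG2 ι₂ (phiS A * phiL B * tor c))
    simp only [MulEquiv.coe_toMonoidHom, MulAut.conj_apply] at this
    rwa [this, gmap_orderOf]

/-- A `p`-element of `SL₂` has order dividing `p`. -/
theorem sl2_pow_char {p : ℕ} [Fact p.Prime] [CharP F p] {A : Matrix.SpecialLinearGroup (Fin 2) F} {k : ℕ}
    (h : A ^ p ^ k = 1) : A ^ p = 1 := by
  classical
  set N : Matrix (Fin 2) (Fin 2) F := (A : Matrix (Fin 2) (Fin 2) F) - 1 with hN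
  have hnil : N ^ p ^ k = 0 := by
    rw [hN, sub_pow_char_pow_of_commute _ _ (Commute.one_right _), one_pow, sub_eq_zero]
    exact (Matrix.SpecialLinearGroup.coe_pow A _).symm.trans (congrArg Subtype.val h)
  have hdet : N.det = 0 := by
    have := congrArg Matrix.det hnil
    rw [Matrix.det_pow, Matrix.det_zero] at this
    exact pow_eq_zero_iff (pow_ne_zero _ (Fact.out : p.Prime).ne_zero) |>.mp this
  have htr : N.trace = 0 := (Matrix.isNilpotent_trace_of_isNilpotent ⟨_, hnil⟩).eq_zero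
  have hsq : N * N = 0 := by
    rw [Matrix.det_fin_two] at hdet
    rw [Matrix.trace_fin_two] at htr
    ext i j
    rw [Matrix.mul_apply, Fin.sum_univ_two]
    fin_cases i <;> fin_cases j <;> simp
    · linear_combination N 0 0 * htr - hdet
    · linear_combination N 0 1 * htr
    · linear_combination N 1 0 * htr
    · linear_combination N 1 1 * htr - hdet
  refine Subtype.ext ?_
  rw [Matrix.SpecialLinearGroup.coe_pow, Matrix.SpecialLinearGroup.coe_one, ← sub_eq_zero,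
    show (1 : Matrix (Fin 2) (Fin 2) F) = 1 ^ p from (one_pow p).symm,
    ← sub_pow_char_of_commute _ (Commute.one_right _), ← hN]
  obtain ⟨m, hm⟩ := Nat.exists_eq_add_of_le (Fact.out : p.Prime).two_le
  rw [hm, pow_add, sq, hsq, zero_mul]

/-- The `p`-elements of a Levi subgroup have order dividing `p`. -/
theorem levi_pow_char [Fintype F] (p : ℕ) [Fact p.Prime] [CharP F p] {r : ℕ}
    {φ : Matrix.SpecialLinearGroup (Fin 2) F →* GL chevG2.Idx F} (hφ : RootHom (cG.{u}) r φ)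
    {g : GL chevG2.Idx F} (hg : g ∈ levi φ) {k : ℕ} (hk : g ^ p ^ k = 1) : g ^ p = 1 := by
  classical
  have hp : p.Prime := Fact.out
  obtain ⟨A, d, hd, e⟩ := (mem_levi hφ).mp hg
  have hpow : ∀ j : ℕ, ∃ B, g ^ j = φ B * d ^ j := by
    intro j
    induction j with
    | zero => exact ⟨1, by simp⟩
    | succ j ih =>
      obtain ⟨B, eB⟩ := ih
      obtain ⟨C', hC'⟩ : ∃ C', φ C' = d ^ j * φ A * (d ^ j)⁻¹ :=
        MonoidHom.mem_range.mp
          ((Subgroup.mem_normalizer_iff.mp (levi_normalised hφ (pow_mem hd j)) (φ A)).mp ⟨A, rfl⟩)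
      exact ⟨B * C', by rw [pow_succ, eB, e, map_mul, hC', pow_succ]; group⟩
  obtain ⟨B, eB⟩ := hpow (p ^ k)
  rw [hk] at eB
  have hcop : (orderOf d).Coprime (p ^ k) := by
    obtain ⟨c, rfl⟩ := exists_tor hd
    rw [orderOf_tor]
    obtain ⟨n, -, hn⟩ := FiniteField.card F p
    refine Nat.Coprime.pow_right _ (Nat.Coprime.coprime_dvd_left
      (orderOf_dvd_of_pow_eq_one (show c ^ (Fintype.card F - 1) = 1 from Prod.ext ?_ ?_)) ?_)
    · rw [Prod.pow_fst, ← Fintype.card_units, pow_card_eq_one]; rfl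
    · rw [Prod.pow_snd, ← Fintype.card_units, pow_card_eq_one]; rfl
    · refine ((hp.coprime_iff_not_dvd).mpr fun hdvd => ?_).symm
      have hq : p ∣ Fintype.card F := hn ▸ dvd_pow_self p n.ne_zero
      have h1 := Nat.dvd_sub hq hdvd
      rw [Nat.sub_sub_self Fintype.card_pos] at h1
      exact hp.one_lt.ne' (Nat.dvd_one.mp h1)
  obtain ⟨j, hj⟩ := exists_pow_eq_self_of_coprime hcop.symm
  obtain ⟨A', hA'⟩ : ∃ A', φ A' = g := by
    refine ⟨A * (B⁻¹) ^ j, ?_⟩
    rw [e, map_mul, map_pow, map_inv, ← eq_inv_of_mul_eq_one_right eB.symm, hj]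
  obtain ⟨a, m, hm, eord⟩ : ∃ a m, ¬ p ∣ m ∧ orderOf A' = p ^ a * m :=
    Nat.exists_eq_pow_mul_and_not_dvd (orderOf_pos A').ne' p hp.ne_one
  have h1 : g ^ (m * p) = 1 := by
    have h2 : (A' ^ m) ^ p ^ a = 1 := by rw [← pow_mul, mul_comm m, ← eord, pow_orderOf_eq_one]
    rw [← hA', ← map_pow, pow_mul, sl2_pow_char h2, map_one]
  refine orderOf_dvd_iff_pow_eq_one.mp (Nat.Coprime.dvd_of_dvd_mul_left
    (Nat.Coprime.coprime_dvd_left (orderOf_dvd_of_pow_eq_one hk) ?_) (orderOf_dvd_of_pow_eq_one h1))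
  exact Nat.Coprime.pow_left k ((hp.coprime_iff_not_dvd).mpr hm)

end Cfsg.Agent.KnownA.G2Spec
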