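import Cfsg.Agent.KnownA.G2Spec.Exist

/-!
The maximal element orders of `G₂(q)`.
-/

set_option autoImplicit false
set_option linter.unusedSectionVars false

universe u

namespace Cfsg.Agent.KnownA.G2Spec

open Cfsg.Lie Cfsg.Agent.Chev Cfsg.Agent.Chev.G2Odd

theorem mem_range_orderOf {G : Type*} [Group G] (H : Subgroup G) (n : ℕ) :
    n ∈ Set.range (orderOf : ↥H → ℕ) ↔ ∃ g ∈ H, orderOf g = n := by
  constructor
  · rintro ⟨g, rfl⟩
    exact ⟨g, g.2, Subgroup.orderOf_coe g⟩
  · rintro ⟨g, hg, rfl⟩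
    exact ⟨⟨g, hg⟩, (Subgroup.orderOf_coe (⟨g, hg⟩ : ↥H)).symm⟩

/-- The maximal elements of a set of numbers bounded by an antichain contained in it. -/
theorem maximal_eq_of_antichain {R S : Set ℕ} (hS : S ⊆ R) (hB : ∀ n ∈ R, ∃ l ∈ S, n ∣ l)
    (hA : ∀ l ∈ S, ∀ l' ∈ S, l ∣ l' → l = l') :
    {n : ℕ | n ∈ R ∧ ∀ m ∈ R, n ∣ m → m = n} = S := by
  ext n
  constructor
  · rintro ⟨hn, hmax⟩
    obtain ⟨l, hl, hd⟩ := hB n hn
    rwa [← hmax l (hS hl) hd]
  · intro hn
    refine ⟨hS hn, fun m hm hd => ?_⟩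
    obtain ⟨l, hl, hd'⟩ := hB m hm
    have := hA n hn l hl (hd.trans hd')
    subst this
    exact Nat.dvd_antisymm hd' hd

variable {F : Type u} [Field F] [Fintype F] (p : ℕ) [Fact p.Prime] [CharP F p]

include p in
theorem realised (hq : 4 ≤ Fintype.card F) :
    ∀ n ∈ ({p * (Fintype.card F + 1), p * (Fintype.card F - 1), Fintype.card F ^ 2 - 1,
      Fintype.card F ^ 2 + Fintype.card F + 1, Fintype.card F ^ 2 - Fintype.card F + 1} : Set ℕ),
      n ∈ Set.range (orderOf : ↥(chevG2.group F) → ℕ) := by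
  set q := Fintype.card F with hqdef
  have hp : p.Prime := Fact.out
  obtain ⟨k, -, hk⟩ := FiniteField.card F p
  have hpq : p ∣ q := by rw [hqdef, hk]; exact dvd_pow_self p k.ne_zero
  have hc1 : (q + 1).Coprime p := ((hp.coprime_iff_not_dvd).mpr fun h => hp.not_dvd_one (by
    have := Nat.dvd_sub h hpq; rwa [Nat.add_sub_cancel_left] at this)).symm
  have hc2 : (q - 1).Coprime p := ((hp.coprime_iff_not_dvd).mpr fun h => hp.not_dvd_one (by
    have := Nat.dvd_sub hpq h; rwa [show q - (q - 1) = 1 by omega] at this)).symm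
  intro n hn
  rw [mem_range_orderOf]
  simp only [Set.mem_insert_iff, Set.mem_singleton_iff] at hn
  rcases hn with rfl | rfl | rfl | rfl | rfl
  · exact exists_mul_char p hc1 (exists_reflection_torus p (by omega)).2
  · exact exists_mul_char p hc2 exists_split_singular
  · exact (exists_reflection_torus p (by omega)).1
  · exact exists_singer_order (by omega)
  · exact exists_coxeter_torus p hq

/-- No member of the list of maximal orders divides another. -/
theorem antichain_odd {q : ℕ} (hp : p.Prime) (hp2 : p ≠ 2) (hpq : p ∣ q) (hq : 5 ≤ q) (hodd : Odd q) :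
    ∀ l ∈ ({p * (q + 1), p * (q - 1), q ^ 2 - 1, q ^ 2 + q + 1, q ^ 2 - q + 1} : Set ℕ) ∪
      (if p = 3 ∨ p = 5 then ({p ^ 2} : Set ℕ) else ∅),
    ∀ l' ∈ ({p * (q + 1), p * (q - 1), q ^ 2 - 1, q ^ 2 + q + 1, q ^ 2 - q + 1} : Set ℕ) ∪
      (if p = 3 ∨ p = 5 then ({p ^ 2} : Set ℕ) else ∅),
    l ∣ l' → l = l' := by
  have hpos := hp.pos
  have hple : p ≤ q := Nat.le_of_dvd (by omega) hpq
  have h5 : 5 * q ≤ q ^ 2 := by rw [sq]; exact Nat.mul_le_mul_right q hq
  have hpq2 : p ∣ q ^ 2 := hpq.pow two_ne_zero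
  have nA : ¬ p ∣ q + 1 := fun h => hp.not_dvd_one (by
    have := Nat.dvd_sub h hpq; rwa [Nat.add_sub_cancel_left] at this)
  have nB : ¬ p ∣ q - 1 := fun h => hp.not_dvd_one (by
    have := Nat.dvd_sub hpq h; rwa [show q - (q - 1) = 1 by omega] at this)
  have nC : ¬ p ∣ q ^ 2 - 1 := fun h => hp.not_dvd_one (by
    have := Nat.dvd_sub hpq2 h; rwa [show q ^ 2 - (q ^ 2 - 1) = 1 by omega] at this)
  have nD : ¬ p ∣ q ^ 2 + q + 1 := fun h => hp.not_dvd_one (by
    have := Nat.dvd_sub h (dvd_add hpq2 hpq); rwa [Nat.add_sub_cancel_left] at this)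
  have nE : ¬ p ∣ q ^ 2 - q + 1 := fun h => hp.not_dvd_one (by
    have := Nat.dvd_sub h (Nat.dvd_sub hpq2 hpq); rwa [Nat.add_sub_cancel_left] at this)
  have strip : ∀ {x y : ℕ}, ¬ p ∣ x → x ∣ p * y → x ∣ y := fun hx h =>
    ((hp.coprime_iff_not_dvd).mpr hx).symm.dvd_of_dvd_mul_left h
  have le : ∀ {x y : ℕ}, 0 < y → x ∣ y → x ≤ y := fun hy h => Nat.le_of_dvd hy h
  have AB : ¬ p * (q + 1) ∣ p * (q - 1) := fun h => by
    have := le (by omega) ((Nat.mul_dvd_mul_iff_left hpos).mp h); omega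
  have BA : ¬ p * (q - 1) ∣ p * (q + 1) := fun h => by
    have := le (by omega) (Nat.dvd_sub ((Nat.mul_dvd_mul_iff_left hpos).mp h) (dvd_refl (q - 1))); omega
  have CA : ¬ q ^ 2 - 1 ∣ p * (q + 1) := fun h => by have := le (by omega) (strip nC h); omega
  have CB : ¬ q ^ 2 - 1 ∣ p * (q - 1) := fun h => by have := le (by omega) (strip nC h); omega
  have DA : ¬ q ^ 2 + q + 1 ∣ p * (q + 1) := fun h => by have := le (by omega) (strip nD h); omega
  have DB : ¬ q ^ 2 + q + 1 ∣ p * (q - 1) := fun h => by have := le (by omega) (strip nD h); omega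
  have EA : ¬ q ^ 2 - q + 1 ∣ p * (q + 1) := fun h => by have := le (by omega) (strip nE h); omega
  have EB : ¬ q ^ 2 - q + 1 ∣ p * (q - 1) := fun h => by have := le (by omega) (strip nE h); omega
  have CD : ¬ q ^ 2 - 1 ∣ q ^ 2 + q + 1 := fun h => by
    have := le (by omega) (Nat.dvd_sub h (dvd_refl (q ^ 2 - 1))); omega
  have DC : ¬ q ^ 2 + q + 1 ∣ q ^ 2 - 1 := fun h => by have := le (by omega) h; omega
  have CE : ¬ q ^ 2 - 1 ∣ q ^ 2 - q + 1 := fun h => by have := le (by omega) h; omega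
  have EC : ¬ q ^ 2 - q + 1 ∣ q ^ 2 - 1 := fun h => by
    have := le (by omega) (Nat.dvd_sub h (dvd_refl (q ^ 2 - q + 1))); omega
  have DE : ¬ q ^ 2 + q + 1 ∣ q ^ 2 - q + 1 := fun h => by have := le (by omega) h; omega
  have ED : ¬ q ^ 2 - q + 1 ∣ q ^ 2 + q + 1 := fun h => by
    have := le (by omega) (Nat.dvd_sub h (dvd_refl (q ^ 2 - q + 1))); omega
  have AP : ¬ p * (q + 1) ∣ p * p := fun h => by
    have := le hpos ((Nat.mul_dvd_mul_iff_left hpos).mp h); omega
  have BP : ¬ p * (q - 1) ∣ p * p := fun h => by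
    rcases (Nat.dvd_prime hp).mp ((Nat.mul_dvd_mul_iff_left hpos).mp h) with h1 | h1
    · omega
    · have := (hp.odd_of_ne_two hp2).not_two_dvd_nat
      rw [← h1] at this
      obtain ⟨k, rfl⟩ := hodd
      exact this ⟨k, by omega⟩
  have nP : ∀ {x : ℕ}, ¬ p ∣ x → ¬ p * p ∣ p * x := fun hx h =>
    hx ((Nat.mul_dvd_mul_iff_left hpos).mp h)
  have small : ∀ {x : ℕ}, 1 < x → ¬ p ∣ x → ¬ x ∣ p * p := fun hx hn h => by
    have h1 := strip hn (h.trans (by rw [mul_comm]))
    rcases (Nat.dvd_prime hp).mp h1 with rfl | rfl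
    · omega
    · exact hn dvd_rfl
  intro l hl l' hl' h
  simp only [Set.mem_union, Set.mem_insert_iff, Set.mem_singleton_iff] at hl hl'
  have conv : ∀ x, x ∈ (if p = 3 ∨ p = 5 then ({p ^ 2} : Set ℕ) else ∅) → x = p * p := fun x hx => by
    split_ifs at hx with h35
    · rw [Set.mem_singleton_iff] at hx; rw [hx, sq]
    · exact hx.elim
  have out : ∀ {x y : ℕ}, p ∣ x → ¬ p ∣ y → ¬ x ∣ y := fun hx hy h => hy (hx.trans h)
  have dA : p ∣ p * (q + 1) := dvd_mul_right _ _
  have dB : p ∣ p * (q - 1) := dvd_mul_right _ _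
  have dP : p ∣ p * p := dvd_mul_right _ _
  rcases hl with (rfl | rfl | rfl | rfl | rfl) | hl <;> rcases hl' with (rfl | rfl | rfl | rfl | rfl) | hl'
  all_goals (try rw [conv _ hl] at h ⊢)
  all_goals (try rw [conv _ hl'] at h ⊢)
  all_goals first
    | rfl
    | exact absurd h AB | exact absurd h BA | exact absurd h CA | exact absurd h CB | exact absurd h DA
    | exact absurd h DB | exact absurd h EA | exact absurd h EB | exact absurd h CD | exact absurd h DC
    | exact absurd h CE | exact absurd h EC | exact absurd h DE | exact absurd h ED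
    | exact absurd h AP | exact absurd h BP | exact absurd h (nP nA) | exact absurd h (nP nB)
    | exact absurd h (out dA nC) | exact absurd h (out dA nD) | exact absurd h (out dA nE)
    | exact absurd h (out dB nC) | exact absurd h (out dB nD) | exact absurd h (out dB nE)
    | exact absurd h (out dP nC) | exact absurd h (out dP nD) | exact absurd h (out dP nE)
    | exact absurd h (small (by omega) nC) | exact absurd h (small (by omega) nD)
    | exact absurd h (small (by omega) nE)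

/-- The maximal orders in odd characteristic. -/
theorem maximal_orders_odd (hp2 : p ≠ 2) (hq : 5 ≤ Fintype.card F) :
    {n : ℕ | n ∈ Set.range (orderOf : ↥(chevG2.group F) → ℕ) ∧
        ∀ m ∈ Set.range (orderOf : ↥(chevG2.group F) → ℕ), n ∣ m → m = n} =
      ({p * (Fintype.card F + 1), p * (Fintype.card F - 1), Fintype.card F ^ 2 - 1,
        Fintype.card F ^ 2 + Fintype.card F + 1, Fintype.card F ^ 2 - Fintype.card F + 1} : Set ℕ) ∪
        (if p = 3 ∨ p = 5 then ({p ^ 2} : Set ℕ) else ∅) := by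
  have hp : p.Prime := Fact.out
  obtain ⟨k, -, hk⟩ := FiniteField.card F p
  refine maximal_eq_of_antichain ?_ ?_
    (antichain_odd p hp hp2 (by rw [hk]; exact dvd_pow_self p k.ne_zero) hq (hk ▸ (hp.odd_of_ne_two hp2).pow))
  · rintro n (hn | hn)
    · exact realised p (by omega) n hn
    · split_ifs at hn with h35
      · rw [Set.mem_singleton_iff] at hn
        subst hn
        exact (mem_range_orderOf _ _).mpr (exists_sq p h35)
      · exact hn.elim
  · intro n hn
    obtain ⟨g, hg, rfl⟩ := (mem_range_orderOf _ _).mp hn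
    exact order_bound_odd p hp2 hg

/-- The maximal orders in characteristic two. -/
theorem maximal_orders_even {F : Type u} [Field F] [Fintype F] [CharP F 2] (hq : 4 ≤ Fintype.card F) :
    {n : ℕ | n ∈ Set.range (orderOf : ↥(chevG2.group F) → ℕ) ∧
        ∀ m ∈ Set.range (orderOf : ↥(chevG2.group F) → ℕ), n ∣ m → m = n} ⊆
      ({8, 12, 2 * (Fintype.card F + 1), 2 * (Fintype.card F - 1), Fintype.card F ^ 2 - 1,
        Fintype.card F ^ 2 + Fintype.card F + 1, Fintype.card F ^ 2 - Fintype.card F + 1} : Set ℕ) ∧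
    ({8, 12, 2 * (Fintype.card F + 1), 2 * (Fintype.card F - 1), Fintype.card F ^ 2 - 1,
        Fintype.card F ^ 2 + Fintype.card F + 1, Fintype.card F ^ 2 - Fintype.card F + 1} : Set ℕ) ⊆
      Set.range (orderOf : ↥(chevG2.group F) → ℕ) := by
  haveI : Fact (Nat.Prime 2) := ⟨Nat.prime_two⟩
  have h2 : ({8, 12, 2 * (Fintype.card F + 1), 2 * (Fintype.card F - 1), Fintype.card F ^ 2 - 1,
        Fintype.card F ^ 2 + Fintype.card F + 1, Fintype.card F ^ 2 - Fintype.card F + 1} : Set ℕ) ⊆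
      Set.range (orderOf : ↥(chevG2.group F) → ℕ) := by
    rintro n (rfl | rfl | hn)
    · exact (mem_range_orderOf _ _).mpr exists_eight
    · exact (mem_range_orderOf _ _).mpr exists_twelve
    · exact realised 2 hq n hn
  refine ⟨?_, h2⟩
  rintro n ⟨hn, hmax⟩
  obtain ⟨g, hg, rfl⟩ := (mem_range_orderOf _ _).mp hn
  obtain ⟨l, hl, hd⟩ := order_bound_even hg
  rwa [← hmax l (h2 hl) hd]

end Cfsg.Agent.KnownA.G2Spec
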