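import Cfsg.Agent.Chev.Weyl
import Cfsg.Prelude.Def_LieChev

/-!
Finite tables for the Weyl group of type `G₂` acting on the roots and their Cartan vectors.
-/

set_option autoImplicit false
set_option synthInstance.maxSize 4000

namespace Cfsg.Agent.KnownA.G2Spec

open Cfsg.Lie Cfsg.Agent.Chev

/-- The Cartan vector of a root. -/
def vec (s : ℕ) : ℤ × ℤ := (chevG2.cartan 0 s, chevG2.cartan 1 s)

/-- Representatives of the twelve elements of the Weyl group. -/
def W12 : List (List ℕ) :=
  [[], [0], [1], [0, 1], [1, 0], [0, 1, 0], [1, 0, 1], [0, 1, 0, 1], [1, 0, 1, 0], [0, 1, 0, 1, 0],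
    [1, 0, 1, 0, 1], [0, 1, 0, 1, 0, 1]]

theorem W12_lt : ∀ w ∈ W12, ∀ i ∈ w, i < 2 := by decide +kernel

theorem act_lt12 : ∀ w ∈ W12, ∀ r < 12, act chevG2 w r < 12 := by decide +kernel

theorem W12_step : ∀ w ∈ W12, ∀ i < 2, ∃ w' ∈ W12, ∀ r < 12, act chevG2 (i :: w) r = act chevG2 w' r := by
  decide +kernel

theorem exists_W12 (L : List ℕ) (hL : ∀ i ∈ L, i < 2) :
    ∃ w ∈ W12, ∀ r < 12, act chevG2 L r = act chevG2 w r := by
  induction L with
  | nil => exact ⟨[], by simp [W12], fun r _ => rfl⟩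
  | cons i L ih =>
    obtain ⟨w, hw, hwr⟩ := ih fun x hx => hL x (List.mem_cons_of_mem _ hx)
    obtain ⟨w', hw', hwr'⟩ := W12_step w hw i (hL i List.mem_cons_self)
    exact ⟨w', hw', fun r hr => by rw [act_cons, hwr r hr, ← act_cons, hwr' r hr]⟩

theorem neg_eq : ∀ r < 12, chevG2.neg r = 11 - r := by decide +kernel

theorem vec_simple : vec 7 = (2, -1) ∧ vec 6 = (-3, 2) := by decide +kernel

theorem vec_neg : ∀ r < 12, vec (11 - r) = -vec r := by decide +kernel

/-- Two roots not on one line span a lattice of index at most three. -/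
theorem index_table : ∀ r < 12, ∀ s < 12, s ≠ r → s ≠ 11 - r → ∃ k ∈ ([2, 3] : List ℕ),
    ((vec r).1 * (vec s).2 - (vec r).2 * (vec s).1) ∣ ((k : ℕ) : ℤ) ∧
      (vec r).1 * (vec s).2 - (vec r).2 * (vec s).1 ≠ 0 := by decide +kernel

/-- An element of the Weyl group moves some root by a root, unless it is `1` or `-1`. -/
theorem fix_table : ∀ w ∈ W12, (∀ r < 12, act chevG2 w r = r) ∨ (∀ r < 12, act chevG2 w r = 11 - r) ∨
    ∃ r < 12, ∃ s < 12, vec (act chevG2 w r) - vec r = vec s := by decide +kernel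

/-- The same, avoiding the line of a simple root. -/
theorem fix_table_one : ∀ i < 2, ∀ w ∈ W12, (∀ r < 12, act chevG2 w r = r) ∨
    (∀ r < 12, act chevG2 w r = chevG2.reflectRoot i r) ∨ (∀ r < 12, act chevG2 w r = 11 - r) ∨
    ∃ r < 12, ∃ s < 12, vec (act chevG2 w r) - vec r = vec s ∧ s ≠ chevG2.simple i ∧
      s ≠ 11 - chevG2.simple i := by decide +kernel

/-- The five kinds of twisted tori. -/
theorem torus_table : ∀ w ∈ W12, (∀ r < 12, act chevG2 w r = r) ∨ (∀ r < 12, act chevG2 w r = 11 - r) ∨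
    (∀ r < 12, act chevG2 w (act chevG2 w r) = r) ∨
    (∀ r < 12, vec (act chevG2 w (act chevG2 w r)) + vec r = vec (act chevG2 w r)) ∨
    (∀ r < 12, vec (act chevG2 w (act chevG2 w r)) + vec (act chevG2 w r) + vec r = 0) := by decide +kernel

/-- The elements of the Weyl group fixing the line of a simple root act as `±1` modulo it. -/
theorem line_table : ∀ i < 2, ∀ w ∈ W12,
    act chevG2 w (chevG2.simple i) = chevG2.simple i ∨ act chevG2 w (chevG2.simple i) = 11 - chevG2.simple i →
    (∀ r < 12, ∃ k ∈ ([-3, -2, -1, 0, 1, 2, 3] : List ℤ),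
      vec (act chevG2 w r) - vec r = k • vec (chevG2.simple i)) ∨
    (∀ r < 12, ∃ k ∈ ([-3, -2, -1, 0, 1, 2, 3] : List ℤ),
      vec (act chevG2 w r) + vec r = k • vec (chevG2.simple i)) := by decide +kernel

/-- Every root is carried to a simple root. -/
theorem to_simple_table : ∀ r < 12, ∃ w ∈ W12, ∃ i < 2, act chevG2 w r = chevG2.simple i := by
  decide +kernel

/-- The elements of order three of the Weyl group have norm zero. -/
theorem order_three_table : ∀ w ∈ W12, (∀ r < 12, act chevG2 w (act chevG2 w (act chevG2 w r)) = r) →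
    (∀ r < 12, act chevG2 w r = r) ∨
      ∀ r < 12, vec r + vec (act chevG2 w r) + vec (act chevG2 w (act chevG2 w r)) = 0 := by decide +kernel

/-- Roots are primitive vectors. -/
theorem vec_primitive : ∀ r < 12, (vec r).1.natAbs.Coprime (vec r).2.natAbs := by decide +kernel

end Cfsg.Agent.KnownA.G2Spec
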