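import Cfsg.Agent.KnownA.G2Spec.Generic
import Cfsg.Agent.KnownA.G2Spec.Table
import Cfsg.Agent.Chev.G2Odd.Basic

/-!
The diagonal subgroup of `G₂` and the centralizers of its elements.
-/

set_option autoImplicit false
set_option linter.unusedSectionVars false

universe u v

namespace Cfsg.Agent.KnownA.G2Spec

open Cfsg.Lie Cfsg.Agent.Chev Cfsg.Agent.Chev.G2Odd Cfsg.Agent.Chars2.Homocyclic
open scoped Matrix MatrixGroups

variable {F : Type u} [Field F]

theorem lt12 {r : ℕ} (h : r < 12) : r < chevG2.nroots := h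

theorem rank_two : chevG2.rank = 2 := rfl

/-- A character of the root lattice from a pair of units. -/
def ev (c : Fˣ × Fˣ) (v : ℤ × ℤ) : Fˣ := c.1 ^ v.1 * c.2 ^ v.2

theorem ev_add (c : Fˣ × Fˣ) (v w : ℤ × ℤ) : ev c (v + w) = ev c v * ev c w := by
  simp [ev, zpow_add, mul_mul_mul_comm]

theorem ev_zero (c : Fˣ × Fˣ) : ev c 0 = 1 := by simp [ev]

theorem ev_zsmul (c : Fˣ × Fˣ) (k : ℤ) (v : ℤ × ℤ) : ev c (k • v) = ev c v ^ k := by
  simp only [ev, mul_zpow, ← zpow_mul, Prod.smul_fst, Prod.smul_snd, smul_eq_mul, mul_comm k]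

theorem ev_neg (c : Fˣ × Fˣ) (v : ℤ × ℤ) : ev c (-v) = (ev c v)⁻¹ := by
  rw [← zpow_neg_one, ← ev_zsmul, neg_one_zsmul]

theorem ev_sub (c : Fˣ × Fˣ) (v w : ℤ × ℤ) : ev c (v - w) = ev c v * (ev c w)⁻¹ := by
  rw [sub_eq_add_neg, ev_add, ev_neg]

theorem ev_pow_left (c : Fˣ × Fˣ) (n : ℕ) (v : ℤ × ℤ) : ev (c ^ n) v = ev c v ^ n := by
  simp only [ev, mul_pow, Prod.pow_fst, Prod.pow_snd]
  rw [← zpow_natCast c.1, ← zpow_natCast c.2, ← zpow_natCast (c.1 ^ v.1), ← zpow_natCast (c.2 ^ v.2),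
    ← zpow_mul, ← zpow_mul, ← zpow_mul, ← zpow_mul, mul_comm (n : ℤ), mul_comm (n : ℤ)]

/-- The value at a root. -/
def chi (c : Fˣ × Fˣ) (s : ℕ) : Fˣ := ev c (vec s)

theorem chi_neg (c : Fˣ × Fˣ) {r : ℕ} (hr : r < 12) : chi c (11 - r) = (chi c r)⁻¹ := by
  rw [chi, vec_neg r hr, ev_neg]; rfl

theorem eq_one_of_simple {c : Fˣ × Fˣ} (h7 : chi c 7 = 1) (h6 : chi c 6 = 1) : c = 1 := by
  have h1 : (2 : ℤ) • vec 7 + vec 6 = (1, 0) := by decide +kernel
  have h2 : (3 : ℤ) • vec 7 + (2 : ℤ) • vec 6 = (0, 1) := by decide +kernel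
  have e1 := congrArg (ev c) h1
  have e2 := congrArg (ev c) h2
  simp only [chi] at h7 h6
  rw [ev_add, ev_zsmul, h7, h6] at e1
  rw [ev_add, ev_zsmul, ev_zsmul, h7, h6] at e2
  refine Prod.ext ?_ ?_
  · simpa [ev] using e1.symm
  · simpa [ev] using e2.symm

/-- The element of the diagonal subgroup of a pair of units. -/
noncomputable def tor (c : Fˣ × Fˣ) : GL chevG2.Idx F :=
  (cG.{u}).torusElt fun k => if k = 0 then (c.1 : F) else (c.2 : F)

theorem coe_tor (c : Fˣ × Fˣ) :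
    (tor c : Matrix chevG2.Idx chevG2.Idx F) = dMat chevG2 (fun s => ((chi c s : Fˣ) : F)) := by
  rw [tor, (cG.{u}).coe_torusElt (fun k _ => by split <;> exact Units.ne_zero _)]
  refine dMat_congr fun s _ => ?_
  simp [rank_two, Finset.prod_range_succ, cartChar, chi, ev, vec]

theorem tor_mem (c : Fˣ × Fˣ) : tor c ∈ chevG2.diagonalSubgroup F :=
  (cG.{u}).mem_diagonal_iff.mpr ⟨_, fun k _ => by split <;> exact Units.ne_zero _, rfl⟩

theorem tor_mem_group (c : Fˣ × Fˣ) : tor c ∈ chevG2.group F := (cG.{u}).diagonal_le_group (tor_mem c)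

theorem exists_tor {h : GL chevG2.Idx F} (hh : h ∈ chevG2.diagonalSubgroup F) : ∃ c, h = tor c := by
  obtain ⟨c, hc, rfl⟩ := (cG.{u}).mem_diagonal_iff.mp hh
  refine ⟨(Units.mk0 (c 0) (hc 0 (by decide)), Units.mk0 (c 1) (hc 1 (by decide))), Units.ext ?_⟩
  rw [coe_tor, (cG.{u}).coe_torusElt hc]
  refine dMat_congr fun s _ => ?_
  simp [rank_two, Finset.prod_range_succ, cartChar, chi, ev, vec]

theorem tor_one : tor (1 : Fˣ × Fˣ) = 1 := by
  refine Units.ext ?_
  rw [coe_tor, Units.val_one, ← dMat_one]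
  exact dMat_congr fun s _ => by simp [chi, ev]

theorem tor_mul (c c' : Fˣ × Fˣ) : tor (c * c') = tor c * tor c' := by
  refine Units.ext ?_
  rw [Units.val_mul, coe_tor, coe_tor, coe_tor, dMat_mul]
  exact dMat_congr fun s _ => by simp [chi, ev, mul_zpow]; ring

/-- The parametrisation as a homomorphism. -/
noncomputable def torHom : Fˣ × Fˣ →* GL chevG2.Idx F where
  toFun := tor
  map_one' := tor_one
  map_mul' := tor_mul

theorem tor_pow (c : Fˣ × Fˣ) (n : ℕ) : tor (c ^ n) = tor c ^ n := map_pow torHom c n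

theorem tor_eq_one {c : Fˣ × Fˣ} (h : tor c = 1) : c = 1 := by
  have key : ∀ s < 12, chi c s = 1 := fun s hs => Units.ext (by
    have := (diag_pow_eq_one (cG.{u}) (coe_tor c) 1).mp (by rw [pow_one]; exact h) s (lt12 hs)
    simpa using this)
  exact eq_one_of_simple (key 7 (by norm_num)) (key 6 (by norm_num))

theorem tor_injective : Function.Injective (tor : Fˣ × Fˣ → GL chevG2.Idx F) :=
  (injective_iff_map_eq_one torHom).mpr fun _ h => tor_eq_one h

theorem orderOf_tor (c : Fˣ × Fˣ) : orderOf (tor c) = orderOf c :=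
  orderOf_injective torHom tor_injective c

theorem exists_char (c : Fˣ × Fˣ) : ∃ χ : ℕ → F, IsChar chevG2 χ ∧
    (tor c : Matrix chevG2.Idx chevG2.Idx F) = dMat chevG2 χ ∧ ∀ s < 12, χ s = chi c s := by
  obtain ⟨χ, hχ, -, e⟩ := (cG.{u}).diagonal_char (tor_mem c)
  exact ⟨χ, hχ, e, fun s hs => (dMat_entry e (lt12 hs)).symm.trans (dMat_entry (coe_tor c) (lt12 hs))⟩

theorem tor_conj_xu (c : Fˣ × Fˣ) {r : ℕ} (hr : r < 12) (t : F) :
    tor c * (cG.{u}).xu r t * (tor c)⁻¹ = (cG.{u}).xu r ((chi c r : F) * t) := by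
  obtain ⟨χ, hχ, e, hval⟩ := exists_char c
  rw [diag_conj_xu (cG.{u}) hχ e (lt12 hr), hval r hr]

theorem gmap_tor {K : Type v} [Field K] (f : F →+* K) (c : Fˣ × Fˣ) :
    gmap chevG2 f (tor c) = tor ((Units.map (f : F →* K) c.1, Units.map (f : F →* K) c.2)) := by
  refine Units.ext ?_
  rw [coe_gmap, coe_tor, dMat_map, coe_tor]
  refine dMat_congr fun s _ => ?_
  show f ((chi c s : Fˣ) : F) = _
  simp [chi, ev, map_zpow₀]

theorem gmap_frob_tor {φ : F →+* F} {q : ℕ} (hφ : ∀ t, φ t = t ^ q) (c : Fˣ × Fˣ) :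
    gmap chevG2 φ (tor c) = tor c ^ q := by
  rw [gmap_tor, ← tor_pow]
  congr 1
  exact Prod.ext (Units.ext (by simp [hφ])) (Units.ext (by simp [hφ]))

/-- The characters of conjugate diagonal elements. -/
theorem chi_act {c c' : Fˣ × Fˣ} {L : List ℕ} (hL : ∀ i ∈ L, i < 2)
    (h : (cG.{u}).nWordElt F L * tor c * ((cG.{u}).nWordElt F L)⁻¹ = tor c') {r : ℕ} (hr : r < 12) :
    chi c' (act chevG2 L r) = chi c r := by
  obtain ⟨χ, hχ, e, hval⟩ := exists_char c
  obtain ⟨χ', hχ', e', hval'⟩ := exists_char c'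
  have hlt : act chevG2 L r < 12 := (cG.{u}).act_lt hL (lt12 hr)
  have := char_act (cG.{u}) hχ hχ' e e' hL h (lt12 hr)
  rw [hval' _ hlt, hval r hr] at this
  exact Units.ext this

/-- An element of order dividing two or three. -/
def Small (c : Fˣ × Fˣ) : Prop := c ^ 2 = 1 ∨ c ^ 3 = 1

theorem small_of_two_roots {c : Fˣ × Fˣ} {r s : ℕ} (hr : r < 12) (hs : s < 12) (h1 : s ≠ r) (h2 : s ≠ 11 - r)
    (er : chi c r = 1) (es : chi c s = 1) : Small c := by
  obtain ⟨k, hk, ⟨m, hm⟩, hD⟩ := index_table r hr s hs h1 h2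
  set D := (vec r).1 * (vec s).2 - (vec r).2 * (vec s).1 with hDdef
  have e1 : ((m * (vec s).2) • vec r + (-(m * (vec r).2)) • vec s) = ((k : ℤ), 0) := by
    refine Prod.ext ?_ ?_ <;> simp [hm, hDdef] <;> ring
  have e2 : ((-(m * (vec s).1)) • vec r + (m * (vec r).1) • vec s) = (0, (k : ℤ)) := by
    refine Prod.ext ?_ ?_ <;> simp [hm, hDdef] <;> ring
  have f1 := congrArg (ev c) e1
  have f2 := congrArg (ev c) e2
  simp only [chi] at er es
  rw [ev_add, ev_zsmul, ev_zsmul, er, es] at f1 f2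
  have hc : c ^ k = 1 := by
    refine Prod.ext ?_ ?_
    · simpa [ev] using f1.symm
    · simpa [ev] using f2.symm
  simp only [List.mem_cons, List.not_mem_nil, or_false] at hk
  rcases hk with rfl | rfl
  · exact Or.inl hc
  · exact Or.inr hc

/-- A diagonal element of order above three is regular or singular at one pair of roots only. -/
theorem kind {c : Fˣ × Fˣ} (hc : ¬ Small c) : (∀ r < 12, chi c r ≠ 1) ∨
    ∃ r₀ < 12, chi c r₀ = 1 ∧ ∀ s < 12, chi c s = 1 → s = r₀ ∨ s = 11 - r₀ := by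
  by_cases h : ∀ r < 12, chi c r ≠ 1
  · exact Or.inl h
  push_neg at h
  obtain ⟨r, hr, er⟩ := h
  refine Or.inr ⟨r, hr, er, fun s hs es => ?_⟩
  by_contra hne
  push_neg at hne
  exact hc (small_of_two_roots hr hs hne.1 hne.2 er es)

theorem small_of_neg_fixed {c : Fˣ × Fˣ} (h : ∀ r < 12, chi c (11 - r) = chi c r) : Small c := by
  refine Or.inl (eq_one_of_simple ?_ ?_)
  all_goals
    rw [chi, ev_pow_left, sq]
    exact mul_eq_one_iff_eq_inv.mpr (((chi_neg c (by norm_num)).symm.trans (h _ (by norm_num))).symm)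

theorem chi_diff_one {c : Fˣ × Fˣ} {r r' s : ℕ} (h : chi c r' = chi c r) (e : vec r' - vec r = vec s) :
    chi c s = 1 := by
  rw [chi, ← e, ev_sub]; exact mul_inv_eq_one.mpr h

theorem act_id_of_regular {c : Fˣ × Fˣ} (hc : ¬ Small c) (hreg : ∀ r < 12, chi c r ≠ 1) {L : List ℕ}
    (hL : ∀ i ∈ L, i < 2) (h : ∀ r < 12, chi c (act chevG2 L r) = chi c r) :
    ∀ r < 12, act chevG2 L r = r := by
  obtain ⟨w, hw, hwL⟩ := exists_W12 L hL
  rcases fix_table w hw with h1 | h1 | ⟨r, hr, s, hs, e⟩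
  · exact fun r hr => (hwL r hr).trans (h1 r hr)
  · exact absurd (small_of_neg_fixed fun r hr => by rw [← h1 r hr, ← hwL r hr]; exact h r hr) hc
  · exact absurd (chi_diff_one (by rw [← hwL r hr]; exact h r hr) e) (hreg s hs)

theorem act_cases_of_one {c : Fˣ × Fˣ} (hc : ¬ Small c) {i : ℕ} (hi : i < 2)
    (hone : ∀ s < 12, chi c s = 1 → s = chevG2.simple i ∨ s = 11 - chevG2.simple i) {L : List ℕ}
    (hL : ∀ j ∈ L, j < 2) (h : ∀ r < 12, chi c (act chevG2 L r) = chi c r) :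
    (∀ r < 12, act chevG2 L r = r) ∨ ∀ r < 12, act chevG2 L r = chevG2.reflectRoot i r := by
  obtain ⟨w, hw, hwL⟩ := exists_W12 L hL
  rcases fix_table_one i hi w hw with h1 | h1 | h1 | ⟨r, hr, s, hs, e, hs1, hs2⟩
  · exact Or.inl fun r hr => (hwL r hr).trans (h1 r hr)
  · exact Or.inr fun r hr => (hwL r hr).trans (h1 r hr)
  · exact absurd (small_of_neg_fixed fun r hr => by rw [← h1 r hr, ← hwL r hr]; exact h r hr) hc
  · rcases hone s hs (chi_diff_one (by rw [← hwL r hr]; exact h r hr) e) with h2 | h2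
    · exact absurd h2 hs1
    · exact absurd h2 hs2

/-- The centralizer of a regular diagonal element is the diagonal subgroup. -/
theorem centralizer_regular {c : Fˣ × Fˣ} (hc : ¬ Small c) (hreg : ∀ r < 12, chi c r ≠ 1)
    {g : GL chevG2.Idx F} (hg : g ∈ chevG2.group F) (e : g * tor c * g⁻¹ = tor c) :
    g ∈ chevG2.diagonalSubgroup F := by
  obtain ⟨L, a, ha, d, hd, u, hu, rfl, fa, fu, hn⟩ := conj_diag (cG.{u}) coxG2 (tor_mem c) (tor_mem c) hg e
  have hL : ∀ i ∈ L.map Fin.val, i < 2 := (cG.{u}).fin_word_lt L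
  have hn1 : (cG.{u}).nWordElt F (L.map Fin.val) ∈ chevG2.diagonalSubgroup F :=
    (cG.{u}).nWordElt_mem_diagonal coxG2 fun r hr =>
      act_id_of_regular hc hreg hL (fun s hs => chi_act hL hn hs) r hr
  have key : ∀ v ∈ chevG2.posUnipotent F, tor c * v * (tor c)⁻¹ = v → v = 1 := by
    intro v hv hfix
    obtain ⟨χ, hχ, e, hval⟩ := exists_char c
    obtain ⟨f, rfl, hf⟩ := exists_fixed_prodU (cG.{u}) (cG.{u}).closedSet_pos hχ e
      (by rwa [Cert.span_pos]) hfix
    rw [← (cG.{u}).prodU_zero, Cert.prodU, Cert.prodU]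
    congr 1
    refine List.map_congr_left fun r hr => ?_
    have hp := Cert.mem_posRoots.mp hr
    by_cases h0 : f r = 0
    · rw [h0]
    · exact absurd (Units.ext ((hval r hp.1).symm.trans (hf r hp h0).2)) (hreg r hp.1)
  rw [key a ha fa, key u hu fu, one_mul, mul_one]
  exact mul_mem hd hn1

/-- The subgroup generated by a root `SL₂` and the diagonal subgroup. -/
noncomputable def levi (φ : Matrix.SpecialLinearGroup (Fin 2) F →* GL chevG2.Idx F) :
    Subgroup (GL chevG2.Idx F) := φ.range ⊔ chevG2.diagonalSubgroup F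

theorem levi_normalised {r : ℕ} {φ : Matrix.SpecialLinearGroup (Fin 2) F →* GL chevG2.Idx F}
    (hφ : RootHom (cG.{u}) r φ) :
    chevG2.diagonalSubgroup F ≤ Subgroup.normalizer (φ.range : Set (GL chevG2.Idx F)) := by
  have hr : r < 12 := hφ.lt
  have h1 : ∀ d ∈ chevG2.diagonalSubgroup F, ∀ x ∈ φ.range, d * x * d⁻¹ ∈ φ.range := by
    intro d hd x hx
    obtain ⟨c, rfl⟩ := exists_tor hd
    rw [(cG.{u}).sl2Hom_range φ hφ.U hφ.L] at hx ⊢
    have : chevG2.rootSubgroup F r ⊔ chevG2.rootSubgroup F (chevG2.neg r) ≤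
        (chevG2.rootSubgroup F r ⊔ chevG2.rootSubgroup F (chevG2.neg r)).comap
          (MulAut.conj (tor c)).toMonoidHom := by
      refine sup_le ?_ ?_ <;> intro y hy <;> obtain ⟨t, rfl⟩ := (cG.{u}).mem_rootSubgroup.mp hy <;>
        rw [Subgroup.mem_comap, MulEquiv.coe_toMonoidHom, MulAut.conj_apply]
      · rw [tor_conj_xu c hr]
        exact Subgroup.mem_sup_left ((cG.{u}).mem_rootSubgroup.mpr ⟨_, rfl⟩)
      · rw [tor_conj_xu c (show chevG2.neg r < 12 from (cG.{u}).neg_lt r hφ.lt)]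
        exact Subgroup.mem_sup_right ((cG.{u}).mem_rootSubgroup.mpr ⟨_, rfl⟩)
    exact this hx
  intro d hd
  rw [Subgroup.mem_normalizer_iff]
  refine fun x => ⟨h1 d hd x, fun hx => ?_⟩
  have := h1 d⁻¹ (inv_mem hd) _ hx
  rwa [inv_inv, show d⁻¹ * (d * x * d⁻¹) * d = x by group] at this

theorem mem_levi {r : ℕ} {φ : Matrix.SpecialLinearGroup (Fin 2) F →* GL chevG2.Idx F}
    (hφ : RootHom (cG.{u}) r φ) {g : GL chevG2.Idx F} :
    g ∈ levi φ ↔ ∃ A, ∃ d ∈ chevG2.diagonalSubgroup F, g = φ A * d := by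
  refine ⟨fun h => ?_, ?_⟩
  · obtain ⟨x, ⟨A, rfl⟩, d, hd, e⟩ := (Cert.mem_sup_of_normalised (levi_normalised hφ)).mp h
    exact ⟨A, d, hd, e.symm⟩
  · rintro ⟨A, d, hd, rfl⟩
    exact mul_mem (Subgroup.mem_sup_left ⟨A, rfl⟩) (Subgroup.mem_sup_right hd)

/-- The centralizer of an element singular at a simple root lies in the Levi subgroup of that root. -/
theorem centralizer_one {c : Fˣ × Fˣ} (hc : ¬ Small c) {i : ℕ} (hi : i < 2)
    (hone : ∀ s < 12, chi c s = 1 → s = chevG2.simple i ∨ s = 11 - chevG2.simple i)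
    {φ : Matrix.SpecialLinearGroup (Fin 2) F →* GL chevG2.Idx F} (hφ : RootHom (cG.{u}) (chevG2.simple i) φ)
    {g : GL chevG2.Idx F} (hg : g ∈ chevG2.group F) (e : g * tor c * g⁻¹ = tor c) : g ∈ levi φ := by
  obtain ⟨L, a, ha, d, hd, u, hu, rfl, fa, fu, hn⟩ := conj_diag (cG.{u}) coxG2 (tor_mem c) (tor_mem c) hg e
  have hL : ∀ j ∈ L.map Fin.val, j < 2 := (cG.{u}).fin_word_lt L
  have hD : chevG2.diagonalSubgroup F ≤ levi φ := le_sup_right
  have hpos := (cG.{u}).pos_simple (show i < chevG2.rank from hi)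
  have key : ∀ v ∈ chevG2.posUnipotent F, tor c * v * (tor c)⁻¹ = v → v ∈ levi φ := by
    intro v hv hfix
    obtain ⟨χ, hχ, e, hval⟩ := exists_char c
    obtain ⟨f, rfl, hf⟩ := exists_fixed_prodU (cG.{u}) (cG.{u}).closedSet_pos hχ e
      (by rwa [Cert.span_pos]) hfix
    rw [Cert.prodU, Cert.wu]
    refine Subgroup.list_prod_mem _ fun x hx => ?_
    simp only [List.map_map, List.mem_map, Function.comp_apply] at hx
    obtain ⟨r, hr, rfl⟩ := hx
    have hp := Cert.mem_posRoots.mp hr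
    by_cases h0 : f r = 0
    · rw [h0, (cG.{u}).xu_zero]; exact one_mem _
    rcases hone r hp.1 (Units.ext ((hval r hp.1).symm.trans (hf r hp h0).2)) with h1 | h1
    · rw [h1]; exact Subgroup.mem_sup_left ⟨sl2U _, hφ.U _⟩
    · exfalso
      rw [← neg_eq _ hpos.1] at h1
      exact (cG.{u}).not_pos_and_neg (h1 ▸ hp) ((cG.{u}).negRoot_neg hpos)
  have hni : (cG.{u}).nu (chevG2.simple i) (1 : F) ∈ levi φ := Subgroup.mem_sup_left ⟨sl2W, hφ.map_W⟩
  have hn1 : (cG.{u}).nWordElt F (L.map Fin.val) ∈ levi φ := by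
    rcases act_cases_of_one hc hi hone hL (fun s hs => chi_act hL hn hs) with h1 | h1
    · exact hD ((cG.{u}).nWordElt_mem_diagonal coxG2 fun r hr => h1 r hr)
    · have h2 := (cG.{u}).nWordElt_mem_diagonal (F := F) coxG2 (L := L ++ [(⟨i, hi⟩ : Fin chevG2.rank)]) fun r hr => by
        rw [List.map_append, act_append, h1 _ ((cG.{u}).act_lt (fun j hj => by simp at hj; subst hj; exact hi) hr)]
        exact (cG.{u}).refl_refl hi hr
      have e3 : (cG.{u}).nWordElt F ((L ++ [(⟨i, hi⟩ : Fin chevG2.rank)]).map Fin.val) =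
          (cG.{u}).nWordElt F (L.map Fin.val) * (cG.{u}).nu (chevG2.simple i) 1 := by
        simp [Cert.nWordElt]
      rw [e3] at h2
      simpa using mul_mem (hD h2) (inv_mem hni)
  exact mul_mem (mul_mem (mul_mem (key a ha fa) (hD hd)) hn1) (key u hu fu)

end Cfsg.Agent.KnownA.G2Spec
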