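import Cfsg.Agent.KnownA.G2Spec.Torus
import Cfsg.Agent.KnownA.Steinberg.Chev
import Cfsg.Agent.Chev.Certs
import Cfsg.Agent.S4209
import Cfsg.Agent.S4210

/-!
Exponents of the unipotent subgroups of `G₂`, and centralizers of the unipotent elements of largest order.
-/

set_option autoImplicit false
set_option linter.unusedSectionVars false
set_option synthInstance.maxSize 4000

universe u

namespace Cfsg.Agent.KnownA.G2Spec

open Cfsg.Lie Cfsg.Agent.Chev Cfsg.Agent.Chev.G2Odd Cfsg.Agent.Chars2.Homocyclic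
open scoped Matrix MatrixGroups

section generic

variable {D : ChevalleyDatum} {F : Type u} [Field F] (C : Cert.{u} D)
include C

/-- A weight on the roots of `P`, additive along the commutators that do not vanish in `F`. -/
def Graded (F : Type u) [Field F] (D : ChevalleyDatum) (P : ℕ → Prop) (w : ℕ → ℕ) : Prop :=
  (∀ r, P r → D.IsPosRoot r ∧ 1 ≤ w r) ∧
    ∀ r s, P r → P s → s ≠ r → ∀ c ∈ D.commTerms r s, P c.1 ∧ ((c.2.1 : F) = 0 ∨ w r + w s ≤ w c.1)

/-- The part of weight at least `m`. -/
def wpart (P : ℕ → Prop) (w : ℕ → ℕ) (m : ℕ) (r : ℕ) : Prop := P r ∧ m ≤ w r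

theorem xu_conj_mem {P : ℕ → Prop} {w : ℕ → ℕ} (hG : Graded F D P w) {r s : ℕ} (hr : P r) {m : ℕ}
    (hs : wpart P w m s) (t v : F) :
    C.xu r t * C.xu s v * (C.xu r t)⁻¹ * (C.xu s v)⁻¹ ∈ spanGroup D F (wpart P w (m + 1)) := by
  by_cases he : s = r
  · subst he
    rw [C.xu_inv, C.xu_inv, C.xu_add, C.xu_add, C.xu_add]
    ring_nf
    rw [C.xu_zero]; exact one_mem _
  have hpr := (hG.1 r hr).1
  have hps := (hG.1 s hs.1).1
  rw [C.conj_xu hpr.1 hps.1 he (fun e => C.not_pos_and_neg hps (e ▸ C.negRoot_neg hpr))]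
  have hw : C.wu (D.commWord F r s (-t) v) ∈ spanGroup D F (wpart P w (max (m + 1) (w s + 1))) := by
    rw [Cert.wu]
    refine Subgroup.list_prod_mem _ fun x hx => ?_
    simp only [ChevalleyDatum.commWord, List.map_map, List.mem_map, Function.comp_apply] at hx
    obtain ⟨c, hc, rfl⟩ := hx
    obtain ⟨hP, h0 | hle⟩ := hG.2 r s hr hs.1 he c hc
    · rw [h0, zero_mul, zero_mul, C.xu_zero]; exact one_mem _
    · exact C.xu_mem_span (P := wpart P w (max (m + 1) (w s + 1)))
        ⟨hP, by have := (hG.1 r hr).2; have := hs.2; omega⟩ _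
  have hw' : C.wu (D.commWord F r s (-t) v) ∈ spanGroup D F (wpart P w (m + 1)) :=
    C.span_mono (fun x hx => ⟨hx.1, le_trans (le_max_left _ _) hx.2⟩) hw
  have hxs : C.xu s v ∈ Subgroup.normalizer (spanGroup D F (wpart P w (max (m + 1) (w s + 1))) : Set (GL D.Idx F)) := by
    refine C.mem_normalizer_span ?_ ?_ <;> intro x hx t'
    all_goals
      have hxs : x ≠ s := fun e => by have := hx.2; rw [e] at this; omega
      have hp := (hG.1 x hx.1).1
      have key : ∀ a : F, C.xu s a * C.xu x t' * (C.xu s a)⁻¹ ∈ spanGroup D F (wpart P w (max (m + 1) (w s + 1))) := by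
        intro a
        rw [C.conj_xu hps.1 hp.1 hxs (fun e => C.not_pos_and_neg hp (e ▸ C.negRoot_neg hps))]
        refine mul_mem (C.xu_mem_span hx _) ?_
        rw [Cert.wu]
        refine Subgroup.list_prod_mem _ fun y hy => ?_
        simp only [ChevalleyDatum.commWord, List.map_map, List.mem_map, Function.comp_apply] at hy
        obtain ⟨c, hc, rfl⟩ := hy
        obtain ⟨hP, h0 | hle⟩ := hG.2 s x hs.1 hx.1 hxs c hc
        · rw [h0, zero_mul, zero_mul, C.xu_zero]; exact one_mem _
        · exact C.xu_mem_span (P := wpart P w (max (m + 1) (w s + 1))) ⟨hP, by have := hx.2; omega⟩ _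
    · exact key v
    · have := key (-v)
      rwa [← C.xu_inv, inv_inv] at this
  have := (Subgroup.mem_normalizer_iff.mp hxs _).mp hw
  exact C.span_mono (fun x hx => ⟨hx.1, le_trans (le_max_left _ _) hx.2⟩) this

theorem wpart_normal {P : ℕ → Prop} {w : ℕ → ℕ} (hG : Graded F D P w) (m : ℕ) :
    spanGroup D F P ≤ Subgroup.normalizer (spanGroup D F (wpart P w m) : Set (GL D.Idx F)) := by
  refine C.span_le fun r hr t => C.mem_normalizer_span ?_ ?_ <;> intro s hs v
  all_goals
    have key : ∀ a : F, C.xu r a * C.xu s v * (C.xu r a)⁻¹ ∈ spanGroup D F (wpart P w m) := by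
      intro a
      have h1 := C.span_mono (Q := wpart P w m) (fun x hx => ⟨hx.1, Nat.le_of_succ_le hx.2⟩)
        (xu_conj_mem C hG hr hs a v)
      have h2 := mul_mem h1 (C.xu_mem_span hs v)
      rwa [inv_mul_cancel_right] at h2
  · exact key t
  · have := key (-t)
    rwa [← C.xu_inv, inv_inv] at this

theorem commutator_mem {P : ℕ → Prop} {w : ℕ → ℕ} (hG : Graded F D P w) (m : ℕ) {x g : GL D.Idx F}
    (hx : x ∈ spanGroup D F (wpart P w m)) (hg : g ∈ spanGroup D F P) :
    g * x * g⁻¹ * x⁻¹ ∈ spanGroup D F (wpart P w (m + 1)) := by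
  set S := spanGroup D F P
  set N := (spanGroup D F (wpart P w (m + 1))).subgroupOf S
  haveI : N.Normal := (Subgroup.normal_subgroupOf_iff_le_normalizer (C.span_mono fun r hr => hr.1)).mpr
    (wpart_normal C hG (m + 1))
  have hmS : spanGroup D F (wpart P w m) ≤ S := C.span_mono fun r hr => hr.1
  let π := QuotientGroup.mk' N
  have hiff : ∀ a b : S, π a * π b = π b * π a ↔
      (a : GL D.Idx F) * b * (a : GL D.Idx F)⁻¹ * (b : GL D.Idx F)⁻¹ ∈ spanGroup D F (wpart P w (m + 1)) := by
    intro a b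
    rw [← map_mul, ← map_mul, ← mul_inv_eq_one, ← map_inv, ← map_mul, ← MonoidHom.mem_ker, QuotientGroup.ker_mk',
      Subgroup.mem_subgroupOf]
    simp only [Subgroup.coe_mul, Subgroup.coe_inv, mul_inv_rev, mul_assoc]
  let Cen : S → Subgroup (GL D.Idx F) := fun b => ((Subgroup.centralizer {π b}).comap π).map S.subtype
  have hCen : ∀ a b : S, (a : GL D.Idx F) ∈ Cen b ↔ π a * π b = π b * π a := by
    intro a b
    rw [show (a : GL D.Idx F) = S.subtype a from rfl, Subgroup.mem_map_iff_mem S.subtype_injective,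
      Subgroup.mem_comap, Subgroup.mem_centralizer_singleton_iff]
  have step : ∀ s, ∀ hs : wpart P w m s, ∀ (v : F) (a : S), π a * π ⟨C.xu s v, hmS (C.xu_mem_span (P := wpart P w m) hs v)⟩ =
      π ⟨C.xu s v, hmS (C.xu_mem_span (P := wpart P w m) hs v)⟩ * π a := by
    intro s hs v a
    have : S ≤ Cen ⟨C.xu s v, hmS (C.xu_mem_span (P := wpart P w m) hs v)⟩ := C.span_le fun r hr t => by
      rw [show C.xu r t = ((⟨C.xu r t, C.xu_mem_span hr t⟩ : S) : GL D.Idx F) from rfl, hCen, hiff]
      exact xu_conj_mem C hG hr hs t v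
    exact (hCen a _).mp (this a.2)
  have step2 : spanGroup D F (wpart P w m) ≤ Cen ⟨g, hg⟩ := C.span_le fun s hs v => by
    rw [show C.xu s v = ((⟨C.xu s v, hmS (C.xu_mem_span hs v)⟩ : S) : GL D.Idx F) from rfl, hCen]
    exact (step s hs v ⟨g, hg⟩).symm
  exact (hiff ⟨g, hg⟩ ⟨x, hmS hx⟩).mp ((hCen ⟨x, hmS hx⟩ ⟨g, hg⟩).mp (step2 hx)).symm

/-- A graded span with weights below `m + 1` has class less than `m + 1`. -/
theorem lowerCentralSeries_span {P : ℕ → Prop} {w : ℕ → ℕ} (hG : Graded F D P w) {m : ℕ}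
    (hb : ∀ r, P r → w r ≤ m) : (⊤ : Subgroup ↥(spanGroup D F P)).lowerCentralSeries m = ⊥ := by
  have key : ∀ n, (⊤ : Subgroup ↥(spanGroup D F P)).lowerCentralSeries n ≤
      (spanGroup D F (wpart P w (n + 1))).subgroupOf (spanGroup D F P) := by
    intro n
    induction n with
    | zero =>
      intro x _
      exact Subgroup.mem_subgroupOf.mpr
        (C.span_mono (fun r hr => show wpart P w 1 r from ⟨hr, (hG.1 r hr).2⟩) x.2)
    | succ n ih =>
      rw [Subgroup.lowerCentralSeries_succ, Subgroup.commutator_le]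
      intro a ha b _
      have := commutator_mem C hG (n + 1) (Subgroup.mem_subgroupOf.mp (ih ha)) b.2
      rw [Subgroup.mem_subgroupOf]
      have h2 := inv_mem this
      rw [commutatorElement_def]
      simp only [Subgroup.coe_mul, Subgroup.coe_inv]
      convert h2 using 1
      group
  rw [eq_bot_iff]
  refine (key m).trans ?_
  intro x hx
  have h1 : spanGroup D F (wpart P w (m + 1)) = ⊥ := eq_bot_iff.mpr
    (C.span_le fun r hr t => absurd (hb r hr.1) (by have := hr.2; omega))
  rw [Subgroup.mem_subgroupOf, h1, Subgroup.mem_bot] at hx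
  exact Subgroup.mem_bot.mpr (Subtype.ext hx)

/-- A graded span of class below `p` has exponent `p`. -/
theorem pow_char_eq_one [Fintype F] (p : ℕ) [Fact p.Prime] [CharP F p] {P : ℕ → Prop} {w : ℕ → ℕ}
    (hG : Graded F D P w) (hb : ∀ r, P r → w r ≤ p - 1) {u : GL D.Idx F} (hu : u ∈ spanGroup D F P) :
    u ^ p = 1 := by
  obtain ⟨n, -, hn⟩ := FiniteField.card F p
  have hpg : IsPGroup p ↥(spanGroup D F P) := by
    have h1 : IsPGroup p ↥(D.posUnipotent F) :=
      IsPGroup.of_card (n := (n : ℕ) * (D.nroots / 2)) (by rw [C.natCard_posUnipotent, hn, pow_mul])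
    exact h1.to_le (C.span_le fun r hr t => C.xu_mem_pos (hG.1 r hr).1 t)
  have hreg := S4209.result hpg (lowerCentralSeries_span C hG hb)
  suffices h : ∀ x, ∀ hx : x ∈ spanGroup D F P, (⟨x, hx⟩ : ↥(spanGroup D F P)) ^ p = 1 from
    congrArg Subtype.val (h u hu)
  intro x hx
  induction hx using Subgroup.closure_induction with
  | mem y hy =>
    obtain ⟨r, t, hr, e⟩ := hy
    refine Subtype.ext ?_
    show y ^ p = 1
    rw [show y = C.xu r t from Units.ext (e.trans rfl)]
    have : ∀ k : ℕ, C.xu r t ^ k = C.xu r ((k : F) * t) := by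
      intro k
      induction k with
      | zero => simp [C.xu_zero]
      | succ k ih => rw [pow_succ, ih, C.xu_add]; push_cast; ring_nf
    rw [this, CharP.cast_eq_zero, zero_mul, C.xu_zero]
  | one => exact one_pow _
  | mul a b ha hb iha ihb =>
    have h1 := (S4210.result hreg ⟨a, ha⟩ (⟨b, hb⟩⁻¹ : ↥(spanGroup D F P)) 1).mp (by
      rw [pow_one, inv_pow, iha, ihb, inv_one])
    rw [pow_one, inv_inv] at h1
    exact h1
  | inv a ha iha =>
    show (⟨a, ha⟩⁻¹ : ↥(spanGroup D F P)) ^ p = 1
    rw [inv_pow, iha, inv_one]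

/-- In characteristic two a graded span of weights at most three has exponent four. -/
theorem pow_four_eq_one [CharP F 2] {P : ℕ → Prop} {w : ℕ → ℕ} (hG : Graded F D P w)
    (hb : ∀ r, P r → w r ≤ 3) {u : GL D.Idx F} (hu : u ∈ spanGroup D F P) : u ^ 4 = 1 := by
  have hsq : ∀ r (t : F), C.xu r t * C.xu r t = 1 := fun r t => by
    rw [C.xu_add, CharTwo.add_self_eq_zero, C.xu_zero]
  -- squares lie in weight two
  have h2 : ∀ x ∈ spanGroup D F P, x * x ∈ spanGroup D F (wpart P w 2) := by
    have hcomm : ∀ a ∈ spanGroup D F P, ∀ b ∈ spanGroup D F P,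
        b * a * b⁻¹ * a⁻¹ ∈ spanGroup D F (wpart P w 2) := fun a ha b hb' =>
      commutator_mem C hG 1 (C.span_mono (fun r hr => show wpart P w 1 r from ⟨hr, (hG.1 r hr).2⟩) ha) hb'
    intro x hx
    induction hx using Subgroup.closure_induction with
    | mem y hy =>
      obtain ⟨r, t, hr, e⟩ := hy
      rw [show y = C.xu r t from Units.ext (e.trans rfl), hsq]
      exact one_mem _
    | one => simp
    | mul a b ha hb' iha ihb =>
      have hN := wpart_normal C hG 2
      have e : a * b * (a * b) = (a * (b * a * b⁻¹ * a⁻¹) * a⁻¹) * (a * a) * (b * b) := by group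
      rw [e]
      exact mul_mem (mul_mem ((Subgroup.mem_normalizer_iff.mp (hN ha) _).mp (hcomm a ha b hb')) iha) ihb
    | inv a ha iha =>
      rw [← mul_inv_rev]; exact inv_mem iha
  -- weight two is elementary abelian
  have h4 : ∀ x ∈ spanGroup D F (wpart P w 2), x * x = 1 := by
    have hsub : spanGroup D F (wpart P w 2) ≤ spanGroup D F P := C.span_mono fun r hr => hr.1
    have hgen : ∀ r s, wpart P w 2 r → wpart P w 2 s → ∀ t v : F, Commute (C.xu r t) (C.xu s v) := by
      intro r s hr hs t v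
      by_cases he : s = r
      · subst he; show _ * _ = _ * _; rw [C.xu_add, C.xu_add, add_comm]
      have hpr := (hG.1 r hr.1).1
      have hps := (hG.1 s hs.1).1
      have := C.conj_xu hpr.1 hps.1 he (fun e => C.not_pos_and_neg hps (e ▸ C.negRoot_neg hpr)) t v
      have hw1 : C.wu (D.commWord F r s (-t) v) = 1 := by
        rw [Cert.wu]
        refine List.prod_eq_one fun x hx => ?_
        simp only [ChevalleyDatum.commWord, List.map_map, List.mem_map, Function.comp_apply] at hx
        obtain ⟨c, hc, rfl⟩ := hx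
        obtain ⟨hP, h0 | hle⟩ := hG.2 r s hr.1 hs.1 he c hc
        · rw [h0, zero_mul, zero_mul, C.xu_zero]
        · have := hb _ hP; have := hr.2; have := hs.2; omega
      rw [hw1, mul_one] at this
      exact mul_inv_eq_iff_eq_mul.mp this
    have hall : ∀ x ∈ spanGroup D F (wpart P w 2), ∀ r, wpart P w 2 r → ∀ t : F, Commute x (C.xu r t) := by
      intro x hx r hr t
      have : spanGroup D F (wpart P w 2) ≤ Subgroup.centralizer {C.xu r t} := C.span_le fun s hs v =>
        Subgroup.mem_centralizer_singleton_iff.mpr (hgen s r hs hr v t)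
      exact Subgroup.mem_centralizer_singleton_iff.mp (this hx)
    intro x hx
    induction hx using Subgroup.closure_induction with
    | mem y hy =>
      obtain ⟨r, t, hr, e⟩ := hy
      rw [show y = C.xu r t from Units.ext (e.trans rfl), hsq]
    | one => simp
    | mul a b ha hb' iha ihb =>
      have hab : Commute a b := by
        have : spanGroup D F (wpart P w 2) ≤ Subgroup.centralizer {a} := C.span_le fun s hs v =>
          Subgroup.mem_centralizer_singleton_iff.mpr (hall a ha s hs v).symm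
        exact (Subgroup.mem_centralizer_singleton_iff.mp (this hb')).symm
      calc a * b * (a * b) = a * (b * a) * b := by group
        _ = (a * a) * (b * b) := by rw [← hab.eq]; group
        _ = 1 := by rw [iha, ihb, one_mul]
    | inv a ha iha => rw [← mul_inv_rev, iha, inv_one]
  rw [show u ^ 4 = u * u * (u * u) by simp only [pow_succ, pow_zero, one_mul, mul_assoc]]
  exact h4 _ (h2 u hu)

end generic

/-- The roots of `P`. -/
def proots (i : Option ℕ) : List ℕ :=
  match i with
  | none => [6, 7, 8, 9, 10, 11]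
  | some 0 => [6, 8, 9, 10, 11]
  | some _ => [7, 8, 9, 10, 11]

/-- The weights used: the height, the coefficient of the other simple root, and a variant in characteristic three. -/
def pweight (p : ℕ) (i : Option ℕ) (r : ℕ) : ℕ :=
  match i with
  | none => [1, 1, 2, 3, 4, 5].getD (r - 6) 0
  | some 0 => [1, 0, 1, 1, 1, 2].getD (r - 6) 0
  | some _ => if p = 3 then [0, 1, 1, 2, 1, 1].getD (r - 6) 0 else [0, 1, 1, 2, 3, 3].getD (r - 6) 0

theorem proots_pos : ∀ i ∈ [none, some 0, some 1], ∀ r ∈ proots i, r < 12 ∧ chevG2.IsPosRoot r := by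
  decide +kernel

theorem proots_pweight : ∀ i ∈ [none, some 0, some 1], ∀ p ∈ ([0, 3] : List ℕ), ∀ r ∈ proots i,
    1 ≤ pweight p i r := by decide +kernel

theorem proots_closed : ∀ i ∈ [none, some 0, some 1], ∀ r ∈ proots i, ∀ s ∈ proots i, s ≠ r →
    ∀ c ∈ chevG2.commTerms r s, c.1 ∈ proots i ∧ pweight 0 i r + pweight 0 i s ≤ pweight 0 i c.1 ∧
      (c.2.1 % 3 = 0 ∨ pweight 3 i r + pweight 3 i s ≤ pweight 3 i c.1) := by decide +kernel

theorem posExcept_eq : ∀ i < 2, ∀ r < 12, posExcept chevG2 i r ↔ r ∈ proots (some i) := by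
  unfold posExcept
  decide +kernel

theorem pos_eq : ∀ r < 12, chevG2.IsPosRoot r ↔ r ∈ proots none := by decide +kernel

variable {F : Type u} [Field F]

theorem graded_G2 (p : ℕ) [CharP F p] {i : Option ℕ} (hi : i ∈ [none, some 0, some 1]) :
    Graded F chevG2 (fun r => r ∈ proots i) (pweight (if p = 3 then 3 else 0) i) := by
  refine ⟨fun r hr => ⟨(proots_pos i hi r hr).2, proots_pweight i hi _ (by split <;> simp) r hr⟩, ?_⟩
  intro r s hr hs hne c hc
  obtain ⟨h1, h2, h3⟩ := proots_closed i hi r hr s hs hne c hc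
  refine ⟨h1, ?_⟩
  split
  · subst p
    rcases h3 with h | h
    · exact Or.inl ((CharP.intCast_eq_zero_iff F 3 _).mpr (Int.dvd_of_emod_eq_zero h))
    · exact Or.inr h
  · exact Or.inr h2

theorem span_posExcept_eq {i : ℕ} (hi : i < 2) :
    spanGroup chevG2 F (posExcept chevG2 i) = spanGroup chevG2 F (fun r => r ∈ proots (some i)) :=
  le_antisymm ((cG.{u}).span_mono fun r hr => (posExcept_eq i hi r hr.1.1).mp hr)
    ((cG.{u}).span_mono fun r hr => (posExcept_eq i hi r (proots_pos (some i) (by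
      rcases i with _ | _ | i <;> simp_all) r hr).1).mpr hr)

/-- The exponent of the maximal subgroups `P_i` of `U`. -/
def smallExp (p : ℕ) : ℕ := if p = 2 then 4 else p

theorem smallExp_spec [Fintype F] (p : ℕ) [Fact p.Prime] [CharP F p] {i : ℕ} (hi : i < 2) {u : GL chevG2.Idx F}
    (hu : u ∈ spanGroup chevG2 F (posExcept chevG2 i)) : u ^ smallExp p = 1 := by
  rw [span_posExcept_eq hi] at hu
  have hm : (some i) ∈ [none, some 0, some 1] := by rcases i with _ | _ | i <;> simp_all
  have hG := graded_G2 (F := F) p hm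
  have hb : ∀ r ∈ proots (some i), pweight 0 (some i) r ≤ 3 ∧ pweight 3 (some i) r ≤ 2 := by
    rcases i with _ | _ | i <;> first | omega | decide +kernel
  by_cases h2 : p = 2
  · subst h2
    rw [smallExp, if_pos rfl]
    exact pow_four_eq_one (cG.{u}) hG (fun r hr => (hb r hr).1) hu
  · rw [smallExp, if_neg h2]
    refine pow_char_eq_one (cG.{u}) p hG (fun r hr => ?_) hu
    have hp := (Fact.out : p.Prime)
    obtain ⟨h0, h3⟩ := hb r hr
    by_cases h : p = 3
    · subst h; simpa using h3
    · rw [if_neg h]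
      have : 5 ≤ p := by
        by_contra hc
        push_neg at hc
        have := hp.two_le
        interval_cases p <;> simp_all +decide
      omega

theorem pos_pow_char_mem (p : ℕ) [CharP F p] {i : ℕ} (hi : i < 2) {u : GL chevG2.Idx F}
    (hu : u ∈ chevG2.posUnipotent F) : u ^ p ∈ spanGroup chevG2 F (posExcept chevG2 i) := by
  obtain ⟨a, ha, t, e⟩ := (cG.{u}).exists_except_mul (show i < chevG2.rank from hi) hu
  have key : ∀ k : ℕ, ∃ b ∈ spanGroup chevG2 F (posExcept chevG2 i),
      u ^ k = b * (cG.{u}).xu (chevG2.simple i) ((k : F) * t) := by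
    intro k
    induction k with
    | zero => exact ⟨1, one_mem _, by simp [(cG.{u}).xu_zero]⟩
    | succ k ih =>
      obtain ⟨b, hb, eb⟩ := ih
      set x := (cG.{u}).xu (chevG2.simple i) ((k : F) * t)
      refine ⟨b * (x * a * x⁻¹), mul_mem hb ((Subgroup.mem_normalizer_iff.mp
        (borel_normalises_except (cG.{u}) hi ((cG.{u}).pos_le_borel
          ((cG.{u}).xu_mem_pos ((cG.{u}).pos_simple hi) _))) a).mp ha), ?_⟩
      rw [pow_succ, eb, e, show ((k + 1 : ℕ) : F) * t = (k : F) * t + t by push_cast; ring,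
        ← (cG.{u}).xu_add]
      simp only [x]
      group
  obtain ⟨b, hb, eb⟩ := key p
  rw [eb, CharP.cast_eq_zero, zero_mul, (cG.{u}).xu_zero, mul_one]
  exact hb

variable [Fintype F] (p : ℕ) [Fact p.Prime] [CharP F p]

/-- The exponent of `U`. -/
theorem pos_pow_eq_one {u : GL chevG2.Idx F} (hu : u ∈ chevG2.posUnipotent F) :
    u ^ (p * smallExp p) = 1 ∧ (7 ≤ p → u ^ p = 1) := by
  refine ⟨by rw [pow_mul]; exact smallExp_spec p (i := 0) (by norm_num) (pos_pow_char_mem p (by norm_num) hu),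
    fun hp => ?_⟩
  refine pow_char_eq_one (cG.{u}) p (graded_G2 (F := F) p (i := none) (by simp)) (fun r hr => ?_) ?_
  · rw [if_neg (by omega)]
    have : ∀ r ∈ proots none, pweight 0 none r ≤ 5 := by decide +kernel
    have := this r hr
    omega
  · rw [← Cert.span_pos] at hu
    exact (cG.{u}).span_mono (fun r hr => (pos_eq r hr.1).mp hr) hu

/-- A `p`-element is conjugate into `U`. -/
theorem exists_conj_pos {g : GL chevG2.Idx F} (hg : g ∈ chevG2.group F) {k : ℕ} (hk : g ^ p ^ k = 1) :
    ∃ c ∈ chevG2.group F, c * g * c⁻¹ ∈ chevG2.posUnipotent F := by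
  classical
  obtain ⟨P, hP⟩ := Steinberg.exists_sylow (cG.{u}) (F := F) coxG2 p
  set x : ↥(chevG2.group F) := ⟨g, hg⟩
  have hx : IsPGroup p (Subgroup.zpowers x) := by
    obtain ⟨j, -, hj⟩ := (Nat.dvd_prime_pow Fact.out).mp
      (orderOf_dvd_of_pow_eq_one (show x ^ p ^ k = 1 from Subtype.ext hk))
    exact IsPGroup.of_card (n := j) (by rw [Nat.card_zpowers, hj])
  obtain ⟨R, hR⟩ := hx.exists_le_sylow
  obtain ⟨c, hc⟩ := MulAction.exists_smul_eq ↥(chevG2.group F) R P
  refine ⟨c, c.2, ?_⟩
  have h : MulAut.conj c • x ∈ ((c • R : Sylow p _) : Subgroup ↥(chevG2.group F)) :=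
    Subgroup.smul_mem_pointwise_smul _ _ _ (hR (Subgroup.mem_zpowers x))
  rw [hc, hP] at h
  exact h

/-- Only the identity of order prime to `p` commutes with a unipotent element of the largest order. -/
theorem coprime_centralizer_trivial {u s : GL chevG2.Idx F} (hu : u ∈ chevG2.posUnipotent F)
    (hmax : u ^ smallExp p ≠ 1) (hs : s ∈ chevG2.group F) (hsp : (orderOf s).Coprime p)
    (hcomm : s * u = u * s) : s = 1 := by
  have hreg : ∀ i < chevG2.rank, u ∉ spanGroup chevG2 F (posExcept chevG2 i) := fun i hi h =>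
    hmax (smallExp_spec p hi h)
  have hb : s ∈ chevG2.borelSubgroup F :=
    mem_borel_of_conj (cG.{u}) coxG2 hu hreg hs (by rw [hcomm, mul_inv_cancel_right]; exact hu)
  obtain ⟨n, hn, hd⟩ := exists_conj_diagonal (cG.{u}) p hb hsp
  obtain ⟨c, ec⟩ := exists_tor hd
  have hnB := (cG.{u}).pos_le_borel hn
  set v := n * u * n⁻¹ with hv
  have hvU : v ∈ chevG2.posUnipotent F := mul_mem (mul_mem hn hu) (inv_mem hn)
  have hfix : tor c * v * (tor c)⁻¹ = v := by
    rw [← ec, hv]
    calc n * s * n⁻¹ * (n * u * n⁻¹) * (n * s * n⁻¹)⁻¹ = n * (s * u * s⁻¹) * n⁻¹ := by group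
      _ = _ := by rw [hcomm, mul_inv_cancel_right]
  have key : ∀ i < 2, chi c (chevG2.simple i) = 1 := by
    intro i hi
    have hp' : chevG2.IsPosRoot (chevG2.simple i) := (cG.{u}).pos_simple hi
    obtain ⟨a, ha, t, et⟩ := (cG.{u}).exists_except_mul (show i < chevG2.rank from hi) hvU
    have ht : t ≠ 0 := by
      intro h0
      rw [h0, (cG.{u}).xu_zero, mul_one] at et
      exact hreg i hi ((Subgroup.mem_normalizer_iff.mp (borel_normalises_except (cG.{u}) hi hnB) u).mpr
        (by rw [← hv, et]; exact ha))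
    set a' := tor c * a * (tor c)⁻¹
    have ha' : a' ∈ spanGroup chevG2 F (posExcept chevG2 i) :=
      (Subgroup.mem_normalizer_iff.mp ((cG.{u}).diag_normalises _ (fun r hr => hr.1.1) (tor_mem c)) a).mp ha
    have e2 : a * (cG.{u}).xu (chevG2.simple i) t = a' * (cG.{u}).xu (chevG2.simple i) ((chi c (chevG2.simple i) : F) * t) := by
      rw [← tor_conj_xu c hp'.1 t, ← et]
      nth_rw 1 [← hfix]
      rw [et]; simp only [a']; group
    have e3 : (cG.{u}).xu (chevG2.simple i) ((chi c (chevG2.simple i) : F) * t - t) ∈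
        spanGroup chevG2 F (posExcept chevG2 i) := by
      rw [sub_eq_add_neg, ← (cG.{u}).xu_add, ← (cG.{u}).xu_inv]
      have : a'⁻¹ * a = (cG.{u}).xu (chevG2.simple i) ((chi c (chevG2.simple i) : F) * t) *
          ((cG.{u}).xu (chevG2.simple i) t)⁻¹ := by
        calc a'⁻¹ * a = a'⁻¹ * (a * (cG.{u}).xu (chevG2.simple i) t) * ((cG.{u}).xu (chevG2.simple i) t)⁻¹ := by group
          _ = _ := by rw [e2]; group
      rw [← this]; exact mul_mem (inv_mem ha') ha
    have h0 := (xu_mem_except_iff (cG.{u}) hi _).mp e3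
    exact Units.ext (mul_right_cancel₀ ht (by rw [Units.val_one, one_mul]; exact sub_eq_zero.mp h0))
  have hc1 : c = 1 := eq_one_of_simple (key 0 (by norm_num)) (key 1 (by norm_num))
  rw [hc1, tor_one] at ec
  exact conj_eq_one_iff.mp ec

end Cfsg.Agent.KnownA.G2Spec
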