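import Cfsg.Agent.KnownA.G2Spec.Diag
import Cfsg.Agent.KnownA.G2Spec.Unip

/-!
Upper bounds for the element orders of `G₂(q)`.
-/

set_option autoImplicit false
set_option linter.unusedSectionVars false
set_option synthInstance.maxSize 4000

universe u

namespace Cfsg.Agent.KnownA.G2Spec

open Cfsg.Lie Cfsg.Agent.Chev Cfsg.Agent.Chev.G2Odd Cfsg.Agent.Chars2.Homocyclic
open scoped Matrix MatrixGroups

section frob

variable {F : Type u} [Field F] [Fintype F] {K : Type} [Field K] [Fintype K] (ι : F →+* K)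

/-- A diagonal form of an element of `G(q)` is moved by the Weyl group to its `q`-th power. -/
theorem exists_twist {g : GL chevG2.Idx F} {C : GL chevG2.Idx K} (hC : C ∈ chevG2.group K) {c : Kˣ × Kˣ}
    (e : gmap chevG2 ι g = C * tor c * C⁻¹) :
    ∃ L : List ℕ, (∀ i ∈ L, i < 2) ∧
      ∀ r < 12, chi c (act chevG2 L r) = chi c r ^ Fintype.card F := by
  obtain ⟨φ, hφ⟩ := exists_frob ι
  have hφι : φ.comp ι = ι := RingHom.ext fun x => by
    rw [RingHom.comp_apply, hφ, ← map_pow, FiniteField.pow_card]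
  have e1 : C * tor c * C⁻¹ = gmap chevG2 φ C * tor c ^ Fintype.card F * (gmap chevG2 φ C)⁻¹ := by
    rw [← gmap_frob_tor hφ c, ← map_inv, ← map_mul, ← map_mul, ← e, gmap_comp, hφι]
  have hm : C⁻¹ * gmap chevG2 φ C ∈ chevG2.group K := mul_mem (inv_mem hC) (map_group_le φ ⟨C, hC, rfl⟩)
  have e2 : C⁻¹ * gmap chevG2 φ C * tor (c ^ Fintype.card F) * (C⁻¹ * gmap chevG2 φ C)⁻¹ = tor c := by
    rw [tor_pow]
    calc C⁻¹ * gmap chevG2 φ C * tor c ^ Fintype.card F * (C⁻¹ * gmap chevG2 φ C)⁻¹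
        = C⁻¹ * (gmap chevG2 φ C * tor c ^ Fintype.card F * (gmap chevG2 φ C)⁻¹) * C := by group
      _ = _ := by rw [← e1]; group
  obtain ⟨L, a, -, d, -, u, -, -, -, -, hn⟩ :=
    conj_diag (cG.{0}) coxG2 (tor_mem _) (tor_mem c) hm e2
  refine ⟨L.map Fin.val, (cG.{0}).fin_word_lt L, fun r hr => ?_⟩
  rw [chi_act ((cG.{0}).fin_word_lt L) hn hr, chi, ev_pow_left]
  rfl

theorem orderOf_eq_of_diag {g : GL chevG2.Idx F} {C : GL chevG2.Idx K} {c : Kˣ × Kˣ}
    (e : gmap chevG2 ι g = C * tor c * C⁻¹) : orderOf c = orderOf g := by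
  rw [← gmap_orderOf ι g, ← orderOf_tor c, e]
  exact (orderOf_injective (MulAut.conj C).toMonoidHom (MulAut.conj C).injective (tor c)).symm

theorem pow_eq_one_of_chi {c : Kˣ × Kˣ} {N : ℕ} (h : ∀ r < 12, chi c r ^ N = 1) : c ^ N = 1 := by
  refine eq_one_of_simple ?_ ?_ <;> rw [chi, ev_pow_left]
  · exact h 7 (by norm_num)
  · exact h 6 (by norm_num)

theorem dvd_of_chi {c : Kˣ × Kˣ} {N : ℕ} (h : ∀ r < 12, chi c r ^ N = 1) : orderOf c ∣ N :=
  orderOf_dvd_of_pow_eq_one (pow_eq_one_of_chi h)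

/-- The orders of the elements of the five twisted tori. -/
theorem semisimple_order {g : GL chevG2.Idx F} {C : GL chevG2.Idx K} (hC : C ∈ chevG2.group K) {c : Kˣ × Kˣ}
    (e : gmap chevG2 ι g = C * tor c * C⁻¹) :
    orderOf g ∣ Fintype.card F ^ 2 - 1 ∨ orderOf g ∣ Fintype.card F ^ 2 + Fintype.card F + 1 ∨
      orderOf g ∣ Fintype.card F ^ 2 - Fintype.card F + 1 := by
  set q := Fintype.card F with hq
  have hq1 : 1 ≤ q := Fintype.card_pos
  obtain ⟨L, hL, hrel⟩ := exists_twist ι hC e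
  obtain ⟨w, hw, hwL⟩ := exists_W12 L hL
  have hr1 : ∀ r < 12, chi c (act chevG2 w r) = chi c r ^ q := fun r hr => by rw [← hwL r hr]; exact hrel r hr
  have hr2 : ∀ r < 12, chi c (act chevG2 w (act chevG2 w r)) = chi c r ^ q ^ 2 := fun r hr => by
    rw [hr1 _ (act_lt12 w hw r hr), hr1 r hr, ← pow_mul, sq]
  rw [← orderOf_eq_of_diag ι e]
  rcases torus_table w hw with h | h | h | h | h
  · refine Or.inl ((dvd_of_chi fun r hr => ?_).trans (Dvd.intro _ (sq_sub_one q).symm))
    have h1 := hr1 r hr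
    rw [h r hr] at h1
    have : chi c r ^ (q - 1) * chi c r = chi c r := by rw [← pow_succ, Nat.sub_add_cancel hq1]; exact h1.symm
    exact mul_eq_right.mp this
  · refine Or.inl ((dvd_of_chi fun r hr => ?_).trans (Dvd.intro_left _ (sq_sub_one q).symm))
    have h1 := hr1 r hr
    rw [h r hr, chi_neg c hr] at h1
    rw [pow_succ, ← h1, inv_mul_cancel]
  · refine Or.inl (dvd_of_chi fun r hr => ?_)
    have h1 := hr2 r hr
    rw [h r hr] at h1
    have : chi c r ^ (q ^ 2 - 1) * chi c r = chi c r := by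
      rw [← pow_succ, Nat.sub_add_cancel (Nat.one_le_pow _ _ hq1)]; exact h1.symm
    exact mul_eq_right.mp this
  · refine Or.inr (Or.inr (dvd_of_chi fun r hr => ?_))
    have h1 := congrArg (ev c) (h r hr)
    rw [ev_add] at h1
    have h2 : chi c r ^ (q ^ 2) * chi c r = chi c r ^ q := by rw [← hr2 r hr, ← hr1 r hr]; exact h1
    have h3 : chi c r ^ (q ^ 2 - q + 1) * chi c r ^ q = chi c r ^ q := by
      rw [← pow_add]
      have : q ^ 2 - q + 1 + q = q ^ 2 + 1 := by have := Nat.le_self_pow two_ne_zero q; omega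
      rw [this, pow_succ]; exact h2
    exact mul_eq_right.mp h3
  · refine Or.inr (Or.inl (dvd_of_chi fun r hr => ?_))
    have h1 := congrArg (ev c) (h r hr)
    rw [ev_add, ev_add, ev_zero] at h1
    have h2 : chi c r ^ (q ^ 2) * chi c r ^ q * chi c r = 1 := by rw [← hr2 r hr, ← hr1 r hr]; exact h1
    rw [pow_succ, pow_add]; exact h2

/-- An element of the torus singular at a simple root has order dividing `q ± 1`. -/
theorem singular_order {g : GL chevG2.Idx F} {C : GL chevG2.Idx K} (hC : C ∈ chevG2.group K) {c : Kˣ × Kˣ}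
    (e : gmap chevG2 ι g = C * tor c * C⁻¹) {i : ℕ} (hi : i < 2) (h1 : chi c (chevG2.simple i) = 1)
    (hone : ∀ s < 12, chi c s = 1 → s = chevG2.simple i ∨ s = 11 - chevG2.simple i) :
    orderOf g ∣ Fintype.card F - 1 ∨ orderOf g ∣ Fintype.card F + 1 := by
  set q := Fintype.card F with hq
  obtain ⟨L, hL, hrel⟩ := exists_twist ι hC e
  obtain ⟨w, hw, hwL⟩ := exists_W12 L hL
  have hsl : chevG2.simple i < 12 := (cG.{0}).simple_lt i hi
  have hr1 : ∀ r < 12, chi c (act chevG2 w r) = chi c r ^ q := fun r hr => by rw [← hwL r hr]; exact hrel r hr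
  rw [← orderOf_eq_of_diag ι e]
  have hline := line_table i hi w hw (hone _ (act_lt12 w hw _ hsl) (by rw [hr1 _ hsl, h1, one_pow]))
  rcases hline with h | h
  · refine Or.inl (dvd_of_chi fun r hr => ?_)
    obtain ⟨k, -, hk⟩ := h r hr
    have h2 := congrArg (ev c) hk
    rw [ev_sub, ev_zsmul] at h2
    simp only [chi] at h1
    rw [h1, one_zpow, mul_inv_eq_one] at h2
    have h3 : chi c r ^ q = chi c r := (hr1 r hr).symm.trans h2
    have : chi c r ^ (q - 1) * chi c r = chi c r := by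
      rw [← pow_succ, Nat.sub_add_cancel Fintype.card_pos]; exact h3
    exact mul_eq_right.mp this
  · refine Or.inr (dvd_of_chi fun r hr => ?_)
    obtain ⟨k, -, hk⟩ := h r hr
    have h2 := congrArg (ev c) hk
    rw [ev_add, ev_zsmul] at h2
    simp only [chi] at h1
    rw [h1, one_zpow] at h2
    rw [pow_succ, ← hr1 r hr]; exact h2

end frob

variable {F : Type u} [Field F] [Fintype F] (p : ℕ) [Fact p.Prime] [CharP F p]

theorem card_diag_coprime {K : Type} [Field K] [Fintype K] [CharP K p] {h : GL chevG2.Idx K}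
    (hh : h ∈ chevG2.diagonalSubgroup K) {k : ℕ} (hk : h ^ p ^ k = 1) : h = 1 := by
  classical
  have hp : p.Prime := Fact.out
  obtain ⟨c, rfl⟩ := exists_tor hh
  obtain ⟨n, -, hn⟩ := FiniteField.card K p
  have h1 : orderOf (tor c) ∣ Fintype.card K - 1 := by
    rw [orderOf_tor]
    refine orderOf_dvd_of_pow_eq_one (Prod.ext ?_ ?_)
    · rw [Prod.pow_fst, ← Fintype.card_units, pow_card_eq_one]; rfl
    · rw [Prod.pow_snd, ← Fintype.card_units, pow_card_eq_one]; rfl
  have hcop : (Fintype.card K - 1).Coprime (p ^ k) := by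
    refine Nat.Coprime.pow_right _ ((hp.coprime_iff_not_dvd).mpr fun hdvd => ?_).symm
    have hq : p ∣ Fintype.card K := hn ▸ dvd_pow_self p n.ne_zero
    have h1 := Nat.dvd_sub hq hdvd
    rw [Nat.sub_sub_self Fintype.card_pos] at h1
    exact hp.one_lt.ne' (Nat.dvd_one.mp h1)
  exact orderOf_eq_one_iff.mp (Nat.eq_one_of_dvd_coprimes hcop h1 (orderOf_dvd_of_pow_eq_one hk))

/-- The order of a commuting pair of a nontrivial semisimple and a nontrivial unipotent element. -/
theorem mixed_order {s v : GL chevG2.Idx F} (hs : s ∈ chevG2.group F) (hv : v ∈ chevG2.group F) {a : ℕ}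
    (hva : orderOf v = p ^ a) (hsp : (orderOf s).Coprime p) (hcomm : Commute s v) (hs1 : s ≠ 1) (hv1 : v ≠ 1) :
    orderOf v ∣ smallExp p ∧ ((orderOf s = 2 ∨ orderOf s = 3) ∨
      orderOf v ∣ p ∧ (orderOf s ∣ Fintype.card F - 1 ∨ orderOf s ∣ Fintype.card F + 1)) := by
  have hvk : v ^ p ^ a = 1 := by rw [← hva, pow_orderOf_eq_one]
  have hsmall : orderOf v ∣ smallExp p := by
    refine orderOf_dvd_of_pow_eq_one (by_contra fun hmax => ?_)
    obtain ⟨c, hc, hu⟩ := exists_conj_pos p hv hvk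
    have := coprime_centralizer_trivial p (s := c * s * c⁻¹) hu
      (by rw [conj_pow, Ne, conj_eq_one_iff]; exact hmax)
      (mul_mem (mul_mem hc hs) (inv_mem hc))
      (by
        have h := orderOf_injective (MulAut.conj c).toMonoidHom (MulAut.conj c).injective s
        simp only [MulEquiv.coe_toMonoidHom, MulAut.conj_apply] at h
        rwa [h])
      (by
        calc c * s * c⁻¹ * (c * v * c⁻¹) = c * (s * v) * c⁻¹ := by group
          _ = _ := by rw [hcomm.eq]; group)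
    exact hs1 (conj_eq_one_iff.mp this)
  refine ⟨hsmall, ?_⟩
  rcases diagble_or p hs hsp with ⟨K, iK, iF, ι, C, h, hC, hh, e⟩ | h3
  swap
  · left; right
    rcases (Nat.dvd_prime Nat.prime_three).mp (orderOf_dvd_of_pow_eq_one h3) with h | h
    · exact absurd (orderOf_eq_one_iff.mp h) hs1
    · exact h
  obtain ⟨c, rfl⟩ := exists_tor hh
  haveI : CharP K p := charP_of_injective_ringHom ι.injective p
  have hord := orderOf_eq_of_diag ι e
  by_cases hsm : Small c
  · left
    have hne : orderOf s ≠ 1 := fun h => hs1 (orderOf_eq_one_iff.mp h)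
    rcases hsm with h | h <;> have hd := orderOf_dvd_of_pow_eq_one h <;> rw [hord] at hd
    · exact Or.inl (((Nat.dvd_prime Nat.prime_two).mp hd).resolve_left hne)
    · exact Or.inr (((Nat.dvd_prime Nat.prime_three).mp hd).resolve_left hne)
  right
  set v' := C⁻¹ * gmap chevG2 ι v * C with hv'
  have hv'K : v' ∈ chevG2.group K := mul_mem (mul_mem (inv_mem hC) (map_group_le ι ⟨v, hv, rfl⟩)) hC
  have hv'k : v' ^ p ^ a = 1 := by
    rw [hv', show C⁻¹ * gmap chevG2 ι v * C = C⁻¹ * gmap chevG2 ι v * C⁻¹⁻¹ by rw [inv_inv], conj_pow, ← map_pow,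
      hvk, map_one, mul_one, mul_inv_cancel]
  have hcom' : v' * tor c * v'⁻¹ = tor c := by
    have h1 : gmap chevG2 ι v * gmap chevG2 ι s = gmap chevG2 ι s * gmap chevG2 ι v := by
      rw [← map_mul, ← map_mul, hcomm.eq]
    have h2 : tor c = C⁻¹ * gmap chevG2 ι s * C := by rw [e]; group
    rw [h2, hv']
    calc C⁻¹ * gmap chevG2 ι v * C * (C⁻¹ * gmap chevG2 ι s * C) * (C⁻¹ * gmap chevG2 ι v * C)⁻¹
        = C⁻¹ * (gmap chevG2 ι v * gmap chevG2 ι s) * (gmap chevG2 ι v)⁻¹ * C := by group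
      _ = _ := by rw [h1]; group
  rcases kind hsm with hreg | ⟨r₀, hr₀, e₀, hone⟩
  · exfalso
    have h0 := card_diag_coprime p (centralizer_regular hsm hreg hv'K hcom') hv'k
    refine hv1 (gmap_injective ι ?_)
    rw [map_one]
    calc gmap chevG2 ι v = C * v' * C⁻¹ := by rw [hv']; group
      _ = 1 := by rw [h0]; group
  obtain ⟨n, hn, c', i, hi, ec', hc', e', hone'⟩ := to_simple hsm hr₀ e₀ hone
  refine ⟨?_, singular_order ι (C := C * n⁻¹) (c := c') (mul_mem hC (inv_mem hn))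
    (by rw [← ec', e]; group) hi e' hone'⟩
  obtain ⟨φ, hφ⟩ := exists_rootHom (F := K) (cG.{0}) ((cG.{0}).simple_lt i hi)
  have hv'' : n * v' * n⁻¹ ∈ levi φ := by
    refine centralizer_one hc' hi hone' hφ (mul_mem (mul_mem hn hv'K) (inv_mem hn)) ?_
    rw [← ec']
    calc n * v' * n⁻¹ * (n * tor c * n⁻¹) * (n * v' * n⁻¹)⁻¹ = n * (v' * tor c * v'⁻¹) * n⁻¹ := by group
      _ = _ := by rw [hcom']
  have h1 := levi_pow_char p hφ hv'' (k := a) (by rw [conj_pow, hv'k, mul_one, mul_inv_cancel])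
  rw [conj_pow, conj_eq_one_iff, hv'] at h1
  refine orderOf_dvd_of_pow_eq_one (gmap_injective ι ?_)
  rw [map_pow, map_one]
  rw [show C⁻¹ * gmap chevG2 ι v * C = C⁻¹ * gmap chevG2 ι v * C⁻¹⁻¹ by rw [inv_inv], conj_pow,
    conj_eq_one_iff] at h1
  exact h1

/-- The possible shapes of an element order. -/
theorem order_bound {g : GL chevG2.Idx F} (hg : g ∈ chevG2.group F) :
    (orderOf g ∣ p * smallExp p ∧ (7 ≤ p → orderOf g ∣ p)) ∨
    (orderOf g ∣ Fintype.card F ^ 2 - 1 ∨ orderOf g ∣ Fintype.card F ^ 2 + Fintype.card F + 1 ∨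
      orderOf g ∣ Fintype.card F ^ 2 - Fintype.card F + 1) ∨
    (p ≠ 2 ∧ orderOf g ∣ 2 * smallExp p) ∨ (p ≠ 3 ∧ orderOf g ∣ 3 * smallExp p) ∨
    (orderOf g ∣ p * (Fintype.card F - 1) ∨ orderOf g ∣ p * (Fintype.card F + 1)) := by
  classical
  have hp : p.Prime := Fact.out
  have hpos : 0 < orderOf g := (isOfFinOrder_of_finite g).orderOf_pos
  obtain ⟨a, m, hm, en⟩ : ∃ a m, ¬ p ∣ m ∧ orderOf g = p ^ a * m :=
    Nat.exists_eq_pow_mul_and_not_dvd hpos.ne' p hp.ne_one
  have hm0 : 0 < m := Nat.pos_of_ne_zero fun h => by rw [h, mul_zero] at en; omega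
  have hcop : m.Coprime p := ((hp.coprime_iff_not_dvd).mpr hm).symm
  by_cases hm1 : m = 1
  · left
    rw [hm1, mul_one] at en
    obtain ⟨c, hc, hu⟩ := exists_conj_pos p hg (k := a) (by rw [← en, pow_orderOf_eq_one])
    obtain ⟨h1, h2⟩ := pos_pow_eq_one p hu
    have h := orderOf_injective (MulAut.conj c).toMonoidHom (MulAut.conj c).injective g
    simp only [MulEquiv.coe_toMonoidHom, MulAut.conj_apply] at h
    exact ⟨h ▸ orderOf_dvd_of_pow_eq_one h1, fun h7 => h ▸ orderOf_dvd_of_pow_eq_one (h2 h7)⟩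
  by_cases ha : a = 0
  · rw [ha, pow_zero, one_mul] at en
    right
    rcases diagble_or p hg (en ▸ hcop) with ⟨K, iK, iF, ι, C, h, hC, hh, e⟩ | h3
    · left
      obtain ⟨c, rfl⟩ := exists_tor hh
      exact semisimple_order ι hC e
    · right; right; left
      have hd := orderOf_dvd_of_pow_eq_one h3
      rw [en] at hd ⊢
      rcases (Nat.dvd_prime Nat.prime_three).mp hd with h | h
      · exact absurd h hm1
      · subst h
        exact ⟨fun e => hm (e ▸ dvd_rfl), dvd_mul_right _ _⟩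
  set v := g ^ m with hv
  set s := g ^ p ^ a with hs
  have hvo : orderOf v = p ^ a := by
    rw [hv, orderOf_pow_of_dvd hm0.ne' (en ▸ dvd_mul_left _ _), en, Nat.mul_div_cancel _ hm0]
  have hso : orderOf s = m := by
    rw [hs, orderOf_pow_of_dvd (pow_ne_zero _ hp.ne_zero) (en ▸ dvd_mul_right _ _), en,
      Nat.mul_div_cancel_left _ (pow_pos hp.pos _)]
  obtain ⟨h1, h2⟩ := mixed_order p (s := s) (v := v) (pow_mem hg _) (pow_mem hg _) hvo (hso ▸ hcop)
    (Commute.pow_pow_self g _ _) (fun h => hm1 (by rw [← hso, h, orderOf_one]))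
    (fun h => ha (by
      have := hvo.symm.trans (h ▸ orderOf_one)
      rcases Nat.pow_eq_one.mp this with h | h
      · exact absurd h hp.ne_one
      · exact h))
  rw [hvo] at h1 h2
  rw [hso] at h2
  right; right
  rw [en]
  rcases h2 with (h | h) | ⟨hv1, h⟩
  · left
    subst h
    exact ⟨fun e => hm (e ▸ dvd_rfl), by rw [mul_comm (p ^ a)]; exact Nat.mul_dvd_mul_left 2 h1⟩
  · right; left
    subst h
    exact ⟨fun e => hm (e ▸ dvd_rfl), by rw [mul_comm (p ^ a)]; exact Nat.mul_dvd_mul_left 3 h1⟩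
  · right; right
    exact h.imp (Nat.mul_dvd_mul hv1) (Nat.mul_dvd_mul hv1)

/-- The bound in even characteristic. -/
theorem order_bound_even {F : Type u} [Field F] [Fintype F] [CharP F 2] {g : GL chevG2.Idx F}
    (hg : g ∈ chevG2.group F) :
    ∃ l ∈ ({8, 12, 2 * (Fintype.card F + 1), 2 * (Fintype.card F - 1), Fintype.card F ^ 2 - 1,
      Fintype.card F ^ 2 + Fintype.card F + 1, Fintype.card F ^ 2 - Fintype.card F + 1} : Set ℕ), orderOf g ∣ l := by
  haveI : Fact (Nat.Prime 2) := ⟨Nat.prime_two⟩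
  simp only [Set.mem_insert_iff, Set.mem_singleton_iff, exists_eq_or_imp, exists_eq_left]
  rcases order_bound 2 hg with ⟨h, -⟩ | h | ⟨h, -⟩ | ⟨-, h⟩ | h | h
  · exact Or.inl (h.trans (by norm_num [smallExp]))
  · rcases h with h | h | h
    · exact Or.inr (Or.inr (Or.inr (Or.inr (Or.inl h))))
    · exact Or.inr (Or.inr (Or.inr (Or.inr (Or.inr (Or.inl h)))))
    · exact Or.inr (Or.inr (Or.inr (Or.inr (Or.inr (Or.inr h)))))
  · exact absurd rfl h
  · exact Or.inr (Or.inl (h.trans (by norm_num [smallExp])))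
  · exact Or.inr (Or.inr (Or.inr (Or.inl h)))
  · exact Or.inr (Or.inr (Or.inl h))

/-- The bound in odd characteristic. -/
theorem order_bound_odd (hp2 : p ≠ 2) {g : GL chevG2.Idx F} (hg : g ∈ chevG2.group F) :
    ∃ l ∈ ({p * (Fintype.card F + 1), p * (Fintype.card F - 1), Fintype.card F ^ 2 - 1,
      Fintype.card F ^ 2 + Fintype.card F + 1, Fintype.card F ^ 2 - Fintype.card F + 1} : Set ℕ) ∪
        (if p = 3 ∨ p = 5 then ({p ^ 2} : Set ℕ) else ∅), orderOf g ∣ l := by
  have hp : p.Prime := Fact.out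
  have hse : smallExp p = p := by rw [smallExp, if_neg hp2]
  obtain ⟨n, -, hn⟩ := FiniteField.card F p
  have hodd : Odd (Fintype.card F) := hn ▸ (hp.odd_of_ne_two hp2).pow
  have h2 : 2 ∣ Fintype.card F + 1 := even_iff_two_dvd.mp hodd.add_one
  rcases order_bound p hg with ⟨h, h7⟩ | h | ⟨-, h⟩ | ⟨h3, h⟩ | h | h
  · by_cases h35 : p = 3 ∨ p = 5
    · refine ⟨p ^ 2, Or.inr (by rw [if_pos h35]; exact rfl), ?_⟩
      rw [hse] at h; rwa [sq]
    · push_neg at h35
      have h5 : 7 ≤ p := by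
        by_contra hc
        push_neg at hc
        have := hp.two_le
        interval_cases p <;> simp_all +decide
      exact ⟨p * (Fintype.card F + 1), Or.inl (Or.inl rfl), (h7 h5).trans (dvd_mul_right _ _)⟩
  · rcases h with h | h | h
    · exact ⟨_, Or.inl (by simp), h⟩
    · exact ⟨_, Or.inl (Or.inr (Or.inr (Or.inr (Or.inl rfl)))), h⟩
    · exact ⟨_, Or.inl (Or.inr (Or.inr (Or.inr (Or.inr rfl)))), h⟩
  · exact ⟨p * (Fintype.card F + 1), Or.inl (Or.inl rfl), h.trans (by
      rw [hse, mul_comm 2 p]; exact Nat.mul_dvd_mul_left p h2)⟩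
  · rw [hse, mul_comm 3 p] at h
    have hmod : 3 ∣ Fintype.card F + 1 ∨ 3 ∣ Fintype.card F - 1 := by
      have : ¬ 3 ∣ Fintype.card F := fun hd => h3
        ((Nat.prime_dvd_prime_iff_eq Nat.prime_three hp).mp (Nat.prime_three.dvd_of_dvd_pow (hn ▸ hd))).symm
      rw [Nat.dvd_iff_mod_eq_zero] at this
      have hlt : Fintype.card F % 3 < 3 := Nat.mod_lt _ (by norm_num)
      clear h2
      rcases (show Fintype.card F % 3 = 1 ∨ Fintype.card F % 3 = 2 by omega) with hm | hm
      · right; omega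
      · left; omega
    rcases hmod with hm | hm
    · exact ⟨p * (Fintype.card F + 1), Or.inl (Or.inl rfl), h.trans (Nat.mul_dvd_mul_left p hm)⟩
    · exact ⟨p * (Fintype.card F - 1), Or.inl (Or.inr (Or.inl rfl)), h.trans (Nat.mul_dvd_mul_left p hm)⟩
  · exact ⟨p * (Fintype.card F - 1), Or.inl (Or.inr (Or.inl rfl)), h⟩
  · exact ⟨p * (Fintype.card F + 1), Or.inl (Or.inl rfl), h⟩

end Cfsg.Agent.KnownA.G2Spec
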